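import Cfsg.Agent.H53.AhDefs

/-!
Solvable groups whose conjugacy classes have distinct sizes: orthogonal systems of blocks.
-/

set_option autoImplicit false
set_option linter.unusedSectionVars false

namespace Cfsg.Agent.H36.AhO

open MulAction Cfsg.Agent.H12.RO Cfsg.Agent.H53.MW Cfsg.Agent.H53.AH

universe u

theorem choose5 : ∀ x y z : ZMod 5, x ≠ 0 → z ≠ 0 → ∃ t s : Fin 5,
    (t : ℕ) * x ≠ 0 ∧ (s : ℕ) * z ≠ 0 ∧ (t : ℕ) * x ≠ (s : ℕ) * z ∧
    (t : ℕ) * x ≠ (s : ℕ) * ((t : ℕ) * y) ∧ (s : ℕ) * ((t : ℕ) * y) ≠ (s : ℕ) * z := by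
  decide +kernel

theorem cyc5 : ∀ x y z : ZMod 5, x = -y → y = -z → z = -x → x = 0 := by decide +kernel

theorem three {Ω : Type*} (B : Ω → Ω → ZMod 5) (sk : ∀ a b, B a b = - B b a) {σ : Ω → Ω}
    (hσ : Function.Injective σ) (h : ∀ a b, B a b = - B (σ a) (σ b)) {i j k : Ω} (h1 : i ≠ j)
    (h2 : i ≠ k) (h3 : j ≠ k) (supp : ∀ a b, B a b ≠ 0 → a = i ∨ a = j ∨ a = k)
    (hx : B i j ≠ 0) (hz : B k i ≠ 0) (e1 : B i j ≠ B k i) (e2 : B i j ≠ B j k)
    (e3 : B j k ≠ B k i) : False := by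
  have a1 := h i j
  have a2 := h j k
  have a3 := h k i
  have b1 := supp (σ i) (σ j) fun e => hx (by rw [a1, e, neg_zero])
  have b2 := supp (σ j) (σ i) fun e => hx (by rw [a1, sk, e, neg_zero, neg_zero])
  have b3 := supp (σ k) (σ i) fun e => hz (by rw [a3, e, neg_zero])
  have c1 := hσ.ne h1
  have c2 := hσ.ne h2
  have c3 := hσ.ne h3
  rcases b1 with b1 | b1 | b1 <;> rcases b2 with b2 | b2 | b2 <;> rcases b3 with b3 | b3 | b3 <;>
    rw [b1, b2] at c1 a1 <;> rw [b1, b3] at c2 a3 <;> rw [b2, b3] at c3 a2 <;>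
    first
    | exact c1 rfl
    | exact c2 rfl
    | exact c3 rfl
    | exact hx (cyc5 _ _ _ a1 a1 a1)
    | exact hx (cyc5 _ _ _ a1 a2 a3)
    | exact hx (cyc5 _ _ _ a1 a3 a2)
    | exact e1 (a1.trans (sk _ _).symm)
    | exact e2 (a1.trans (sk _ _).symm)
    | exact e3 (a2.trans (sk _ _).symm)

variable {G V : Type u} [Group G] [AddCommGroup V] [DistribMulAction G V] {p : ℕ}
  {β : V →+ V →+ ZMod p} (M : Mod G V p β)
include M

theorem skew (v w : V) : β v w = - β w v := by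
  have := M.alt (v + w)
  simp only [map_add, AddMonoidHom.add_apply, M.alt] at this
  linear_combination this

theorem cast_eq {n : ℕ} {a : ZMod p} (ha : a ≠ 0) (h : (n : ZMod p) * a = 0) : p ∣ n := by
  have := Fact.mk M.prime
  exact (ZMod.natCast_eq_zero_iff n p).1 ((mul_eq_zero.1 h).resolve_right ha)

theorem two_inj {v : V} (h : 2 • v = 0) : v = 0 := M.nd v fun w => by_contra fun e => by
  have := Nat.le_of_dvd two_pos (cast_eq M (n := 2) e (by
    rw [← nsmul_eq_mul, ← AddMonoidHom.nsmul_apply, ← map_nsmul, h]; simp))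
  have := M.ge
  omega

theorem ep2 {v : V} (hv : v ≠ 0) : ∃ g : G, g • v = 2 • v :=
  M.dos v _ hv (fun e => hv (two_inj M e)) (by
    congr 3
    ext g
    simp only [mem_stabilizer_iff]
    refine ⟨fun h => by rw [smul_comm, h], fun h => sub_eq_zero.1 (two_inj M ?_)⟩
    rw [smul_sub, ← smul_comm, h, sub_self])

variable {Ω : Type u} [MulAction G Ω] [Fintype Ω] (S : Sys G V Ω)

theorem comp {v : V} (hv : v ≠ 0) : ∃ g : G, ∀ a b : Ω,
    β (S.e a v) (S.e b v) = 4 * β (S.e (g • a) v) (S.e (g • b) v) := by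
  obtain ⟨g, hg⟩ := ep2 M hv
  refine ⟨g, fun a b => ?_⟩
  rw [← M.inv g, ← S.equiv, ← S.equiv, hg]
  simp only [map_nsmul, AddMonoidHom.nsmul_apply, nsmul_eq_mul]
  push_cast
  ring

theorem five {i j : Ω} (h : i ≠ j) {x y : V} (hx : β (S.e i x) (S.e j y) ≠ 0) : p = 5 := by
  have e1 : S.e i (S.e i x + S.e j y) = S.e i x := by rw [map_add, S.idem, S.orth i j h, add_zero]
  have e2 : S.e j (S.e i x + S.e j y) = S.e j y := by
    rw [map_add, S.idem, S.orth j i h.symm, zero_add]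
  have e3 : ∀ a, a ≠ i → a ≠ j → S.e a (S.e i x + S.e j y) = 0 := fun a h1 h2 => by
    rw [map_add, S.orth a i h1, S.orth a j h2, add_zero]
  obtain ⟨g, hg⟩ := comp M S (v := S.e i x + S.e j y) fun e => hx (by rw [← e1, e]; simp)
  have h1 := hg i j
  have h2 := (MulAction.injective g).ne h
  have h3 := M.ge
  by_cases a1 : g • i = i
  · by_cases a2 : g • j = j
    · rw [a1, a2, e1, e2] at h1
      have := Nat.le_of_dvd three_pos (cast_eq M (n := 3) hx (by linear_combination -h1))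
      omega
    · rw [e1, e2, e3 _ (a1 ▸ h2.symm) a2] at h1
      simp [hx] at h1
  by_cases a3 : g • i = j
  · by_cases a2 : g • j = i
    · rw [a3, a2, e1, e2, skew M (S.e j y)] at h1
      exact ((Nat.prime_dvd_prime_iff_eq M.prime Nat.prime_five).1
        (cast_eq M (n := 5) hx (by linear_combination h1)))
    · rw [e1, e2, e3 _ a2 (a3 ▸ h2.symm)] at h1
      simp [hx] at h1
  · rw [e1, e2, e3 _ a1 a3] at h1
    simp [hx] at h1

theorem uniq {i j k : Ω} (h1 : i ≠ j) (h2 : i ≠ k) {x y x' z : V}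
    (hx : β (S.e i x) (S.e j y) ≠ 0) (hz : β (S.e i x') (S.e k z) ≠ 0) : j = k := by
  by_contra h3
  obtain rfl := five M S h1 hx
  obtain ⟨x, hx, hz⟩ : ∃ x, β (S.e i x) (S.e j y) ≠ 0 ∧ β (S.e i x) (S.e k z) ≠ 0 := by
    by_cases a1 : β (S.e i x) (S.e k z) = 0
    · by_cases a2 : β (S.e i x') (S.e j y) = 0
      · exact ⟨x + x', by simpa [a2] using hx, by simpa [a1] using hz⟩
      · exact ⟨x', a2, hz⟩
    · exact ⟨x, hx, a1⟩
  obtain ⟨t, s, c1, c2, c3, c4, c5⟩ := choose5 _ (β (S.e j y) (S.e k z)) (β (S.e k z) (S.e i x)) hx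
    (by rwa [skew M, neg_ne_zero])
  set v := S.e i x + (t : ℕ) • S.e j y + (s : ℕ) • S.e k z with hv
  have e1 : S.e i v = S.e i x := by simp [hv, S.idem, S.orth i j h1, S.orth i k h2]
  have e2 : S.e j v = (t : ℕ) • S.e j y := by
    simp [hv, S.idem, S.orth j i h1.symm, S.orth j k h3]
  have e3 : S.e k v = (s : ℕ) • S.e k z := by
    simp [hv, S.idem, S.orth k i h2.symm, S.orth k j (Ne.symm h3)]
  obtain ⟨g, hg⟩ := comp M S (v := v) fun e => hx (by rw [← e1, e]; simp)
  refine three (fun a b => β (S.e a v) (S.e b v)) (fun a b => skew M _ _) (MulAction.injective g)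
    (fun a b => (hg a b).trans (by rw [show (4 : ZMod 5) = -1 by decide, neg_one_mul])) h1 h2 h3
    (fun a b h => ?_) ?_ ?_ ?_ ?_ ?_
  · by_contra! e
    simp [hv, S.orth a i e.1, S.orth a j e.2.1, S.orth a k e.2.2] at h
  all_goals simp only [e1, e2, e3, map_nsmul, AddMonoidHom.nsmul_apply, nsmul_eq_mul]
  exacts [c1, c2, c3, c4, c5]

omit M in
theorem map_orth {Ω' : Type u} [MulAction G Ω'] [Fintype Ω'] (φ : Ω → Ω')
    (hφ : ∀ (g : G) ω, φ (g • ω) = g • φ ω) (hs : Function.Surjective φ)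
    (h : ∀ i j, φ i ≠ φ j → ∀ x y, β (S.e i x) (S.e j y) = 0) (a b : Ω') (hab : a ≠ b) (x y : V) :
    β ((S.map φ hφ hs).e a x) ((S.map φ hφ hs).e b y) = 0 := by
  classical
  simp only [Sys.map, AddMonoidHom.finsetSum_apply, map_sum]
  refine Finset.sum_eq_zero fun j hj => Finset.sum_eq_zero fun i hi => h i j ?_ x y
  rw [Finset.mem_filter] at hi hj
  rwa [hi.2, hj.2]

omit M in
/-- **ORTH** -/
theorem orth (ht : TwoStmt.{u}) : OrthStmt.{u} := by
  intro G V _ _ _ _ _ _ _ p β M Ω _ _ _ S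
  classical
  let R : Ω → Ω → Prop := fun i j => i = j ∨ ∃ x y, β (S.e i x) (S.e j y) ≠ 0
  have hs : ∀ {i j}, R i j → R j i := fun h => h.imp Eq.symm fun ⟨x, y, h⟩ =>
    ⟨y, x, by rwa [skew M, neg_ne_zero]⟩
  have hu : ∀ {i j k}, R i j → R i k → i = j ∨ i = k ∨ j = k := fun {i j k} h h' => by
    by_contra! e
    obtain ⟨x, y, h⟩ := h.resolve_left e.1
    obtain ⟨x', z, h'⟩ := h'.resolve_left e.2.1
    exact e.2.2 (uniq M S e.1 e.2.1 h h')
  let r : Setoid Ω := ⟨R, fun _ => .inl rfl, hs, fun h h' => by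
    rcases hu (hs h) h' with rfl | rfl | rfl
    exacts [h', h, .inl rfl]⟩
  have hi : ∀ (g : G) i j, R i j → R (g • i) (g • j) := fun g i j h =>
    h.imp (congrArg _) fun ⟨x, y, h⟩ => ⟨g • x, g • y, by rwa [S.equiv, S.equiv, M.inv]⟩
  let _ : MulAction G (Quotient r) :=
    { smul := fun g => Quotient.map (g • ·) (hi g)
      one_smul := fun a => Quotient.inductionOn a fun a => congrArg (Quotient.mk r) (one_smul G a)
      mul_smul := fun g h a => Quotient.inductionOn a fun a =>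
        congrArg (Quotient.mk r) (mul_smul g h a) }
  let _ : Fintype (Quotient r) := Fintype.ofFinite _
  have : Nontrivial (Quotient r) := by
    by_contra hn
    rw [not_nontrivial_iff_subsingleton] at hn
    have all : ∀ a b, R a b := fun a b => Quotient.exact (s := r) (Subsingleton.elim _ _)
    obtain ⟨i, j, hij⟩ := exists_pair_ne Ω
    obtain ⟨x, y, h⟩ := (all i j).resolve_left hij
    refine h (ht G V p β M Ω S ?_ i j hij x y)
    rw [← Finset.card_univ, ← Finset.card_pair hij]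
    congr 1
    ext a
    rcases hu (all i j) (all i a) with e | e | e <;> simp_all
  refine ⟨Quotient r, inferInstance, inferInstance, this,
    S.map (Quotient.mk r) (fun _ _ => rfl) Quotient.mk_surjective, fun a b hab x y => ?_⟩
  exact map_orth S _ _ _ (fun i j e => by_contra fun h => e (Quotient.sound (s := r)
    (Or.inr (by simpa using h)))) a b hab x y

end Cfsg.Agent.H36.AhO
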