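import Cfsg.Agent.H9.C3Defs

/-! The Sylow 2-subgroup of the diamond. -/

set_option autoImplicit false

namespace Cfsg.Agent.H36.C3D

open Subgroup Cfsg.Agent.H62 Cfsg.Agent.H9.C3

universe u

variable {G : Type u} [Group G]

theorem card_le [Finite G] (H B V : Subgroup G) (h : ∀ a ∈ H, ∃ v ∈ V, a * v⁻¹ ∈ B) :
    Nat.card H ≤ Nat.card V * Nat.card (B ⊓ H : Subgroup G) := by
  classical
  choose v hv hb using h
  let f : H → V := fun a => ⟨v a a.2, hv a a.2⟩
  let r : V → H := fun w => if h : ∃ a, f a = w then h.choose else 1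
  have hr : ∀ a, f (r (f a)) = f a := fun a => by
    have h : ∃ a', f a' = f a := ⟨a, rfl⟩
    simp only [r, dif_pos h]
    exact h.choose_spec
  rw [← Nat.card_prod]
  refine Nat.card_le_card_of_injective (fun a : H => (f a, (⟨a * (r (f a) : G)⁻¹, ?_,
    H.mul_mem a.2 (H.inv_mem (r (f a)).2)⟩ : (B ⊓ H : Subgroup G)))) fun a a' e => ?_
  · have h1 := hb a a.2
    have h2 := hb _ (r (f a)).2
    rw [show v _ (r (f a)).2 = v a a.2 from congrArg Subtype.val (hr a)] at h2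
    have := B.mul_mem h1 (B.inv_mem h2)
    rwa [mul_inv_rev, inv_inv, mul_assoc, inv_mul_cancel_left] at this
  · obtain ⟨e1, e2⟩ := Prod.ext_iff.1 e
    have e3 : (a : G) * (r (f a) : G)⁻¹ = a' * (r (f a') : G)⁻¹ := congrArg Subtype.val e2
    rw [show f a = f a' from e1] at e3
    exact Subtype.ext (mul_right_cancel e3)

theorem mem_C1 {t a : G} : a ∈ C1 t ↔ a * t = t * a := mem_centralizer_singleton_iff

theorem step [Finite G] {B V : Subgroup G} {s t : G} (c : ∀ v ∈ V, ∀ b ∈ B, v * b = b * v)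
    (d : V ⊓ B = ⊥) (tB : ∀ b ∈ B, t * b * t⁻¹ ∈ B) (sV : ∀ v ∈ V, s * v * s⁻¹ ∈ V)
    (st : ∀ v ∈ V, t * v * t⁻¹ * (s * v * s⁻¹)⁻¹ ∈ B) :
    Nat.card ((V ⊔ B) ⊓ C1 t : Subgroup G) ≤
      Nat.card (V ⊓ C1 s : Subgroup G) * Nat.card (B ⊓ C1 t : Subgroup G) := by
  refine (card_le _ B (V ⊓ C1 s) fun a ha => ?_).trans (Nat.mul_le_mul_left _
    (card_le_of_le (inf_le_inf_left _ inf_le_right)))
  have hn : V ≤ normalizer (B : Set G) := fun v hv => centralizer_le_normalizer _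
    (mem_centralizer_iff.2 fun b hb => (c v hv b hb).symm)
  have : a ∈ ((B ⊔ V : Subgroup G) : Set G) := by rw [sup_comm]; exact ha.1
  rw [coe_mul_of_right_le_normalizer_left _ _ hn] at this
  obtain ⟨b, hb, v, hv, rfl⟩ := this
  refine ⟨v, ⟨hv, mem_C1.2 ?_⟩, by simpa using hb⟩
  have e : b * v * t = t * (b * v) := mem_C1.1 ha.2
  have : s * v * s⁻¹ * v⁻¹ ∈ V ⊓ B := ⟨V.mul_mem (sV v hv) (V.inv_mem hv), by
    have := B.mul_mem (B.inv_mem (B.mul_mem (tB b hb) (st v hv))) hb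
    have e' : (t * b * t⁻¹ * (t * v * t⁻¹ * (s * v * s⁻¹)⁻¹))⁻¹ * b =
        s * v * s⁻¹ * (t * (b * v) * t⁻¹)⁻¹ * b := by group
    rw [e', ← e, mul_inv_cancel_right, mul_inv_rev b, ← mul_assoc, inv_mul_cancel_right] at this
    exact this⟩
  rw [d, mem_bot, mul_inv_eq_one, mul_inv_eq_iff_eq_mul] at this
  exact this.symm

theorem pr_insert (e x : G) (i : Fin 4) (I : Finset (Fin 4)) :
    Pr e x (insert i I) = W e x i ⊔ Pr e x I := Finset.iSup_insert _ _ _

theorem pr_single (e x : G) (i : Fin 4) : Pr e x {i} = W e x i := Finset.iSup_singleton _ _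

theorem le_pr (e x : G) {i : Fin 4} {I : Finset (Fin 4)} (h : i ∈ I) : W e x i ≤ Pr e x I :=
  le_iSup₂_of_le (f := fun j (_ : j ∈ I) => W e x j) i h le_rfl

theorem ds : DSStmt.{u} := by
  intro G _ _ K P e x _ L D du hZ
  have s2 := L.sq
  have sP : ∀ I v, v ∈ Pr e x I ↔ e * e * v * (e * e)⁻¹ ∈ Pr e x I := fun I v => by
    rw [L.cjP, L.cjP, Finset.image_image, show sg ∘ sg = id by decide, Finset.image_id]
    congr! 1
    group
  have sW : ∀ i, ∀ v ∈ W e x i, e * e * v * (e * e)⁻¹ ∈ W e x i := fun i v hv => by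
    rw [← pr_single] at hv ⊢
    exact (sP _ v).1 hv
  have eU : ∀ v, v ∈ Pr e x Finset.univ ↔ e * v * e⁻¹ ∈ Pr e x Finset.univ := fun v => by
    rw [L.cjP, show Finset.univ.image sg = Finset.univ by decide]
  have c1 := (L.cl {1} (fun j _ => D.big j) (by simpa using D.c1 1)).2.2 0 (by decide)
  have c01 := (L.cl {0, 1} (fun j _ => D.big j) (by
    simp only [Finset.mem_insert, Finset.mem_singleton]
    rintro j (rfl | rfl) k -
    exacts [D.c0 k, D.c1 k])).2.2
  have fx := fun i => L.sfix i (D.big i)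
  have w0 : W e x 0 ≤ Pr e x {0, 1} := le_pr e x (by decide)
  have w1 : W e x 1 ≤ Pr e x {0, 1} := le_pr e x (by decide)
  have wU : ∀ i, W e x i ≤ Pr e x Finset.univ := fun i => le_pr e x (Finset.mem_univ i)
  have p01 : Pr e x {0, 1} = W e x 0 ⊔ W e x 1 := by rw [pr_insert, pr_single]
  have p2 : Pr e x {0, 1, 2} = W e x 2 ⊔ Pr e x {0, 1} := by
    rw [← pr_insert]; congr 1; decide
  have p3 : Pr e x {0, 1, 3} = W e x 3 ⊔ Pr e x {0, 1} := by
    rw [← pr_insert]; congr 1; decide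
  have c4 := (K.card _ (L.ord 0)).resolve_left (D.big 0)
  have sA := sP {0, 1, 2}
  have sA' := sP {0, 1, 3}
  have sZ := sP {0, 1}
  have sU := sP Finset.univ
  rw [pr_single] at c1
  generalize Pr e x Finset.univ = U at *
  generalize Pr e x {0, 1, 2} = A at *
  generalize Pr e x {0, 1, 3} = A' at *
  generalize Pr e x {0, 1} = Z at *
  have uZ : ∀ u ∈ U, ∀ z ∈ Z, u * z = z * u := fun u hu z hz => by
    rw [← hZ] at hz
    have : U ≤ C1 z := du.sup ▸ sup_le (fun a ha => mem_C1.2 (du.ea.comm ha hz.1))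
      fun a ha => mem_C1.2 (du.ea'.comm ha hz.2)
    exact mem_C1.1 (this hu)
  have ns : e * e ∉ U := fun h => by
    have := fx 0
    rw [inf_eq_left.2 fun v hv => mem_C1.2 (uZ _ h v (w0 hv)).symm] at this
    exact absurd (this.symm.trans c4) (by decide)
  have inv : ∀ t ∈ U ⊔ zpowers e, t * t = 1 → t ∉ U → ∃ u ∈ U, t = u * (e * e) := by
    intro t ht tt hn
    have hn' : zpowers e ≤ normalizer (U : Set G) := (zpowers_le).2 (mem_normalizer_iff.2 eU)
    have : t ∈ ((U ⊔ zpowers e : Subgroup G) : Set G) := ht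
    rw [coe_mul_of_right_le_normalizer_left _ _ hn'] at this
    obtain ⟨u, hu, y, hy, rfl⟩ := this
    have yy : y * y ∈ U := by
      have := U.inv_mem (U.mul_mem hu ((mem_normalizer_iff.1 (hn' hy) u).1 hu))
      have e' : (u * (y * u * y⁻¹))⁻¹ = y * y * (u * y * (u * y))⁻¹ := by group
      replace tt : u * y * (u * y) = 1 := tt
      rwa [e', tt, inv_one, mul_one] at this
    obtain ⟨k, rfl⟩ := hy
    have e4 : e ^ (4 : ℤ) = 1 := by
      rw [← s2, show (4 : ℤ) = 2 + 2 by rfl, zpow_add, zpow_two]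
    have ek : e ^ k = e ^ (k % 4) := by
      conv_lhs => rw [← Int.mul_ediv_add_emod k 4, zpow_add, zpow_mul, e4, one_zpow, one_mul]
    beta_reduce at yy hn ⊢
    rw [ek] at yy hn ⊢
    have : k % 4 = 0 ∨ k % 4 = 1 ∨ k % 4 = 2 ∨ k % 4 = 3 := by omega
    rcases this with h | h | h | h <;> rw [h] at yy hn ⊢
    · exact absurd (by simpa using hu) hn
    · exact absurd (by simpa using yy) ns
    · exact ⟨u, hu, by rw [zpow_two]⟩
    · refine absurd ?_ ns
      rwa [← zpow_add, show (3 + 3 : ℤ) = 4 + 2 by rfl, zpow_add, e4, one_mul, zpow_two] at yy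
  refine ⟨⟨du, le_sup_left, fun t ht t' ht' tt tt' hn hn' => ?_, fun t ht hn tt => ?_⟩, ns⟩
  · obtain ⟨u, hu, rfl⟩ := inv t ht tt hn
    obtain ⟨u', hu', rfl⟩ := inv t' ht' tt' hn'
    have := U.mul_mem hu ((sU u').1 hu')
    rw [inv_eq_of_mul_eq_one_right s2] at this
    simpa only [mul_assoc] using this
  · obtain ⟨u, hu, rfl⟩ := inv t ht tt hn
    generalize e * e = s at *
    have cj : ∀ v, u * s * v * (u * s)⁻¹ = u * (s * v * s⁻¹) * u⁻¹ := fun v => by group
    have tz : ∀ z ∈ Z, u * s * z * (u * s)⁻¹ = s * z * s⁻¹ := fun z hz => by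
      rw [cj, uZ u hu _ ((sZ z).1 hz), mul_inv_cancel_right]
    have k1 : Nat.card (W e x 1 ⊓ C1 (u * s) : Subgroup G) ≤ 2 := by
      rw [← fx 1]
      refine card_le_of_le fun v hv => ⟨hv.1, mem_C1.2 ?_⟩
      have := tz v (w1 hv.1)
      rw [← mem_C1.1 hv.2, mul_inv_cancel_right] at this
      exact eq_mul_inv_iff_mul_eq.1 this
    have k2 : Nat.card (Z ⊓ C1 (u * s) : Subgroup G) ≤ 4 := by
      have := step (s := s) (t := u * s) (D.c0 1) c1
        (fun b hb => by rw [tz b (w1 hb)]; exact sW 1 b hb) (sW 0)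
        (fun v hv => by rw [tz v (w0 hv), mul_inv_cancel]; exact one_mem _)
      rw [← p01, fx] at this
      omega
    have k3 : ∀ i, i ∉ ({0, 1} : Finset (Fin 4)) →
        Nat.card ((W e x i ⊔ Z) ⊓ C1 (u * s) : Subgroup G) ≤ 8 := fun i hi => by
      have := step (s := s) (t := u * s) (fun v hv => uZ v (wU i hv)) (c01 i hi)
        (fun b hb => by rw [tz b hb]; exact (sZ b).1 hb) (sW i)
        (fun v hv => by rw [cj, ← hZ]; exact du.cm u hu _ (wU i (sW i v hv)))
      rw [fx] at this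
      omega
    exact ⟨mul_mem (du.nA hu) (mem_normalizer_iff.2 sA),
      mul_mem (du.nA' hu) (mem_normalizer_iff.2 sA'), p2 ▸ k3 2 (by decide), p3 ▸ k3 3 (by decide)⟩

end Cfsg.Agent.H36.C3D
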