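import Mathlib

/-! The conjugation action of a quotient on an abelian normal subgroup, written additively. -/

set_option autoImplicit false

namespace Cfsg.Agent.H36.CM

open Subgroup

/-- The action of `H` on `Additive N` through a homomorphism to the automorphism group. -/
@[reducible] def autAction {H N : Type*} [Group H] [CommGroup N] (φ : H →* MulAut N) :
    DistribMulAction H (Additive N) where
  smul g v := Additive.ofMul (φ g v.toMul)
  one_smul v := by
    change Additive.ofMul (φ 1 v.toMul) = v
    rw [map_one]; rfl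
  mul_smul a b v := by
    change Additive.ofMul (φ (a * b) v.toMul) = Additive.ofMul (φ a (φ b v.toMul))
    rw [map_mul]; rfl
  smul_zero a := congrArg Additive.ofMul (map_one (φ a))
  smul_add a v w := congrArg Additive.ofMul (map_mul (φ a) v.toMul w.toMul)

universe u

/-- An abelian normal subgroup `N` as a module for `G ⧸ C` whenever `C` centralizes `N`. -/
theorem exists_module {G : Type u} [Group G] (N C : Subgroup G) [N.Normal] [C.Normal]
    (hN : ∀ a ∈ N, ∀ b ∈ N, a * b = b * a) (hC : C ≤ centralizer (N : Set G)) :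
    ∃ (M : Type u) (_ : AddCommGroup M) (_ : DistribMulAction (G ⧸ C) M) (θ : M → G),
      Function.Injective θ ∧ (∀ x, x ∈ N ↔ ∃ v, θ v = x) ∧ Nat.card M = Nat.card N ∧
      (∀ v w, θ (v + w) = θ v * θ w) ∧ θ 0 = 1 ∧
      ∀ (g : G) (v : M), θ ((g : G ⧸ C) • v) = g * θ v * g⁻¹ := by
  let _ : CommGroup N :=
    { (inferInstance : Group N) with mul_comm := fun a b => Subtype.ext (hN a a.2 b b.2) }
  let φ : G ⧸ C →* MulAut N := QuotientGroup.lift C MulAut.conjNormal fun g hg =>
    MulEquiv.ext fun n => Subtype.ext (by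
      rw [MulAut.conjNormal_apply, MulAut.one_apply, ← hC hg n n.2, mul_inv_cancel_right])
  exact ⟨Additive N, inferInstance, autAction φ, fun v => (v.toMul : G),
    fun v w h => Additive.toMul.injective (Subtype.ext h),
    fun x => ⟨fun hx => ⟨Additive.ofMul ⟨x, hx⟩, rfl⟩, by rintro ⟨v, rfl⟩; exact v.toMul.2⟩,
    rfl, fun _ _ => rfl, rfl, fun _ _ => rfl⟩

end Cfsg.Agent.H36.CM
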