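import Cfsg.Agent.H53.DgKit
import Cfsg.Agent.H75.HasSt

/-! Characters above the Steinberg character, and a faithful character. -/

set_option autoImplicit false

namespace Cfsg.Agent.H36.DgS

open Module Cfsg.Agent.H26 Cfsg.Agent.H26.PForm Cfsg.Agent.H78 Cfsg.Agent.H78.Frame Cfsg.Agent.H75
  Cfsg.Agent.H53.Dg

section Grp

/-- a central involution acts as minus one in some irreducible character -/
theorem faith {G : Type} [Group G] [Finite G] {z : G} (hz : z ∈ Subgroup.center G)
    (h2 : z * z = 1) (h1 : z ≠ 1) : ∃ χ : G → ℂ, IsIrrCharacter G χ ∧ χ z = -1 * χ 1 := by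
  classical
  have := Fintype.ofFinite G
  have := Fintype.ofFinite (IrrCharacter G)
  by_contra hc
  have key : ∀ χ : IrrCharacter G, (χ : G → ℂ) z = (χ : G → ℂ) 1 := fun χ => by
    obtain ⟨lam, -, h⟩ := H11.exists_monoidHom_of_le_center χ.2 _ le_rfl
    have e : (lam ⟨z, hz⟩ : ℂ) * lam ⟨z, hz⟩ = 1 := by
      rw [← Units.val_mul, ← map_mul, show (⟨z, hz⟩ * ⟨z, hz⟩ : Subgroup.center G) = 1 from
        Subtype.ext h2, map_one, Units.val_one]
    have h' := h ⟨z, hz⟩
    rcases mul_self_eq_one_iff.1 e with e | e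
    · rwa [e, one_mul] at h'
    · exact absurd ⟨χ, χ.2, by rwa [e] at h'⟩ hc
  have s := H11.sum_degree_mul_apply_of_ne_one h1
  simp only [key, ← sq] at s
  rw [H11.sum_degree_sq] at s
  exact Nat.card_pos.ne' (by exact_mod_cast s)

/-- going up along a map with normal image -/
theorem up (C : ClifStmt) {G E Q : Type} [Group G] [Finite G] [Group E] [Group Q] (j : E →* G)
    [j.range.Normal] (π : E →* Q) (hπ : Function.Surjective π) (hk : ∀ x, j x = 1 → π x = 1)
    {θ : Q → ℂ} (hθ : IsIrrCharacter Q θ) {m : ℕ} (hm : θ 1 = m) :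
    ∃ (χ : G → ℂ) (n : ℕ), IsIrrCharacter G χ ∧ χ 1 = n ∧ m ∣ n := by
  let ρ : j.range →* Q := MonoidHom.liftOfSurjective j.rangeRestrict j.rangeRestrict_surjective
    ⟨π, fun x hx => hk x (congrArg Subtype.val hx)⟩
  have hρ : ∀ x, ρ (j.rangeRestrict x) = π x := fun x =>
    MonoidHom.liftOfRightInverse_comp_apply _ _ _ _ x
  have hs : Function.Surjective ρ := fun q => by
    obtain ⟨x, rfl⟩ := hπ q
    exact ⟨_, hρ x⟩
  obtain ⟨χ, n, h1, h2, h3, -⟩ := (C G j.range).2.1 _ m
    (H11.isIrrCharacter_comp_of_surjective hθ ρ hs) (by rw [map_one, hm])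
  exact ⟨χ, n, h1, h2, h3⟩

end Grp

variable {F V : Type} [Field F] [Finite F] [AddCommGroup V] [Module F V] [Finite V]
  {P : PForm F V} {sp : Bool} {w e : ℕ}

omit [Finite F] [Finite V] in
theorem neg_eq_one {x : V} (h0 : x ≠ 0) (h : -x = x) : (LinearEquiv.neg F : V ≃ₗ[F] V) = 1 := by
  have : (2 : F) • x = 0 := by rw [two_smul]; exact add_eq_zero_iff_neg_eq.2 h
  have h2 := (smul_eq_zero.1 this).resolve_right h0
  ext y
  change -y = y
  rw [neg_eq_iff_add_eq_zero, ← two_smul F, h2, zero_smul]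

/-- the Steinberg character of the projective Eichler group -/
theorem hasSt (h : Ty P sp w e) (hw : 1 ≤ w) (he : 1 ≤ e ∨ 3 ≤ w) (p : ℕ) [Fact p.Prime]
    [CharP F p] : HasSt p (QE P) := by
  obtain ⟨Fr, -, hA⟩ := h.frame
  suffices ∃ M : Model.{0, 0} p P.E, M.G1 = ⊤ ∧
      ∀ z ∈ Subgroup.center P.E, M.j z ∈ Subgroup.center M.G by
    obtain ⟨M, -, h2⟩ := this
    exact (M.quotZ h2).hasSt
  cases sp with
  | true =>
    have h0 := Fr.V0_eq_bot (h.symp rfl).2.2.2
    exact exists_frameModel (d := True) hA (fun h => absurd trivial h)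
      (fun _ a => XL_ne_bot (zero_mem _) (EV.of_mem (Fr.sing a) (ν := 1)
        (by rw [(h.symp rfl).2.1]; trivial)) fun _ => one_ne_zero)
      P.E.subtype P.E.subtype_injective P.E.range_subtype hw
      (Or.inl trivial) (k := 1) ⟨by norm_num, le_rfl, fun a => commute_XL_of_bot h0 (ne_ng a),
        Or.inr fun a c h => commute_XL_of_bot h0 (fst_ne_iff.1 h).2, Or.inl rfl⟩ p
      fun g _ h _ => Fr.ext_frame h fun w hw => by rw [show w = 0 by simpa [h0] using hw]; simp
  | false =>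
    let Fr' : Frame (ofQuad h.Q h.nondeg) w :=
      ⟨Fr.e, fun a => h.sing_iff.1 (Fr.sing a), fun a b hab => (h.polar_Q _ _).trans (Fr.orth a b hab),
        fun a z => Fr.pair a ((h.polar_Q _ _).symm.trans z)⟩
    have hA' : Fr'.Aniso := fun x hx hs => hA x
      (mem_V0.2 fun a => (h.polar_Q _ _).symm.trans (mem_V0.1 hx a)) (h.sing_iff.2 hs)
    obtain ⟨-, -, e2, hd⟩ := h.orth rfl
    exact exists_frameModel hA' (quad_hd Fr') (quad_hd' Fr') P.E.subtype P.E.subtype_injective
      (P.E.range_subtype.trans h.E_eq) hw (he.imp_left fun h1 z => by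
        have := Fr'.finrank_V0
        rw [z, finrank_bot] at this
        omega) (quad_bcl Fr') p (quad_hV Fr' (by omega) p)

omit [Finite F] [Finite V] in
theorem card_dvd (hz : ∀ z : P.E, z ∈ Subgroup.center P.E → z = 1 ∨ z.1 = LinearEquiv.neg F)
    {A : Type} [AddCommGroup A] (φ : A → V ≃ₗ[F] V) (mem : ∀ a, φ a ∈ P.E)
    (mul : ∀ a b, φ (a + b) = φ a * φ b) {x : V} (h0 : x ≠ 0) (fix : ∀ a, φ a x = x)
    (inj : ∀ a, φ a = 1 → a = 0) : Nat.card A ∣ Nat.card (QE P) := by
  let ψ : Multiplicative A →* P.E := MonoidHom.mk' (fun a => ⟨φ a.toAdd, mem _⟩)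
    fun a b => Subtype.ext (mul _ _)
  rw [← Nat.card_congr (Multiplicative.toAdd (α := A))]
  refine Subgroup.card_dvd_of_injective ((QuotientGroup.mk' _).comp ψ)
    ((injective_iff_map_eq_one _).2 fun a ha => inj a.toAdd ?_)
  rcases hz _ ((QuotientGroup.eq_one_iff _).1 ha) with z | z
  · exact congrArg Subtype.val z
  · replace z : φ a.toAdd = LinearEquiv.neg F := z
    have := fix a.toAdd
    rw [z] at this ⊢
    exact neg_eq_one h0 this

theorem card_QE (Z : ZenStmt) (h : Ty P sp w e) (hw : 1 ≤ w) (he : 1 ≤ e ∨ 3 ≤ w) :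
    ∃ a, 1 ≤ a ∧ (e ≠ 1 → 2 ≤ a) ∧ Nat.card F ^ a ∣ Nat.card (QE P) := by
  obtain ⟨Fr, -, -⟩ := h.frame
  let a : BI w := (⟨0, hw⟩, false)
  have hs := Fr.sing a
  have h0 := Fr.e_ne_zero a
  have hp := Fr.pair a
  have hp' := Fr.pair' a
  generalize Fr.e (ng a) = y at hp hp'
  generalize Fr.e a = x at hs h0 hp hp'
  cases sp with
  | true =>
    have ev : ∀ ν, P.EV x 0 ν := fun ν => EV.of_mem hs (by rw [(h.symp rfl).2.1]; trivial)
    refine ⟨1, le_rfl, fun z => absurd (h.symp rfl).2.2.1 z, ?_⟩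
    rw [pow_one]
    refine card_dvd ((Z F V P _ w e h).1 hw (Or.inl rfl)) (fun ν : F => eT P x 0 ν)
      (fun _ => eT_mem_E _ _ _) (fun a b => ?_) h0 (fun a => ?_) fun a ha => ?_
    · rw [eT_mul (ev a) (ev b), add_zero, f_zero_left, add_zero]
    · rw [eT_eq (ev a)]; exact (ev a).eich_self
    · have := eT_apply (ev a) y
      rw [ha, smul_zero, add_zero, f_zero_right, zero_add] at this
      have := sub_eq_self.1 this.symm
      simpa [h0, hp', P.ε_ne_zero] using this
  | false =>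
    obtain ⟨hε, hΛ, e2, hd⟩ := h.orth rfl
    let W := P.perp ((F ∙ x) ⊔ F ∙ y)
    have hW : ∀ v : W, P.f v x = 0 ∧ P.f v y = 0 := fun v =>
      ⟨mem_perp_span_singleton.1 (mem_perp_sup_span.1 v.2).1, (mem_perp_sup_span.1 v.2).2⟩
    have ev : ∀ v : W, P.EV x v (P.h v) := fun v => EV.of_h hs (hW v).1
    have d1 : _ + finrank F W = _ := P.finrank_perp ((F ∙ x) ⊔ F ∙ y)
    have d2 := finrank_sup_span_le (F ∙ x) y
    have d3 := finrank_span_singleton_le (F := F) x
    refine ⟨finrank F W, by omega, fun _ => by omega, ?_⟩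
    rw [← Module.natCard_eq_pow_finrank]
    refine card_dvd ((Z F V P _ w e h).1 hw (Or.inr (by omega))) (fun v : W => eT P x v (P.h v))
      (fun _ => eT_mem_E _ _ _) (fun a b => ?_) h0 (fun a => ?_) fun a ha => ?_
    · rw [eT_mul (ev a) (ev b), Submodule.coe_add]
      congr 1
      have := P.h_add b a
      rw [hΛ, AddSubgroup.mem_bot, add_comm] at this
      linear_combination this
    · rw [eT_eq (ev a)]; exact (ev a).eich_self
    · have := eT_apply (ev a) y
      rw [ha, add_sub_assoc] at this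
      have e1 := sub_eq_zero.1 (left_eq_add.1 this)
      have e2 := congrArg (P.f · y) e1
      simp only [P.f_smul_left, (hW a).2, mul_zero] at e2
      rw [(mul_eq_zero.1 e2.symm).resolve_right hp, zero_smul] at e1
      exact Subtype.ext ((smul_eq_zero.1 e1).resolve_left hp')

theorem st (C : ClifStmt) (Z : ZenStmt) : StStmt := by
  intro F V _ _ _ _ _ P sp w e h hw
  let z : P.isom := ⟨LinearEquiv.neg F, neg_mem_isom P⟩
  have hz : z ∈ Subgroup.center P.isom := Subgroup.mem_center_iff.2 fun g =>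
    Subtype.ext (LinearEquiv.ext fun x => map_neg g.1 x)
  have z2 : z * z = 1 := Subtype.ext (LinearEquiv.ext fun x => neg_neg x)
  refine ⟨fun he => ?_, fun _ ho => ?_⟩
  · have := Fintype.ofFinite F
    obtain ⟨p, hp⟩ := CharP.exists F
    obtain ⟨k, hpp, hk⟩ := FiniteField.card F p
    have := Fact.mk hpp
    rw [← Nat.card_eq_fintype_card] at hk
    obtain ⟨θ, h1, h2, -⟩ := hasSt h hw he p
    obtain ⟨a, a1, a2, a3⟩ := card_QE Z h hw he
    have a4 : Nat.card F ^ a ∣ p ^ (Nat.card (QE P)).factorization p := by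
      rw [hk, ← pow_mul] at a3 ⊢
      exact pow_dvd_pow _ ((hpp.pow_dvd_iff_le_factorization Nat.card_pos.ne').1 a3)
    let N := Subgroup.zpowers z
    have hN : N ≤ Subgroup.center P.isom := (Subgroup.zpowers_le).2 hz
    have : N.Normal := ⟨fun n hn g => by
      rwa [Subgroup.mem_center_iff.1 (hN hn) g, mul_inv_cancel_right]⟩
    let i : P.E →* P.isom := Subgroup.inclusion E_le_isom
    have : ((QuotientGroup.mk' N).comp i).range.Normal := ⟨by
      rintro _ ⟨x, rfl⟩ g
      obtain ⟨g, rfl⟩ := QuotientGroup.mk'_surjective N g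
      exact ⟨⟨g * x * g⁻¹, E_conj g.2 x.2⟩, rfl⟩⟩
    obtain ⟨χ, n, h3, h4, h5⟩ := up C ((QuotientGroup.mk' N).comp i)
      (QuotientGroup.mk' (Subgroup.center P.E)) (QuotientGroup.mk'_surjective _)
      (fun x hx => (QuotientGroup.eq_one_iff _).2 (Subgroup.mem_center_iff.2 fun g =>
        Subgroup.inclusion_injective E_le_isom (by
          rw [map_mul, map_mul]
          exact Subgroup.mem_center_iff.1 (hN ((QuotientGroup.eq_one_iff _).1 hx)) (i g)))) h1 h2
    refine ⟨n, ⟨_, H11.isIrrCharacter_comp_of_surjective h3 _ (QuotientGroup.mk'_surjective N),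
      by rw [map_one, h4], fun y hy => ?_⟩, ((dvd_pow_self _ (by omega)).trans a4).trans h5,
      fun h6 => ((pow_dvd_pow _ (a2 h6)).trans a4).trans h5⟩
    obtain rfl : y = z := Subtype.ext hy
    beta_reduce
    rw [map_one, one_mul, QuotientGroup.mk'_apply,
      (QuotientGroup.eq_one_iff _).2 (Subgroup.mem_zpowers z)]
  · obtain ⟨Fr, -, -⟩ := h.frame
    have := Fintype.ofFinite F
    rw [Nat.card_eq_fintype_card] at ho
    obtain ⟨χ, h1, h2⟩ := faith hz z2 fun e => by
      have h3 : -Fr.e (⟨0, hw⟩, false) = Fr.e (⟨0, hw⟩, false) :=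
        LinearEquiv.congr_fun (congrArg Subtype.val e) _
      rw [neg_eq_iff_add_eq_zero, ← two_smul F, smul_eq_zero] at h3
      exact h3.elim (H30.two_ne_zero_iff_odd_card.2 ho) (Fr.e_ne_zero _)
    obtain ⟨n, hn⟩ := H11.exists_nat_degree (H11.isCharacter_of_irr h1)
    exact ⟨n, χ, h1, hn, fun y hy => by rw [show y = z from Subtype.ext hy, h2]⟩

end Cfsg.Agent.H36.DgS
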