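import Cfsg.Agent.H50.E72Defs

/-!
# `E₇(2)` has no configuration of type `G₂(3)`
-/

set_option autoImplicit false
set_option maxRecDepth 100000

namespace Cfsg.Agent.H36.E72NoG

open Cfsg.Agent.H50.E72 Module Multiplicative
open scoped Matrix

lemma sum_cl {α : Type} [Fintype α] (cl : α → Fin 4) (val : Fin 4 → ℕ) :
    ∑ e, val (cl e) = ∑ c, (Finset.univ.filter (cl · = c)).card * val c := by
  rw [← Finset.sum_fiberwise Finset.univ cl]
  refine Finset.sum_congr rfl fun c _ => ?_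
  rw [Finset.sum_congr rfl (g := fun _ => val c)
    (fun e he => by rw [(Finset.mem_filter.1 he).2])]
  simp

lemma pow_val_add {G : Type} [Monoid G] {b : G} (hb : b ^ 3 = 1) (i j : ZMod 3) :
    b ^ (i + j).val = b ^ i.val * b ^ j.val := by
  rw [ZMod.val_add, ← pow_eq_pow_mod _ hb, pow_add]

/-- The homomorphism given by two commuting elements of order three. -/
def hom2 {G : Type} [Group G] (b z : G) (hb : b ^ 3 = 1) (hz : z ^ 3 = 1) (h : Commute b z) :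
    Multiplicative (Fin 2 → ZMod 3) →* G where
  toFun e := b ^ (toAdd e 0).val * z ^ (toAdd e 1).val
  map_one' := by simp
  map_mul' e e' := by
    simp only [toAdd_mul, Pi.add_apply, pow_val_add hb, pow_val_add hz]
    have := (h.pow_pow (toAdd e' 0).val (toAdd e 1).val).eq
    simp only [mul_assoc]
    rw [← mul_assoc (b ^ (toAdd e' 0).val), this, mul_assoc]

/-- The class of a vector. -/
def cl (e : E3) : Fin 4 :=
  if e 1 = 0 ∧ e 2 = 0 then (if e 0 = 0 then 0 else 1) else if e 0 = 0 then 2 else 3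

def iM : (Fin 2 → ZMod 3) →+ E3 where
  toFun e := ![e 0, -e 0, e 1]
  map_zero' := by decide
  map_add' := by decide +kernel

def iF : (Fin 2 → ZMod 3) →+ E3 where
  toFun e := ![0, e 0, e 1]
  map_zero' := by decide
  map_add' := by decide +kernel

lemma cnt {π : G0 →* M56 (ZMod 2)} (hCnt : CntStmt) (k : ℕ)
    (x : Multiplicative (Fin (k + 1) → ZMod 3) →* G0) :
    ∑ e : Fin (k + 1) → ZMod 3, fx π (x (ofAdd e)) =
      3 ^ k * 56 + 2 * 3 ^ k * finrank K (Fix π (Set.range x)) := by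
  have h := hCnt (Fin 56) π k x ⊤ (fun _ _ _ => Submodule.mem_top)
  rw [top_inf_eq, finrank_top, Module.finrank_fin_fun] at h
  rw [← h, ← Equiv.sum_comp (Multiplicative.ofAdd (α := Fin (k + 1) → ZMod 3))]
  refine Finset.sum_congr rfl fun e _ => ?_
  rw [top_inf_eq]
  rfl

lemma inv_wsp {π : G0 →* M56 (ZMod 2)} (ζ : Kˣ) (x : Multiplicative E3 →* G0) (χ : E3) {a : G0}
    (ha : ∀ e, Commute a (x e)) : Inv π a (wsp π ζ x χ) := by
  intro v hv
  simp only [wsp, Submodule.mem_iInf, mem_eig] at hv ⊢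
  intro e
  rw [← Module.End.mul_apply, ← map_mul, ← (ha _).eq, map_mul, Module.End.mul_apply, hv, map_smul]

lemma arith {fA fB fC dE dM dF dZ m1 m2 : ℕ} (vA : fA = 2 ∨ fA = 14 ∨ fA = 20 ∨ fA = 32)
    (vB : fB = 2 ∨ fB = 14 ∨ fB = 20 ∨ fB = 32) (vC : fC = 2 ∨ fC = 14 ∨ fC = 20 ∨ fC = 32)
    (cE : 1 * 56 + 2 * fA + 8 * fB + 16 * fC = 3 ^ 2 * 56 + 2 * 3 ^ 2 * dE)
    (cM : 1 * 56 + 0 * fA + 2 * fB + 6 * fC = 3 ^ 1 * 56 + 2 * 3 ^ 1 * dM)
    (cF : 1 * 56 + 0 * fA + 8 * fB + 0 * fC = 3 ^ 1 * 56 + 2 * 3 ^ 1 * dF)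
    (cZ : 1 * 56 + 8 * fA + 0 * fB + 0 * fC = 3 ^ 1 * 56 + 2 * 3 ^ 1 * dZ)
    (hEF : dE ≤ dF) (hW : dM = dE + (m1 + m2)) (d1 : 3 ∣ m1) (d2 : 3 ∣ m2) : False := by
  omega

theorem noG (hG : GoodStmt) (hC3 : C3Stmt) (hCnt : CntStmt) (hWt : WtStmt) (hD : Div3Stmt)
    (hK : KitStmt) : NoGStmt := by
  rintro ⟨x, a, b, hinj, hcls, ha, hb, hab, hb3, hbz⟩
  obtain ⟨π, hπ⟩ := hG
  obtain ⟨kconj, kinv, kone, -, -, -⟩ := hK (Fin 56) π
  have hx3 : ∀ e, x e ^ 3 = 1 := by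
    intro e
    rw [← map_pow]
    have : e ^ 3 = 1 := by
      revert e
      decide +kernel
    rw [this, map_one]
  have hval : ∀ e : E3, e ≠ 0 → fx π (x (ofAdd e)) = 2 ∨ fx π (x (ofAdd e)) = 14 ∨
      fx π (x (ofAdd e)) = 20 ∨ fx π (x (ofAdd e)) = 32 := by
    intro e he
    have := hC3 π hπ _ (hx3 (ofAdd e)) (fun h => he (by
      have := hinj (h.trans (map_one x).symm)
      exact ofAdd.injective this))
    simp only [List.mem_cons, Prod.mk.injEq, List.not_mem_nil, or_false] at this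
    omega
  set fA := fx π (x (ofAdd ![1, 0, 0])) with hfA
  set fB := fx π (x (ofAdd ![0, 1, 0])) with hfB
  set fC := fx π (x (ofAdd ![1, 1, 0])) with hfC
  have hneg : ∀ e : E3, fx π (x (ofAdd (-e))) = fx π (x (ofAdd e)) := by
    intro e
    rw [ofAdd_neg, map_inv, kinv]
  have hc : ∀ v w : E3, v 0 = w 0 → v 1 ≠ 0 ∨ v 2 ≠ 0 → w 1 ≠ 0 ∨ w 2 ≠ 0 →
      fx π (x (ofAdd v)) = fx π (x (ofAdd w)) := fun v w h1 h2 h3 =>
    kconj _ _ 1 (hcls v w h1 h2 h3)
  have hcl : ∀ e : E3, fx π (x (ofAdd e)) = (![56, fA, fB, fC] : Fin 4 → ℕ) (cl e) := by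
    intro e
    have hcase : ∀ e : E3, (e = 0 ∧ cl e = 0) ∨ ((e = ![1, 0, 0] ∨ e = -![1, 0, 0]) ∧ cl e = 1) ∨
        ((e 0 = 0 ∧ (e 1 ≠ 0 ∨ e 2 ≠ 0)) ∧ cl e = 2) ∨
        (((e 0 = 1 ∧ (e 1 ≠ 0 ∨ e 2 ≠ 0)) ∨
          ((-e) 0 = 1 ∧ ((-e) 1 ≠ 0 ∨ (-e) 2 ≠ 0))) ∧ cl e = 3) := by
      decide +kernel
    rcases hcase e with ⟨h, h'⟩ | ⟨h | h, h'⟩ | ⟨h, h'⟩ | ⟨h | h, h'⟩
    · rw [h', h, ofAdd_zero, map_one, kone]
      rfl
    · rw [h', h]
      rfl
    · rw [h', h, hneg]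
      rfl
    · rw [h']
      exact hc e ![0, 1, 0] h.1 h.2 (by decide)
    · rw [h']
      exact hc e ![1, 1, 0] h.1 h.2 (by decide)
    · rw [h', ← hneg]
      exact hc (-e) ![1, 1, 0] h.1 h.2 (by decide)
  -- the four counts
  have cE := cnt (π := π) hCnt 2 x
  have cM := cnt (π := π) hCnt 1 (x.comp (AddMonoidHom.toMultiplicative iM))
  have cF := cnt (π := π) hCnt 1 (x.comp (AddMonoidHom.toMultiplicative iF))
  have cZ := cnt (π := π) hCnt 1 (hom2 b _ hb3 (hx3 (ofAdd ![1, 0, 0])) (hb _))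
  rw [Finset.sum_congr rfl fun e _ => hcl e, sum_cl cl, Fin.sum_univ_four] at cE
  have eM : ∀ e : Fin 2 → ZMod 3, fx π ((x.comp (AddMonoidHom.toMultiplicative iM)) (ofAdd e)) =
      (![56, fA, fB, fC] : Fin 4 → ℕ) (cl (iM e)) := fun e => hcl (iM e)
  have eF : ∀ e : Fin 2 → ZMod 3, fx π ((x.comp (AddMonoidHom.toMultiplicative iF)) (ofAdd e)) =
      (![56, fA, fB, fC] : Fin 4 → ℕ) (cl (iF e)) := fun e => hcl (iF e)
  have eZ : ∀ e : Fin 2 → ZMod 3,
      fx π (hom2 b _ hb3 (hx3 (ofAdd ![1, 0, 0])) (hb _) (ofAdd e)) =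
      (![56, fA, fB, fC] : Fin 4 → ℕ) (if e = 0 then 0 else 1) := by
    intro e
    by_cases he : e = 0
    · rw [if_pos he, he, ofAdd_zero, map_one, kone]
      rfl
    · rw [if_neg he]
      have h0 : (e 0).val ≠ 0 ∨ (e 1).val ≠ 0 := by
        revert e
        decide +kernel
      exact (kconj _ _ 1 (hbz _ (ZMod.val_lt (e 0)) _ (ZMod.val_lt (e 1)) h0)).symm
  rw [Finset.sum_congr rfl fun e _ => eM e, sum_cl (fun e => cl (iM e)), Fin.sum_univ_four] at cM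
  rw [Finset.sum_congr rfl fun e _ => eF e, sum_cl (fun e => cl (iF e)), Fin.sum_univ_four] at cF
  rw [Finset.sum_congr rfl fun e _ => eZ e,
    sum_cl (fun e : Fin 2 → ZMod 3 => if e = 0 then 0 else 1), Fin.sum_univ_four] at cZ
  have nE : (Finset.univ.filter (cl · = 0)).card = 1 ∧ (Finset.univ.filter (cl · = 1)).card = 2 ∧
      (Finset.univ.filter (cl · = 2)).card = 8 ∧ (Finset.univ.filter (cl · = 3)).card = 16 := by
    decide +kernel
  have nM : (Finset.univ.filter (fun e => cl (iM e) = 0)).card = 1 ∧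
      (Finset.univ.filter (fun e => cl (iM e) = 1)).card = 0 ∧
      (Finset.univ.filter (fun e => cl (iM e) = 2)).card = 2 ∧
      (Finset.univ.filter (fun e => cl (iM e) = 3)).card = 6 := by
    decide +kernel
  have nF : (Finset.univ.filter (fun e => cl (iF e) = 0)).card = 1 ∧
      (Finset.univ.filter (fun e => cl (iF e) = 1)).card = 0 ∧
      (Finset.univ.filter (fun e => cl (iF e) = 2)).card = 8 ∧
      (Finset.univ.filter (fun e => cl (iF e) = 3)).card = 0 := by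
    decide +kernel
  have nZ : (Finset.univ.filter
        (fun e : Fin 2 → ZMod 3 => (if e = 0 then 0 else 1 : Fin 4) = 0)).card = 1 ∧
      (Finset.univ.filter
        (fun e : Fin 2 → ZMod 3 => (if e = 0 then 0 else 1 : Fin 4) = 1)).card = 8 ∧
      (Finset.univ.filter
        (fun e : Fin 2 → ZMod 3 => (if e = 0 then 0 else 1 : Fin 4) = 2)).card = 0 ∧
      (Finset.univ.filter
        (fun e : Fin 2 → ZMod 3 => (if e = 0 then 0 else 1 : Fin 4) = 3)).card = 0 := by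
    decide +kernel
  rw [nE.1, nE.2.1, nE.2.2.1, nE.2.2.2] at cE
  rw [nM.1, nM.2.1, nM.2.2.1, nM.2.2.2] at cM
  rw [nF.1, nF.2.1, nF.2.2.1, nF.2.2.2] at cF
  rw [nZ.1, nZ.2.1, nZ.2.2.1, nZ.2.2.2] at cZ
  -- the comparison of the fixed spaces
  have hEF : finrank K (Fix π (Set.range x)) ≤
      finrank K (Fix π (Set.range (x.comp (AddMonoidHom.toMultiplicative iF)))) := by
    refine Submodule.finrank_mono fun v hv => ?_
    rw [mem_Fix] at hv ⊢
    rintro _ ⟨e, rfl⟩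
    exact hv _ ⟨_, rfl⟩
  have h3 : NeZero ((3 : ℕ) : ZMod 2) := ⟨by decide⟩
  obtain ⟨ω, hω⟩ := HasEnoughRootsOfUnity.exists_primitiveRoot K 3
  have hζ := hω.isUnit_unit (by norm_num : (3 : ℕ) ≠ 0)
  set ζ := (hω.isUnit (by norm_num : (3 : ℕ) ≠ 0)).unit with hζd
  have hζ' : IsPrimitiveRoot (ζ : K) 3 := hω
  have hW := hWt (Fin 56) π 3 3 ζ x ⊤ hζ (fun _ _ _ => Submodule.mem_top)
    (Finset.univ.image iM) 0
  have hfil : (Finset.univ.filter fun χ : E3 => ∀ e ∈ Finset.univ.image iM,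
      χ ⬝ᵥ e = (0 : E3 → ZMod 3) e) = {0, ![1, 1, 0], ![2, 2, 0]} := by
    decide +kernel
  rw [hfil, Finset.sum_insert (by decide), Finset.sum_pair (by decide)] at hW
  rw [top_inf_eq, top_inf_eq, top_inf_eq, top_inf_eq] at hW
  have e1 : (⨅ e ∈ Finset.univ.image iM,
      eig π (x (ofAdd e)) ((ζ ^ ((0 : E3 → ZMod 3) e).val : Kˣ) : K)) =
      Fix π (Set.range (x.comp (AddMonoidHom.toMultiplicative iM))) := by
    ext v
    simp only [Submodule.mem_iInf, mem_eig, mem_Fix, Pi.zero_apply, ZMod.val_zero, pow_zero,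
      Units.val_one, one_smul]
    constructor
    · rintro h _ ⟨e, rfl⟩
      exact h (iM (toAdd e)) (Finset.mem_image_of_mem _ (Finset.mem_univ _))
    · intro h e he
      obtain ⟨e', -, rfl⟩ := Finset.mem_image.1 he
      exact h _ ⟨ofAdd e', rfl⟩
  have e2 : wsp π ζ x 0 = Fix π (Set.range x) := by
    ext v
    simp only [wsp, Submodule.mem_iInf, mem_eig, mem_Fix, zero_dotProduct, ZMod.val_zero, pow_zero,
      Units.val_one, one_smul]
    constructor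
    · rintro h _ ⟨e, rfl⟩
      exact h (toAdd e)
    · intro h e
      exact h _ ⟨ofAdd e, rfl⟩
  rw [e1, e2] at hW
  have d1 : 3 ∣ finrank K (wsp π ζ x ![1, 1, 0]) := by
    refine hD (Fin 56) π a b _ (ζ : K) hζ' (inv_wsp ζ x _ ha) (inv_wsp ζ x _ hb) ?_
    rw [hab]
    refine (iInf_le _ ![1, 0, 0]).trans (le_of_eq ?_)
    have : ((![1, 1, 0] : E3) ⬝ᵥ ![1, 0, 0]).val = 1 := by decide +kernel
    rw [this, pow_one]
  have d2 : 3 ∣ finrank K (wsp π ζ x ![2, 2, 0]) := by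
    refine hD (Fin 56) π a b _ ((ζ : K) ^ 2) (hζ'.pow_of_coprime 2 (by decide))
      (inv_wsp ζ x _ ha) (inv_wsp ζ x _ hb) ?_
    rw [hab]
    refine (iInf_le _ ![1, 0, 0]).trans (le_of_eq ?_)
    have : ((![2, 2, 0] : E3) ⬝ᵥ ![1, 0, 0]).val = 2 := by decide +kernel
    rw [this, Units.val_pow_eq_pow_val]
  have vA := hval ![1, 0, 0] (by decide)
  have vB := hval ![0, 1, 0] (by decide)
  have vC := hval ![1, 1, 0] (by decide)
  exact arith vA vB vC cE cM cF cZ hEF hW d1 d2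

end Cfsg.Agent.H36.E72NoG
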