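import Cfsg.Agent.H6.E82Defs

/-!
# A computation over the field of four elements
-/

set_option autoImplicit false
set_option maxRecDepth 100000

namespace Cfsg.Agent.H36.E82F4

open Cfsg.Agent.H6.E82

/-- The model of the field of four elements. -/
abbrev M : Type := ZMod 2 × ZMod 2

/-- Its multiplication. -/
def ml (a b : M) : M := (a.1 * b.1 + a.2 * b.2, a.1 * b.2 + a.2 * b.1 + a.2 * b.2)

abbrev M4 : Type := M × M × M × M

def Um' (t : M) (x : M4) : M4 :=
  (x.1, x.2.1 + ml t x.1 + ml (ml t t) x.2.2.1, x.2.2.1, x.2.2.2 + ml t x.2.2.1)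

def Lm' (t : M) (x : M4) : M4 :=
  (x.1, x.2.1, x.2.2.1 + ml t x.1 + ml (ml t t) x.2.1, x.2.2.2 + ml t x.2.1)

def wd' (t0 t1 t2 t3 : M) (x : M4) : M4 := Um' t0 (Lm' t1 (Um' t2 (Lm' t3 x)))

set_option synthInstance.maxSize 4096 in
theorem model : ∀ l a b : M, ∃ t0 t1 t2 t3 : M, wd' t0 t1 t2 t3 (l, a, b, 0) = (l, a, b, 0) ∧
    (wd' t0 t1 t2 t3 (0, (1, 0), 0, 0) ≠ (0, (1, 0), 0, 0) ∨
      wd' t0 t1 t2 t3 (0, 0, (1, 0), 0) ≠ (0, 0, (1, 0), 0)) := by
  decide +kernel

theorem model4 : ∀ t : M, ml (ml t t) (ml t t) = t := by decide +kernel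

variable {ω : K} (hω : ω * ω = ω + 1)

variable (ω) in
/-- The embedding of the model. -/
noncomputable def e (a : M) : K := algebraMap (ZMod 2) K a.1 + algebraMap (ZMod 2) K a.2 * ω

theorem e_add (a b : M) : e ω (a + b) = e ω a + e ω b := by
  simp only [e, Prod.fst_add, Prod.snd_add, map_add]; ring

theorem e_zero : e ω 0 = 0 := by simp [e]

theorem e_one : e ω (1, 0) = 1 := by simp [e]

variable (ω) in
noncomputable def E (x : M4) : K4 := (e ω x.1, e ω x.2.1, e ω x.2.2.1, e ω x.2.2.2)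

include hω

theorem e_ml (a b : M) : e ω (ml a b) = e ω a * e ω b := by
  simp only [e, ml, map_add, map_mul]
  linear_combination (-(algebraMap (ZMod 2) K a.2 * algebraMap (ZMod 2) K b.2)) * hω

theorem e_inj : Function.Injective (e ω) := by
  have two : (2 : K) = 0 := CharTwo.two_eq_zero
  have h0 : ∀ a : M, e ω a = 0 → a = 0 := by
    intro a ha
    have hc : ∀ a : M, a = 0 ∨ a = (1, 0) ∨ a = (0, 1) ∨ a = (1, 1) := by decide
    rcases hc a with rfl | rfl | rfl | rfl
    · rfl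
    · rw [e_one] at ha
      exact absurd ha one_ne_zero
    · simp only [e, map_zero, map_one, zero_add, one_mul] at ha
      rw [ha, mul_zero, zero_add] at hω
      exact absurd hω.symm one_ne_zero
    · simp only [e, map_one, one_mul] at ha
      exact absurd (show (1 : K) = 0 by linear_combination hω - (ω - 2) * ha)
        one_ne_zero
  intro a b h
  have h1 : a + b = 0 := h0 _ (by rw [e_add, h]; linear_combination (e ω b) * two)
  have h2 : ∀ a b : M, a + b = 0 → a = b := by decide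
  exact h2 a b h1

theorem E_inj : Function.Injective (E ω) := fun _ _ h =>
  Prod.ext (e_inj hω (congrArg (·.1) h)) (Prod.ext (e_inj hω (congrArg (·.2.1) h))
    (Prod.ext (e_inj hω (congrArg (·.2.2.1) h)) (e_inj hω (congrArg (·.2.2.2) h))))

theorem E_Um (t : M) (x : M4) : E ω (Um' t x) = Um (e ω t) (E ω x) := by
  simp only [E, Um', Um, e_add, e_ml hω, pow_two]

theorem E_Lm (t : M) (x : M4) : E ω (Lm' t x) = Lm (e ω t) (E ω x) := by
  simp only [E, Lm', Lm, e_add, e_ml hω, pow_two]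

theorem E_wd (t0 t1 t2 t3 : M) (x : M4) :
    E ω (wd' t0 t1 t2 t3 x) = wd ![e ω t0, e ω t1, e ω t2, e ω t3] (E ω x) := by
  rw [wd', E_Um hω, E_Lm hω, E_Um hω, E_Lm hω]
  rfl

theorem e_pow (t : M) : e ω t ^ 4 = e ω t := by
  conv_rhs => rw [← model4 t, e_ml hω, e_ml hω]
  ring

theorem e_surj {x : K} (hx : x ^ 4 = x) : ∃ a, e ω a = x := by
  have two : (2 : K) = 0 := CharTwo.two_eq_zero
  have h : x * (x - 1) * (x - ω) * (x - (1 + ω)) = 0 := by
    linear_combination hx + (x * (x - 1)) * hω + (x * (x - 1) * (ω - x - x * ω + 1) + x - x ^ 2) * two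
  rcases mul_eq_zero.1 h with h | h
  · rcases mul_eq_zero.1 h with h | h
    · rcases mul_eq_zero.1 h with h | h
      · exact ⟨0, by rw [e_zero, h]⟩
      · exact ⟨(1, 0), by rw [e_one, sub_eq_zero.1 h]⟩
    · exact ⟨(0, 1), by rw [sub_eq_zero.1 h]; simp [e]⟩
  · exact ⟨(1, 1), by rw [sub_eq_zero.1 h]; simp [e]⟩

omit hω

theorem f4 : F4Stmt := by
  intro l a b hl ha hb
  obtain ⟨ω, hω⟩ : ∃ ω : K, ω * ω = ω + 1 := by
    obtain ⟨z, hz⟩ := IsAlgClosed.exists_root (Polynomial.X ^ 2 - Polynomial.X - 1 : Polynomial K)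
      (by
        have : (Polynomial.X ^ 2 - Polynomial.X - 1 : Polynomial K).degree = 2 := by
          compute_degree!
        rw [this]; decide)
    refine ⟨z, ?_⟩
    simp only [Polynomial.IsRoot.def, Polynomial.eval_sub, Polynomial.eval_pow, Polynomial.eval_X,
      Polynomial.eval_one] at hz
    linear_combination hz
  obtain ⟨l, rfl⟩ := e_surj hω hl
  obtain ⟨a, rfl⟩ := e_surj hω ha
  obtain ⟨b, rfl⟩ := e_surj hω hb
  obtain ⟨t0, t1, t2, t3, h1, h2⟩ := model l a b
  have e1 : ((e ω l, e ω a, e ω b, 0) : K4) = E ω (l, a, b, 0) := by simp only [E, e_zero]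
  have e2 : ((0, 1, 0, 0) : K4) = E ω (0, (1, 0), 0, 0) := by simp only [E, e_zero, e_one]
  have e3 : ((0, 0, 1, 0) : K4) = E ω (0, 0, (1, 0), 0) := by simp only [E, e_zero, e_one]
  refine ⟨![e ω t0, e ω t1, e ω t2, e ω t3], fun i => ?_, ?_, ?_⟩
  · fin_cases i <;> exact e_pow hω _
  · rw [e1, ← E_wd hω, h1]
  · rw [e2, e3, ← E_wd hω, ← E_wd hω]
    exact h2.imp (fun h h' => h (E_inj hω h')) fun h h' => h (E_inj hω h')

end Cfsg.Agent.H36.E82F4
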