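import Cfsg.Agent.H50.E83Defs

/-!
# Project E83, piece CNT: the traces of `Q₈³` on the adjoint module
-/

set_option autoImplicit false

namespace Cfsg.Agent.H36.E83Cnt

open Cfsg.Agent.H50.E83 QuaternionGroup Module

/-- the linear character with kernel `⟨a⟩` -/
def lam : Q8 →* ℤˣ := MonoidHom.mk' (fun q => match q with | .a _ => 1 | .xa _ => -1) (by decide)

/-- the centre of `Q₈` -/
def zz : ℤˣ →* Q8 := MonoidHom.mk' (fun u => if u = 1 then 1 else a 2) (by decide)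

theorem zz_comm : ∀ (u : ℤˣ) (q : Q8), zz u * q = q * zz u := by decide

abbrev G7 : Type := Q8 × Q8 × ℤˣ

/-- a subgroup of order 128 -/
def jj : G7 →* Q3 := MonoidHom.mk' (fun g => (g.1, g.2.1 * zz g.2.2, g.2.1)) fun g h => by
  simp only [Prod.fst_mul, Prod.snd_mul, Prod.mk_mul_mk, map_mul, Prod.mk.injEq, true_and,
    and_true]
  rw [mul_assoc, mul_assoc, ← mul_assoc (zz g.2.2), zz_comm g.2.2 h.2.1, mul_assoc]

def chi7 : G7 →* ℤˣ := MonoidHom.mk' (fun g => lam g.1 * g.2.2) fun g h => by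
  simp only [Prod.fst_mul, Prod.snd_mul, map_mul]
  exact mul_mul_mul_comm ..

def chi1 : Q3 →* ℤˣ := MonoidHom.mk' (fun g => lam g.1) fun g h => by
  simp only [Prod.fst_mul, map_mul]

def chi2 : Q3 →* ℤˣ := MonoidHom.mk' (fun g => lam g.1 * lam g.2.1) fun g h => by
  simp only [Prod.fst_mul, Prod.snd_mul, map_mul]
  exact mul_mul_mul_comm ..

def chi3 : Q3 →* ℤˣ := MonoidHom.mk' (fun g => lam g.1 * lam g.2.1 * lam g.2.2) fun g h => by
  simp only [Prod.fst_mul, Prod.snd_mul, map_mul]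
  rw [mul_mul_mul_comm (lam g.1), mul_mul_mul_comm]

theorem q4 : ∀ q : Q8, q ^ 4 = 1 := by decide

theorem q3_pow (g : Q3) : g ^ 4 = 1 := Prod.ext (q4 _) (Prod.ext (q4 _) (q4 _))

theorem pQ3 : IsPGroup 2 Q3 := fun g => ⟨2, q3_pow g⟩

theorem pG7 : IsPGroup 2 G7 := fun g => ⟨2, Prod.ext (q4 _) (Prod.ext (q4 _) (by
  have : ∀ u : ℤˣ, u ^ 4 = 1 := by decide
  exact this _))⟩

theorem cls_lt : ∀ g : Q3, cls g < 6 := by decide +kernel

theorem sum_cls {Γ : Type} [Fintype Γ] (w : Γ → ℤ) (κ : Γ → ℕ) (hκ : ∀ g, κ g < 6) (v : ℕ → ℤ) :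
    ∑ g, w g * v (κ g) = ∑ k ∈ Finset.range 6, v k * ∑ g, if κ g = k then w g else 0 := by
  simp only [Finset.mul_sum]
  rw [Finset.sum_comm]
  refine Finset.sum_congr rfl fun g _ => ?_
  simp only [mul_ite, mul_zero, Finset.sum_ite_eq, Finset.mem_range, hκ g, if_true, mul_comm]

theorem n7 : ∀ k ∈ Finset.range 6, (∑ g : G7, if cls (jj g) = k then ((chi7 g : ℤˣ) : ℤ) else 0) =
    [2, -2, -4, 4, 0, 0].getD k 0 := by decide +kernel

theorem n1 : ∀ k ∈ Finset.range 6, (∑ g : Q3, if cls g = k then ((chi1 g : ℤˣ) : ℤ) else 0) =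
    [2, 6, 20, 20, 24, -72].getD k 0 := by decide +kernel

theorem n2 : ∀ k ∈ Finset.range 6, (∑ g : Q3, if cls g = k then ((chi2 g : ℤˣ) : ℤ) else 0) =
    [2, 6, 4, 4, -40, 24].getD k 0 := by decide +kernel

theorem n3 : ∀ k ∈ Finset.range 6, (∑ g : Q3, if cls g = k then ((chi3 g : ℤˣ) : ℤ) else 0) =
    [2, 6, -12, -12, 24, -8].getD k 0 := by decide +kernel

/-- class representatives -/
def rep (k : ℕ) : Q3 :=
  [1, (a 2, 1, 1), (a 1, 1, 1), (a 1, a 2, 1), (a 1, a 1, 1), (a 1, a 1, a 1)].getD k 1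

theorem cls_rep : ∀ k < 6, cls (rep k) = k := by decide

theorem arith {a c c' d b : ℤ} {m7 m1 m2 m3 : ℕ} (a1 : a = -8 ∨ a = 24) (a5 : b = -8 ∨ b = 24)
    (a2 : (a = -8 → c = 0 ∨ c = 8 ∨ c = 64) ∧ (a = 24 → c = -4 ∨ c = 4 ∨ c = 28 ∨ c = 132))
    (a3 : (a = -8 → c' = 0 ∨ c' = 8 ∨ c' = 64) ∧ (a = 24 → c' = -4 ∨ c' = 4 ∨ c' = 28 ∨ c' = 132))
    (a4 : a = -8 → d = 0 ∨ d = 8 ∨ d = 64)
    (b7 : 0 + 248 * 2 + a * -2 + c * -4 + c' * 4 + d * 0 + b * 0 = (128 : ℕ) * (m7 : ℤ))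
    (b1 : 0 + 248 * 2 + a * 6 + c * 20 + c' * 20 + d * 24 + b * -72 = (512 : ℕ) * (m1 : ℤ))
    (b2 : 0 + 248 * 2 + a * 6 + c * 4 + c' * 4 + d * -40 + b * 24 = (512 : ℕ) * (m2 : ℤ))
    (b3 : 0 + 248 * 2 + a * 6 + c * -12 + c' * -12 + d * 24 + b * -8 = (512 : ℕ) * (m3 : ℤ)) :
    a = -8 ∧ c = 8 ∧ c' = 8 ∧ d = 8 ∧ b = -8 := by
  obtain rfl : a = -8 := by
    refine a1.resolve_right fun h => ?_
    clear b1 b2 b3
    subst h
    rcases a2.2 rfl with rfl | rfl | rfl | rfl <;> rcases a3.2 rfl with rfl | rfl | rfl | rfl <;>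
      omega
  have c2 := a2.1 rfl
  have c3 := a3.1 rfl
  have c4 := a4 rfl
  clear a1 a2 a3 a4
  rcases c2 with rfl | rfl | rfl <;> rcases c3 with rfl | rfl | rfl <;>
    rcases c4 with rfl | rfl | rfl <;> rcases a5 with rfl | rfl <;> omega

theorem cnt (mu : MuStmt) (br : BrStmt) (tr4 : Tr4Stmt) : CntStmt := by
  intro φ h0 hc
  obtain ⟨v, hv⟩ : ∃ v : ℕ → ℤ, ∀ k, v k = tau (ι (φ (rep k))) := ⟨_, fun _ => rfl⟩
  have key : ∀ g, tau (ι (φ g)) = v (cls g) := fun g => by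
    have := ι.map_isConj (hc g (rep (cls g)) (cls_rep _ (cls_lt g)).symm)
    rw [hv, tau, tau, mu.1 _ _ 1 this, mu.1 _ _ (-1) this]
  have v0 : v 0 = 248 := by
    rw [hv, show rep 0 = 1 from rfl, map_one, map_one]
    exact mu.2.2.2.2.2
  have t4 : ∀ k, φ (rep k) ^ 4 = 1 := fun k => by rw [← map_pow, q3_pow, map_one]
  have sq : ∀ k, tau (ι (φ (rep k) ^ 2)) = v (cls (rep k ^ 2)) := fun k => by
    rw [← map_pow, key]
  have i1 : ∀ k, cls (rep k ^ 2) = 0 → cls (rep k) ≠ 0 → v k = -8 ∨ v k = 24 := fun k h h' => by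
    rw [hv]
    exact (tr4 _ (t4 k)).1 (by rw [← map_pow]; exact (h0 _).2 h) fun e => h' ((h0 _).1 e)
  have i2 : ∀ k, cls (rep k ^ 2) = 1 → (v 1 = -8 → v k = 0 ∨ v k = 8 ∨ v k = 64) ∧
      (v 1 = 24 → v k = -4 ∨ v k = 4 ∨ v k = 28 ∨ v k = 132) := fun k h => by
    have := (tr4 _ (t4 k)).2
    rwa [sq, h, ← hv] at this
  have a1 := i1 1 (by decide) (by decide)
  have a5 := i1 5 (by decide) (by decide)
  have a2 := i2 2 (by decide)
  have a3 := i2 3 (by decide)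
  have a4 := i2 4 (by decide)
  have b7 := br G7 pG7 ((ι.comp φ).comp jj) chi7
  have b1 := br Q3 pQ3 (ι.comp φ) chi1
  have b2 := br Q3 pQ3 (ι.comp φ) chi2
  have b3 := br Q3 pQ3 (ι.comp φ) chi3
  simp only [MonoidHom.comp_apply, key] at b7 b1 b2 b3
  rw [sum_cls _ _ (fun g => cls_lt _), Finset.sum_congr rfl fun k hk => by rw [n7 k hk],
    show Fintype.card G7 = 128 by decide +kernel] at b7
  rw [sum_cls _ _ cls_lt, Finset.sum_congr rfl fun k hk => by rw [n1 k hk],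
    show Fintype.card Q3 = 512 by decide +kernel] at b1
  rw [sum_cls _ _ cls_lt, Finset.sum_congr rfl fun k hk => by rw [n2 k hk],
    show Fintype.card Q3 = 512 by decide +kernel] at b2
  rw [sum_cls _ _ cls_lt, Finset.sum_congr rfl fun k hk => by rw [n3 k hk],
    show Fintype.card Q3 = 512 by decide +kernel] at b3
  simp only [Finset.sum_range_succ, Finset.sum_range_zero, List.getD_cons_zero,
    List.getD_cons_succ, v0] at b7 b1 b2 b3
  obtain ⟨v1, v2, v3, v4, v5⟩ := arith a1 a5 a2 a3 a4.1 b7 b1 b2 b3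
  refine ⟨fun g hg => by rw [MonoidHom.comp_apply, (h0 g).2 hg, map_one], fun g => ?_⟩
  rw [MonoidHom.comp_apply, key]
  have := cls_lt g
  generalize cls g = k at this
  interval_cases k <;> simp [v0, v1, v2, v3, v4, v5]

end Cfsg.Agent.H36.E83Cnt
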