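import Mathlib
import Cfsg.Agent.H3.Cores

set_option autoImplicit false

namespace Cfsg.Agent.H36.FixDim

open Module Subgroup MulAction

section lin
variable {k : Type*} [Field k] {W : Type*} [AddCommGroup W] [Module k W] [FiniteDimensional k W]

theorem rank_le_of_conj {A B e e' : End k W} (hAB : A * B = 1) (h : A * e = e' * A) :
    finrank k (LinearMap.range e') ≤ finrank k (LinearMap.range e) := by
  have : LinearMap.range e' ≤ (LinearMap.range e).map A := by
    rintro _ ⟨w, rfl⟩
    refine ⟨e (B w), ⟨_, rfl⟩, ?_⟩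
    have h1 : (A * e) (B w) = (e' * A) (B w) := by rw [h]
    have h2 : A (B w) = w := by rw [← End.mul_apply, hAB, End.one_apply]
    rw [End.mul_apply, End.mul_apply, h2] at h1
    exact h1
  exact (Submodule.finrank_mono this).trans (Submodule.finrank_map_le _ _)

theorem rank_eq_of_conj {A B e e' : End k W} (hAB : A * B = 1) (hBA : B * A = 1) (h : A * e = e' * A) :
    finrank k (LinearMap.range e') = finrank k (LinearMap.range e) := by
  refine le_antisymm (rank_le_of_conj hAB h) (rank_le_of_conj hBA ?_)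
  calc B * e' = B * e' * (A * B) := by rw [hAB, mul_one]
    _ = B * (e' * A) * B := by simp only [mul_assoc]
    _ = (B * A) * e * B := by rw [← h]; simp only [mul_assoc]
    _ = e * B := by rw [hBA, one_mul]

theorem dim_bound {G ι : Type*} [Group G] [Finite G] [Fintype ι] [MulAction G ι]
    (σ : Representation k G W) (e : ι → End k W) (hsum : ∑ i, e i = 1)
    (horth : ∀ i j, i ≠ j → e i * e j = 0) (heq : ∀ g i, σ g * e i = e (g • i) * σ g) (d : ℕ)
    (hd : ∀ i, finrank k (LinearMap.range (e i)) = d) (x : G) (m : ℕ)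
    (hm : ∀ g ∈ zpowers x, g ≠ 1 → m * Nat.card (fixedBy ι g) ≤ Nat.card ι) :
    m * orderOf x * finrank k (LinearMap.ker (σ x - 1)) ≤ (m + (orderOf x - 1)) * finrank k W := by
  classical
  haveI := Fintype.ofFinite (zpowers x)
  let O := orbitRel.Quotient (zpowers x) ι
  haveI : Fintype O := Fintype.ofFinite _
  have h1 : finrank k (LinearMap.ker (σ x - 1)) ≤ Fintype.card O * d := by
    let Φ : LinearMap.ker (σ x - 1) →ₗ[k] (∀ o : O, LinearMap.range (e o.out)) :=
      LinearMap.pi fun o => (e o.out).rangeRestrict ∘ₗ (LinearMap.ker (σ x - 1)).subtype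
    have hΦ : Function.Injective Φ := by
      rw [injective_iff_map_eq_zero]
      rintro ⟨v, hv⟩ h0
      have hv' : σ x v = v := by
        rw [LinearMap.mem_ker, LinearMap.sub_apply, sub_eq_zero] at hv; exact hv
      have hfix : ∀ g ∈ zpowers x, σ g v = v := by
        intro g hg
        obtain ⟨n, rfl⟩ := mem_powers_iff_mem_zpowers.mpr hg
        induction n with
        | zero => simp
        | succ n ih =>
          simp only [pow_succ, map_mul, End.mul_apply, hv']
          exact ih (mem_zpowers_iff.mpr ⟨n, by simp⟩)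
      have hz : ∀ i, e i v = 0 := by
        intro i
        obtain ⟨g, hg⟩ : i ∈ orbit (zpowers x) (Quotient.mk (orbitRel (zpowers x) ι) i).out :=
          (orbitRel (zpowers x) ι).symm (Quotient.mk_out (s := orbitRel (zpowers x) ι) i)
        have h2 : e (Quotient.mk (orbitRel (zpowers x) ι) i).out v = 0 :=
          congrArg Subtype.val (congrFun h0 (Quotient.mk _ i))
        have h3 := LinearMap.congr_fun (heq g (Quotient.mk (orbitRel (zpowers x) ι) i).out) v
        rw [End.mul_apply, End.mul_apply, h2, map_zero, hfix g g.2] at h3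
        rw [← hg]; exact h3.symm
      apply Subtype.ext
      show v = 0
      have := LinearMap.congr_fun hsum v
      rw [LinearMap.sum_apply] at this
      simp only [hz, Finset.sum_const_zero, End.one_apply] at this
      exact this.symm
    have := LinearMap.finrank_le_finrank_of_injective hΦ
    rw [Module.finrank_pi_fintype] at this
    simpa [hd] using this
  have hid : ∀ i, e i * e i = e i := by
    intro i
    calc e i * e i = ∑ j, e i * e j := by
          rw [Finset.sum_eq_single i (fun j _ hj => horth i j (Ne.symm hj)) (by simp)]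
      _ = e i := by rw [← Finset.mul_sum, hsum, mul_one]
  have h2 : Fintype.card ι * d ≤ finrank k W := by
    let Ψ : (∀ i, LinearMap.range (e i)) →ₗ[k] W :=
      ∑ i, (LinearMap.range (e i)).subtype ∘ₗ LinearMap.proj i
    have hΨ : Function.Injective Ψ := by
      rw [injective_iff_map_eq_zero]
      intro w h0
      funext i
      have h3 : e i (Ψ w) = w i := by
        simp only [Ψ, LinearMap.sum_apply, map_sum, LinearMap.comp_apply, LinearMap.proj_apply,
          Submodule.subtype_apply]
        rw [Finset.sum_eq_single i]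
        · obtain ⟨u, hu⟩ := (w i).2
          rw [← hu, ← End.mul_apply, hid]
        · intro j _ hj
          obtain ⟨u, hu⟩ := (w j).2
          rw [← hu, ← End.mul_apply, horth i j (Ne.symm hj), LinearMap.zero_apply]
        · simp
      rw [h0, map_zero] at h3
      exact Subtype.ext h3.symm
    have := LinearMap.finrank_le_finrank_of_injective hΨ
    rw [Module.finrank_pi_fintype] at this
    simpa [hd] using this
  have h3 : m * (Fintype.card O * orderOf x) ≤ (m + (orderOf x - 1)) * Fintype.card ι := by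
    have hb := sum_card_fixedBy_eq_card_orbits_mul_card_group (zpowers x) ι
    have hcz : Fintype.card (zpowers x) = orderOf x := by
      rw [← Nat.card_eq_fintype_card, Nat.card_zpowers]
    rw [hcz] at hb
    have hb' : ∑ g : zpowers x, Fintype.card (fixedBy ι g) = Fintype.card O * orderOf x := by
      convert hb
    rw [← hb', ← Finset.add_sum_erase _ _ (Finset.mem_univ (1 : zpowers x)), mul_add, add_mul,
      Finset.mul_sum]
    refine Nat.add_le_add (Nat.mul_le_mul_left _ (Fintype.card_subtype_le _)) ?_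
    refine (Finset.sum_le_card_nsmul _ _ (Fintype.card ι) fun g hg => ?_).trans ?_
    · have := hm g g.2 (fun h => (Finset.mem_erase.mp hg).1 (Subtype.ext h))
      rw [Nat.card_eq_fintype_card (α := ι)] at this
      rw [← Nat.card_eq_fintype_card]
      exact this
    · rw [Finset.card_erase_of_mem (Finset.mem_univ _), Finset.card_univ, hcz, smul_eq_mul]
  calc m * orderOf x * finrank k (LinearMap.ker (σ x - 1)) ≤ m * orderOf x * (Fintype.card O * d) :=
        Nat.mul_le_mul_left _ h1
    _ = m * (Fintype.card O * orderOf x) * d := by ring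
    _ ≤ (m + (orderOf x - 1)) * Fintype.card ι * d := Nat.mul_le_mul_right _ h3
    _ = (m + (orderOf x - 1)) * (Fintype.card ι * d) := by ring
    _ ≤ _ := Nat.mul_le_mul_left _ h2

/-- the commutant of `A ≠ 1` is larger than the square of its fixed space. -/
theorem commutant_bound (A : End k W) (hA : A ≠ 1) (S : Submodule k (End k W))
    (hS : ∀ T : End k W, A * T = T * A → T ∈ S) :
    finrank k (LinearMap.ker (A - 1)) ^ 2 + 1 ≤ finrank k S := by
  let K := LinearMap.ker (A - 1)
  let R := LinearMap.range (A - 1)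
  let Φ : ((W ⧸ R) →ₗ[k] K) →ₗ[k] End k W :=
    (LinearMap.llcomp k W K W K.subtype) ∘ₗ (LinearMap.lcomp k K R.mkQ)
  have hΦ : ∀ f, Φ f = K.subtype ∘ₗ f ∘ₗ R.mkQ := fun f => rfl
  have hinj : Function.Injective Φ := by
    rw [injective_iff_map_eq_zero]
    intro f hf
    ext w
    have := LinearMap.congr_fun hf w
    simpa [hΦ] using this
  have h1 : finrank k (LinearMap.range Φ) = finrank k K ^ 2 := by
    rw [LinearMap.finrank_range_of_inj hinj, Module.finrank_linearMap]
    have e1 := Submodule.finrank_quotient_add_finrank R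
    have e2 := LinearMap.finrank_range_add_finrank_ker (A - 1)
    have : finrank k (W ⧸ R) = finrank k K := by
      simp only [R, K] at *; omega
    rw [this, sq]
  have hA1 : ∀ f, A * Φ f = Φ f := by
    intro f
    ext w
    have := (f (R.mkQ w)).2
    rw [LinearMap.mem_ker, LinearMap.sub_apply, sub_eq_zero] at this
    exact this
  have hlt : LinearMap.range Φ < S := by
    refine lt_of_le_of_ne ?_ ?_
    · rintro _ ⟨f, rfl⟩
      apply hS
      rw [hA1]
      ext w
      have : R.mkQ (A w) = R.mkQ w := by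
        rw [Submodule.mkQ_apply, Submodule.mkQ_apply, Submodule.Quotient.eq]
        exact ⟨w, rfl⟩
      simp only [End.mul_apply, hΦ, LinearMap.comp_apply, this]
    · intro he
      obtain ⟨f, hf⟩ : (1 : End k W) ∈ LinearMap.range Φ := he ▸ hS 1 (by simp)
      have := hA1 f
      rw [hf, mul_one] at this
      exact hA this
  have := Submodule.finrank_lt_finrank_of_lt hlt
  rw [h1] at this
  exact this

end lin

/-- fixed point ratio in a transitive action of a solvable group. -/
theorem fix_ratio {G Ω : Type*} [Group G] [Finite G] [Group.IsSolvable G] [Finite Ω] [MulAction G Ω]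
    [IsPretransitive G Ω] [Nontrivial Ω] (x : G) (hx : Odd (orderOf x))
    (hgen : normalClosure ({x} : Set G) = ⊤) : 3 * Nat.card (fixedBy Ω x) ≤ Nat.card Ω := by
  classical
  rcases (fixedBy Ω x).eq_empty_or_nonempty with h0 | ⟨ω₀, hω₀⟩
  · rw [h0]; simp
  have hH : stabilizer G ω₀ ≠ ⊤ := by
    intro h
    obtain ⟨ω, hω⟩ := exists_ne ω₀
    obtain ⟨g, rfl⟩ := exists_smul_eq G ω₀ ω
    exact hω (show g ∈ stabilizer G ω₀ from h ▸ mem_top g)
  obtain ⟨M, hM, hHM⟩ := (eq_top_or_exists_le_coatom (stabilizer G ω₀)).resolve_left hH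
  have hxM : x ∈ M := hHM hω₀
  obtain ⟨R, -, hR⟩ := exists_minimal_le_of_wellFoundedLT
    (fun R : Subgroup G => R.Normal ∧ ¬ R ≤ M) ⊤ ⟨inferInstance, fun h => hM.1 (top_le_iff.mp h)⟩
  obtain ⟨⟨hRn, hRM⟩, hmin⟩ := hR
  have hR' : ⁅R, R⁆ ≤ M := by
    by_contra hc
    have := hmin (y := ⁅R, R⁆) ⟨inferInstance, hc⟩ (commutator_le_self R)
    exact (Group.IsSolvable.commutator_lt_of_ne_bot (H := R) (fun h => hRM (h ▸ bot_le))).not_ge this
  have hsup : M ⊔ R = ⊤ := hM.2 _ (lt_of_le_of_ne le_sup_left fun h => hRM (h ▸ le_sup_right))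
  have hdec : ∀ g : G, ∃ r ∈ R, ∃ m ∈ M, g = r * m := by
    intro g
    have : g ∈ R ⊔ M := by rw [sup_comm, hsup]; exact mem_top g
    obtain ⟨r, hr, m, hm, rfl⟩ := mem_sup_of_normal_left.mp this
    exact ⟨r, hr, m, hm, rfl⟩
  haveI hD : (R ⊓ M).Normal := by
    refine ⟨fun n hn g => ?_⟩
    obtain ⟨r, hr, m, hm, rfl⟩ := hdec g
    refine ⟨hRn.conj_mem _ hn.1 _, ?_⟩
    have h1 : m * n * m⁻¹ ∈ R ⊓ M := ⟨hRn.conj_mem _ hn.1 _, M.mul_mem (M.mul_mem hm hn.2) (M.inv_mem hm)⟩
    have h2 := M.mul_mem (hR' (commutator_mem_commutator hr h1.1)) h1.2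
    rw [commutatorElement_def] at h2
    simpa [mul_assoc] using h2
  let φ := QuotientGroup.mk' (R ⊓ M)
  have hφ : ∀ g, φ g = 1 ↔ g ∈ R ⊓ M := fun g => QuotientGroup.eq_one_iff g
  have hcomm : ∀ a ∈ R, ∀ b ∈ R, φ a * φ b = φ b * φ a := by
    intro a ha b hb
    rw [← commutatorElement_eq_one_iff_mul_comm, ← map_commutatorElement, hφ]
    exact ⟨commutator_le_self R (commutator_mem_commutator ha hb), hR' (commutator_mem_commutator ha hb)⟩
  let C : Subgroup G := (centralizer {φ x}).comap φ
  have hC : ∀ g, g ∈ C ↔ φ g * φ x = φ x * φ g := fun g => mem_centralizer_singleton_iff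
  have hDC : R ⊓ M ≤ C := fun g hg => by rw [hC, (hφ g).mpr hg, one_mul, mul_one]
  have h1 : C.relIndex R ≠ 1 := by
    intro h
    rw [relIndex_eq_one] at h
    have hcen : ∀ g : G, ∀ r ∈ R, φ r * φ g = φ g * φ r := by
      intro g
      have : normalClosure ({x} : Set G) ≤ (centralizer (R.map φ : Set (G ⧸ (R ⊓ M)))).comap φ := by
        apply normalClosure_le_normal
        rintro _ rfl
        rintro _ ⟨r, hr, rfl⟩
        exact (hC r).mp (h hr)
      rw [hgen] at this
      exact fun r hr => this (mem_top g) _ ⟨r, hr, rfl⟩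
    haveI : M.Normal := by
      refine ⟨fun n hn g => ?_⟩
      obtain ⟨r, hr, m, hm, rfl⟩ := hdec g
      have h1 : m * n * m⁻¹ ∈ M := M.mul_mem (M.mul_mem hm hn) (M.inv_mem hm)
      have h2 : r * (m * n * m⁻¹) * r⁻¹ * (m * n * m⁻¹)⁻¹ ∈ R ⊓ M := by
        rw [← hφ, map_mul, map_mul, map_mul, hcen _ r hr, map_inv, map_inv]; group
      have := M.mul_mem h2.2 h1
      simpa [mul_assoc] using this
    apply hM.1
    rw [eq_top_iff, ← hgen]
    exact normalClosure_le_normal (by simpa using hxM)
  have h2 : C.relIndex R ≠ 2 := by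
    intro h
    obtain ⟨r, hr, hrC⟩ : ∃ r ∈ R, r ∉ C := SetLike.not_le_iff_exists.mp (mt relIndex_eq_one.mpr h1)
    have hxr : x * r * x⁻¹ ∈ R := hRn.conj_mem _ hr x
    have hxrC : x * r * x⁻¹ ∉ C := by
      intro h'
      apply hrC
      rw [hC] at h' ⊢
      simp only [map_mul, map_inv] at h'
      calc φ r * φ x = (φ x)⁻¹ * (φ x * φ r * (φ x)⁻¹ * φ x) * φ x := by group
        _ = _ := by rw [h']; group
    have hw : r⁻¹ * (x * r * x⁻¹) ∈ C :=
      (mul_mem_iff_of_index_two (H := C.subgroupOf R) h (a := ⟨r⁻¹, R.inv_mem hr⟩) (b := ⟨_, hxr⟩)).mpr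
        (by simp [mem_subgroupOf, hrC, hxrC])
    have hr2 : r * r ∈ C := mul_self_mem_of_index_two (H := C.subgroupOf R) h ⟨r, hr⟩
    set w := φ (r⁻¹ * (x * r * x⁻¹)) with hw_def
    have hwx : Commute w (φ x) := (hC _).mp hw
    have hwr : Commute w (φ r) := hcomm _ (R.mul_mem (R.inv_mem hr) hxr) _ hr
    have e1 : φ x * φ r = φ r * w * φ x := by rw [hw_def]; simp only [map_mul, map_inv]; group
    have e2 : ∀ n : ℕ, φ x ^ n * φ r = φ r * w ^ n * φ x ^ n := by
      intro n
      induction n with
      | zero => simp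
      | succ n ih =>
        rw [pow_succ', mul_assoc, ih, ← mul_assoc, ← mul_assoc, e1, pow_succ']
        have := (hwx.pow_left n).eq
        calc φ r * w * φ x * w ^ n * φ x ^ n = φ r * w * (φ x * w ^ n) * φ x ^ n := by
              simp only [mul_assoc]
          _ = _ := by rw [← this]; simp only [mul_assoc]
    have e3 : w ^ orderOf x = 1 := by
      have := e2 (orderOf x)
      rw [← map_pow, pow_orderOf_eq_one, map_one, one_mul, mul_one] at this
      exact left_eq_mul.mp this
    have e4 : w ^ 2 = 1 := by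
      have a1 := (hC _).mp hr2
      rw [map_mul] at a1
      have a2 : φ x * (φ r * φ r) = φ r * φ r * w ^ 2 * φ x := by
        calc φ x * (φ r * φ r) = (φ x * φ r) * φ r := by simp only [mul_assoc]
          _ = φ r * w * φ x * φ r := by rw [e1]
          _ = φ r * w * (φ x * φ r) := by simp only [mul_assoc]
          _ = φ r * w * (φ r * w * φ x) := by rw [e1]
          _ = φ r * (w * φ r) * w * φ x := by simp only [mul_assoc]
          _ = _ := by rw [hwr.eq, sq]; simp only [mul_assoc]
      rw [a2] at a1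
      exact left_eq_mul.mp (mul_right_cancel a1)
    have e5 : w = 1 := by
      rw [← orderOf_eq_one_iff]
      exact Nat.eq_one_of_dvd_coprimes (Nat.coprime_two_right.mpr hx) (orderOf_dvd_of_pow_eq_one e3)
        (orderOf_dvd_of_pow_eq_one e4)
    apply hrC
    rw [hC, e1, e5, mul_one]
  have h0 : C.relIndex R ≠ 0 := index_ne_zero_of_finite
  have hfx : ∀ ω ∈ fixedBy Ω x, ∃ c ∈ R, c ∈ C ∧ ∃ m ∈ M, ω = (c * m) • ω₀ := by
    intro ω hω
    obtain ⟨g, rfl⟩ := exists_smul_eq G ω₀ ω
    obtain ⟨r, hr, m, hm, rfl⟩ := hdec g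
    refine ⟨r, hr, ?_, m, hm, rfl⟩
    have a1 : (r * m)⁻¹ * x * (r * m) ∈ M := hHM (by
      rw [mem_stabilizer_iff, mul_smul, mul_smul, inv_smul_eq_iff]; exact hω)
    have a2 : r⁻¹ * (x * r * x⁻¹) ∈ R ⊓ M := by
      refine ⟨R.mul_mem (R.inv_mem hr) (hRn.conj_mem _ hr x), ?_⟩
      have := M.mul_mem (M.mul_mem (M.mul_mem hm a1) (M.inv_mem hm)) (M.inv_mem hxM)
      simpa [mul_assoc] using this
    rw [← hφ] at a2
    simp only [map_mul, map_inv] at a2
    rw [hC]
    calc φ r * φ x = φ r * ((φ r)⁻¹ * (φ x * φ r * (φ x)⁻¹)) * φ x := by rw [a2, mul_one]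
      _ = _ := by group
  let f : (R ⧸ C.subgroupOf R) × fixedBy Ω x → Ω := fun z => (z.1.out : G) • (z.2 : Ω)
  have hf : Function.Injective f := by
    rintro ⟨q, ω, hω⟩ ⟨q', ω', hω'⟩ h
    obtain ⟨c, hc, hcC, m, hm, rfl⟩ := hfx ω hω
    obtain ⟨c', hc', hcC', m', hm', rfl⟩ := hfx ω' hω'
    have h' : (q.out : G) • (c * m) • ω₀ = (q'.out : G) • (c' * m') • ω₀ := h
    have a1 : ((q.out : G) * (c * m))⁻¹ * (q'.out * (c' * m')) ∈ M := hHM (by
      rw [mem_stabilizer_iff, mul_smul, inv_smul_eq_iff, mul_smul (q'.out : G), ← h',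
        mul_smul (q.out : G)])
    have a2 : c⁻¹ * ((q.out : G)⁻¹ * q'.out) * c' ∈ R ⊓ M := by
      refine ⟨R.mul_mem (R.mul_mem (R.inv_mem hc) (R.mul_mem (R.inv_mem q.out.2) q'.out.2)) hc', ?_⟩
      have := M.mul_mem (M.mul_mem hm a1) (M.inv_mem hm')
      simpa [mul_assoc] using this
    have a3 : (q.out : G)⁻¹ * q'.out ∈ C := by
      have := C.mul_mem (C.mul_mem hcC (hDC a2)) (C.inv_mem hcC')
      simpa [mul_assoc] using this
    have a4 : q = q' := by
      rw [← q.out_eq', ← q'.out_eq', QuotientGroup.eq]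
      exact a3
    subst a4
    exact Prod.ext rfl (Subtype.ext (smul_left_cancel _ h'))
  have := Nat.card_le_card_of_injective f hf
  rw [Nat.card_prod] at this
  have e : Nat.card (R ⧸ C.subgroupOf R) = C.relIndex R := rfl
  rw [e] at this
  exact (Nat.mul_le_mul_right _ (by omega)).trans this

end Cfsg.Agent.H36.FixDim
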