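import Mathlib
import Cfsg.Agent.H36.FixDim
import Cfsg.Agent.H3.Fitting
import Cfsg.Agent.S0625
import Cfsg.Agent.H24.PSolv
import Cfsg.Agent.H3.Primitive
import Cfsg.Agent.H3.Frattini

set_option autoImplicit false

namespace Cfsg.Agent.H36.FixDim

open Module Subgroup MulAction
open scoped commutatorElement

section grp
variable {G : Type*} [Group G]

theorem comm_mul_left {a b c : G} (h : ⁅b, c⁆ ∈ center G) : ⁅a * b, c⁆ = ⁅a, c⁆ * ⁅b, c⁆ := by
  have := mem_center_iff.mp h
  calc ⁅a * b, c⁆ = (a * ⁅b, c⁆) * (c * a⁻¹ * c⁻¹) := by simp only [commutatorElement_def]; group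
    _ = ⁅b, c⁆ * ⁅a, c⁆ := by rw [this a]; simp only [commutatorElement_def]; group
    _ = _ := (this _).symm

variable (N : Subgroup (G ⧸ center G)) [hN : N.Normal]

theorem comm_mem_center (hab : IsMulCommutative N) {a b : G} (ha : (a : G ⧸ center G) ∈ N)
    (hb : (b : G ⧸ center G) ∈ N) : ⁅a, b⁆ ∈ center G := by
  rw [← QuotientGroup.eq_one_iff, ← QuotientGroup.mk'_apply, map_commutatorElement,
    commutatorElement_eq_one_iff_mul_comm]
  exact congrArg Subtype.val (hab.is_comm.comm (⟨_, ha⟩ : N) ⟨_, hb⟩)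

/-- `Z(N) = Z(G)` for the non-abelian minimal non-central normal subgroup. -/
theorem exists_not_comm (hmin : ∀ K : Subgroup (G ⧸ center G), K.Normal → K ≤ N → K = ⊥ ∨ K = N)
    (hna : ∃ a b : G, (a : G ⧸ center G) ∈ N ∧ (b : G ⧸ center G) ∈ N ∧ a * b ≠ b * a)
    {w : G} (hw : (w : G ⧸ center G) ∈ N) (hwZ : w ∉ center G) :
    ∃ n : G, (n : G ⧸ center G) ∈ N ∧ n * w ≠ w * n := by
  by_contra hc
  push Not at hc
  let N' := N.comap (QuotientGroup.mk' (center G))
  let K := (centralizer (N' : Set G) ⊓ N').map (QuotientGroup.mk' (center G))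
  have hK : K.Normal := Normal.map inferInstance _ (QuotientGroup.mk'_surjective _)
  rcases hmin K hK (by rintro _ ⟨y, hy, rfl⟩; exact hy.2) with h | h
  · have : (w : G ⧸ center G) ∈ K := ⟨w, ⟨fun n hn => hc n hn, hw⟩, rfl⟩
    rw [h, mem_bot, QuotientGroup.eq_one_iff] at this
    exact hwZ this
  · obtain ⟨a, b, ha, hb, hab⟩ := hna
    rw [← h] at hb
    obtain ⟨y, hy, hyb⟩ := hb
    have hz : y⁻¹ * b ∈ center G := QuotientGroup.eq.mp hyb
    apply hab
    calc a * b = a * y * (y⁻¹ * b) := by group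
      _ = y * (a * (y⁻¹ * b)) := by rw [hy.1 a ha, mul_assoc]
      _ = b * a := by rw [mem_center_iff.mp hz a]; group

theorem not_le_cent (hmin : ∀ K : Subgroup (G ⧸ center G), K.Normal → K ≤ N → K = ⊥ ∨ K = N)
    (hna : ∃ a b : G, (a : G ⧸ center G) ∈ N ∧ (b : G ⧸ center G) ∈ N ∧ a * b ≠ b * a) :
    ¬ N ≤ center (G ⧸ center G) := by
  intro hle
  obtain ⟨a, b, ha, hb, hab⟩ := hna
  have ha1 : (a : G ⧸ center G) ≠ 1 := by
    rw [Ne, QuotientGroup.eq_one_iff]
    exact fun h => hab (mem_center_iff.mp h b).symm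
  have hK : (zpowers (a : G ⧸ center G)).Normal := by
    refine ⟨fun n hn g => ?_⟩
    rw [mem_center_iff.mp (hle ((zpowers_le.mpr ha) hn)) g]
    simpa using hn
  rcases hmin _ hK (zpowers_le.mpr ha) with h | h
  · exact ha1 (zpowers_eq_bot.mp h)
  · rw [← h] at hb
    obtain ⟨i, hi⟩ := hb
    have hz : (a ^ i)⁻¹ * b ∈ center G := QuotientGroup.eq.mp hi
    apply hab
    calc a * b = a ^ i * (a * ((a ^ i)⁻¹ * b)) := by group
      _ = b * a := by rw [mem_center_iff.mp hz a]; group

theorem idx_bound [Finite G] [Group.IsSolvable G] {q : ℕ} (hq : q.Prime) (hel : IsElementaryAbelian q N)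
    (hmin : ∀ K : Subgroup (G ⧸ center G), K.Normal → K ≤ N → K = ⊥ ∨ K = N)
    (hna : ∃ a b : G, (a : G ⧸ center G) ∈ N ∧ (b : G ⧸ center G) ∈ N ∧ a * b ≠ b * a)
    {p : ℕ} [hp : Fact p.Prime] (h5 : 5 ≤ p) (x : G) (hx : orderOf x = p)
    (hgen : normalClosure ({x} : Set G) = ⊤) :
    16 ≤ (centralizer {(x : G ⧸ center G)}).relIndex N ∨
      (7 ≤ p ∧ 8 ≤ (centralizer {(x : G ⧸ center G)}).relIndex N) := by
  haveI := Fact.mk hq
  set y : G ⧸ center G := QuotientGroup.mk x with hy
  set C := centralizer ({y} : Set (G ⧸ center G)) with hC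
  have hCm : ∀ g, g ∈ C ↔ g * y = y * g := fun g => mem_centralizer_singleton_iff
  have hgen' : ∀ K : Subgroup (G ⧸ center G), K.Normal → y ∈ K → K = ⊤ := by
    intro K hK hyK
    have : normalClosure ({x} : Set G) ≤ K.comap (QuotientGroup.mk' _) :=
      normalClosure_le_normal (by rintro _ rfl; exact hyK)
    rw [hgen, top_le_iff] at this
    rw [eq_top_iff]
    intro g _
    obtain ⟨g, rfl⟩ := QuotientGroup.mk_surjective g
    exact (show g ∈ K.comap (QuotientGroup.mk' _) from this ▸ mem_top g)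
  have hyp : y ^ p = 1 := by rw [hy, ← QuotientGroup.mk_pow, ← hx, pow_orderOf_eq_one]; rfl
  have hNq : IsPGroup q N := fun g => ⟨1, Subtype.ext (by simpa using hel.2 g g.2)⟩
  have hnc := not_le_cent N hmin hna
  have hNC : ¬ N ≤ C := by
    intro hle
    apply hnc
    have := hgen' (centralizer (N : Set _)) inferInstance (fun n hn => (hCm n).mp (hle hn))
    intro n hn
    rw [mem_center_iff]
    intro g
    exact ((show g ∈ centralizer (N : Set _) from this ▸ mem_top g) n hn).symm
  obtain ⟨j, hj⟩ : ∃ j, C.relIndex N = q ^ j := hNq.index (C.subgroupOf N)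
  have hj0 : j ≠ 0 := by
    rintro rfl
    exact hNC (relIndex_eq_one.mp hj)
  have hj1 : j ≠ 1 := by
    rintro rfl
    rw [pow_one] at hj
    have hco : IsCoatom (C.subgroupOf N) := H3.isCoatom_of_index_prime (by
      show (C.relIndex N).Prime; rw [hj]; exact hq)
    have hquad : ∀ u ∈ N, u * y * u⁻¹ * y⁻¹ ∈ C := by
      intro u hu
      obtain ⟨u, rfl⟩ := QuotientGroup.mk_surjective u
      have hxu : ((x * u⁻¹ * x⁻¹ : G) : G ⧸ center G) ∈ N := by
        simpa using hN.conj_mem _ (N.inv_mem hu) y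
      have hw : ((u * (x * u⁻¹ * x⁻¹) : G) : G ⧸ center G) ∈ N := N.mul_mem hu hxu
      have hcen : ∀ c : G, (c : G ⧸ center G) ∈ N → (c : G ⧸ center G) ∈ C →
          ⁅u * (x * u⁻¹ * x⁻¹), c⁆ = 1 := by
        intro c hc hcC
        rw [comm_mul_left (comm_mem_center N hel.1 hxu hc)]
        have hz : c⁻¹ * (x⁻¹ * c * x) ∈ center G := by
          rw [← QuotientGroup.eq]
          have := (hCm _).mp hcC
          simp only [QuotientGroup.mk_mul, QuotientGroup.mk_inv, ← hy]
          rw [mul_assoc, this]; group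
        have h1 : ⁅u⁻¹, c⁆ ∈ center G := comm_mem_center N hel.1 (by simpa using hu) hc
        have h2 : ⁅x * u⁻¹ * x⁻¹, c⁆ = ⁅u⁻¹, c⁆ := by
          have e := mem_center_iff.mp hz
          calc ⁅x * u⁻¹ * x⁻¹, c⁆
              = x * (u⁻¹ * c * ((c⁻¹ * (x⁻¹ * c * x)) * u) * (c⁻¹ * (x⁻¹ * c * x))⁻¹ * c⁻¹) * x⁻¹ := by
                simp only [commutatorElement_def]; group
            _ = x * ⁅u⁻¹, c⁆ * x⁻¹ := by rw [← e u]; simp only [commutatorElement_def]; group
            _ = _ := by rw [mem_center_iff.mp h1 x]; group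
        rw [h2, ← comm_mul_left h1]
        simp
      by_contra hwC
      have hwC' : ((u * (x * u⁻¹ * x⁻¹) : G) : G ⧸ center G) ∉ C := by
        simpa [mul_assoc] using hwC
      obtain ⟨n, hn, hne⟩ := exists_not_comm N hmin hna hw (fun h => hwC' (by
        rw [(QuotientGroup.eq_one_iff _).mpr h]; exact one_mem _))
      let K : Subgroup N := ((centralizer ({u * (x * u⁻¹ * x⁻¹)} : Set G)).map
        (QuotientGroup.mk' (center G))).subgroupOf N
      have hK : K = ⊤ := by
        apply hco.2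
        refine lt_of_le_of_ne ?_ ?_
        · rintro ⟨c, hc⟩ hcC
          obtain ⟨c, rfl⟩ := QuotientGroup.mk_surjective c
          refine ⟨c, mem_centralizer_singleton_iff.mpr ?_, rfl⟩
          exact (commutatorElement_eq_one_iff_mul_comm.mp (hcen c hc hcC)).symm
        · intro he
          apply hwC'
          have : (⟨_, hw⟩ : N) ∈ K := ⟨_, mem_centralizer_singleton_iff.mpr rfl, rfl⟩
          rw [← he] at this
          exact this
      obtain ⟨c, hc, hcn⟩ : (⟨_, hn⟩ : N) ∈ K := hK ▸ mem_top _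
      have hz : c⁻¹ * n ∈ center G := QuotientGroup.eq.mp hcn
      have hc' := mem_centralizer_singleton_iff.mp hc
      apply hne
      calc n * (u * (x * u⁻¹ * x⁻¹)) = c * ((c⁻¹ * n) * (u * (x * u⁻¹ * x⁻¹))) := by group
        _ = (c * (u * (x * u⁻¹ * x⁻¹))) * (c⁻¹ * n) := by rw [← mem_center_iff.mp hz, ← mul_assoc]
        _ = _ := by rw [hc']; group
    have hpow : ∀ u ∈ N, ∀ i : ℕ, u * y ^ i * u⁻¹ * (y ^ i)⁻¹ = (u * y * u⁻¹ * y⁻¹) ^ i := by
      intro u hu i
      have hc : Commute (u * y * u⁻¹ * y⁻¹) y := (hCm _).mp (hquad u hu)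
      have : u * y ^ i * u⁻¹ = (u * y * u⁻¹ * y⁻¹ * y) ^ i := by
        rw [inv_mul_cancel_right, conj_pow]
      rw [this, hc.mul_pow, mul_inv_cancel_right]
    by_cases hqp : q = p
    · subst hqp
      have hst := (S0625.result h5 (H24.isPSolvable_of_isSolvable hq (G ⧸ center G) inferInstance)).1 N hel y (by
        rw [commutator_eq_bot_iff_le_centralizer, commutator_le]
        intro u hu a ha
        obtain ⟨i, rfl⟩ := mem_powers_iff_mem_zpowers.mpr ha
        have : ⁅u, y ^ i⁆ ∈ C := by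
          rw [commutatorElement_def, hpow u hu i]; exact C.pow_mem (hquad u hu) i
        rintro _ ⟨l, rfl⟩
        exact ((show Commute ⁅u, y ^ i⁆ y from (hCm _).mp this).zpow_right l).symm)
      have htop := hgen' ((pCore q _).comap (QuotientGroup.mk' (centralizer (N : Set (G ⧸ center G)))))
        inferInstance hst
      have hP : IsPGroup q (MulAut.conjNormal (H := N) (G := G ⧸ center G)).range := by
        rintro ⟨_, g, rfl⟩
        obtain ⟨k, hk⟩ := H3.pCore_isPGroup q _ ⟨_, (show g ∈ (pCore q _).comap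
          (QuotientGroup.mk' (centralizer (N : Set (G ⧸ center G)))) from htop ▸ mem_top g)⟩
        refine ⟨k, Subtype.ext ?_⟩
        have hk' : g ^ q ^ k ∈ centralizer (N : Set (G ⧸ center G)) := by
          rw [← QuotientGroup.eq_one_iff]; exact congrArg Subtype.val hk
        show MulAut.conjNormal g ^ q ^ k = 1
        rw [← map_pow]
        ext n
        rw [MulAut.conjNormal_apply, ← hk' n n.2]
        simp
      obtain ⟨b, hb, hb1⟩ := hP.exists_fixed_point_of_prime_dvd_card_of_fixed_point N (by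
        rw [← hj]; exact relIndex_dvd_card _ _) (a := 1) (fun g => by
          show (g : MulAut N) 1 = 1
          exact map_one _)
      rcases hmin (N ⊓ center _) inferInstance inf_le_left with h | h
      · apply hb1
        have : (b : G ⧸ center G) ∈ N ⊓ center _ := ⟨b.2, mem_center_iff.mpr fun g => by
          have := congrArg Subtype.val (hb ⟨_, g, rfl⟩)
          exact mul_inv_eq_iff_eq_mul.mp this⟩
        rw [h] at this
        exact (Subtype.ext (mem_bot.mp this)).symm
      · exact hnc (inf_eq_left.mp h)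
    · apply hNC
      intro u hu
      have h1 := hpow u hu p
      rw [hyp] at h1
      have h2 : (u * y * u⁻¹ * y⁻¹) ^ q = 1 := hel.2 _ (by
        have := N.mul_mem hu (hN.conj_mem _ (N.inv_mem hu) y)
        simpa [mul_assoc] using this)
      have h3 : u * y * u⁻¹ * y⁻¹ = 1 := by
        rw [← orderOf_eq_one_iff]
        exact Nat.eq_one_of_dvd_coprimes ((Nat.coprime_primes hq hp.out).mpr hqp)
          (orderOf_dvd_of_pow_eq_one h2) (orderOf_dvd_of_pow_eq_one (by rw [← h1]; simp))
      rw [hCm]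
      calc u * y = u * y * u⁻¹ * y⁻¹ * (y * u) := by group
        _ = _ := by rw [h3, one_mul]
  have hj2 : 2 ≤ j := by omega
  by_cases hqp : q = p
  · left
    rw [hj, hqp]
    calc 16 ≤ p ^ 2 := by nlinarith
      _ ≤ p ^ j := Nat.pow_le_pow_right hp.out.pos hj2
  have hmod : C.relIndex N ≡ 1 [MOD p] := by
    have hyP : IsPGroup p (zpowers y) := by
      rintro ⟨_, i, rfl⟩
      refine ⟨1, Subtype.ext ?_⟩
      show (y ^ i) ^ p ^ 1 = 1
      rw [pow_one, ← zpow_natCast, ← zpow_mul, mul_comm, zpow_mul, zpow_natCast, hyp, one_zpow]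
    have h1 := H3.card_modEq_card_inf_centralizer hyP (L := N) le_normalizer_of_normal
    have h2 : centralizer (zpowers y : Set (G ⧸ center G)) = C := by
      rw [hC, zpowers_eq_closure, centralizer_closure]
    rw [h2, ← H3.card_inf_mul_relIndex C N, inf_comm C N] at h1
    obtain ⟨a, ha⟩ := (hNq.to_inf_left (K := C)).exists_card_eq
    have hcop : Nat.gcd p (Nat.card ↥(N ⊓ C)) = 1 := by
      rw [ha]; exact ((Nat.coprime_primes hp.out hq).mpr (Ne.symm hqp)).pow_right a
    exact Nat.ModEq.cancel_left_of_coprime hcop (by rwa [mul_one])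
  by_contra hcon
  push Not at hcon
  have hlt := hcon.1
  rw [hj] at hlt hmod hcon
  have hq3 : q ≤ 3 := by
    by_contra h
    have : q ^ 2 ≤ q ^ j := Nat.pow_le_pow_right hq.pos hj2
    nlinarith
  have hj3 : j ≤ 3 := by
    by_contra h
    have : 2 ^ 4 ≤ q ^ j := (Nat.pow_le_pow_left hq.two_le 4).trans (Nat.pow_le_pow_right hq.pos (by omega))
    omega
  have hdv : p ∣ q ^ j - 1 := (Nat.modEq_iff_dvd' (Nat.one_le_pow _ _ hq.pos)).mp hmod.symm
  have := hq.two_le
  have h8 := hp.out
  have h2 := hcon.2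
  have hle := Nat.le_of_dvd (by have := Nat.one_lt_pow hj0 hq.one_lt; omega) hdv
  clear hcon hmod hj
  interval_cases q <;> interval_cases j
  · omega
  · interval_cases p <;> omega
  · interval_cases p <;> first | omega | norm_num at h8
  · omega

end grp

end Cfsg.Agent.H36.FixDim
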