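import Mathlib
import Cfsg.Agent.H36.FixDim2

set_option autoImplicit false

namespace Cfsg.Agent.H36.FixDim

open Module Subgroup MulAction
open scoped commutatorElement

variable {G : Type*} [Group G] {k : Type*} [Field k] {V : Type*} [AddCommGroup V] [Module k V]

theorem exists_eig [IsAlgClosed k] [FiniteDimensional k V] (U : Submodule k V) (hU : U ≠ ⊥) (A : End k V)
    (hA : ∀ u ∈ U, A u ∈ U) : ∃ c : k, U ⊓ End.eigenspace A c ≠ ⊥ := by
  haveI : Nontrivial U := Submodule.nontrivial_iff_ne_bot.mpr hU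
  obtain ⟨c, hc⟩ := End.exists_eigenvalue (A.restrict hA)
  obtain ⟨v, hv⟩ := hc.exists_hasEigenvector
  refine ⟨c, fun h0 => hv.2 ?_⟩
  have : (v : V) ∈ U ⊓ End.eigenspace A c :=
    ⟨v.2, End.mem_eigenspace_iff.mpr (congrArg Subtype.val hv.apply_eq_smul)⟩
  rw [h0] at this
  exact Subtype.ext this

/-- irreducibility in elementary form -/
def Irr (ρ : Representation k G V) : Prop :=
  ∀ U : Submodule k V, (∀ g, U ≤ U.comap (ρ g)) → U = ⊥ ∨ U = ⊤

theorem scalar [IsAlgClosed k] [FiniteDimensional k V] [Nontrivial V] {ρ : Representation k G V}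
    (hirr : Irr ρ) {z : G} (hz : z ∈ center G) : ∃ c : k, ρ z = c • (1 : End k V) := by
  obtain ⟨c, hc⟩ := exists_eig ⊤ top_ne_bot (ρ z) (fun _ _ => trivial)
  rw [top_inf_eq] at hc
  refine ⟨c, ?_⟩
  have := (hirr (End.eigenspace (ρ z) c) fun g v hv => by
    rw [Submodule.mem_comap, End.mem_eigenspace_iff, ← End.mul_apply, ← map_mul,
      ← mem_center_iff.mp hz g, map_mul, End.mul_apply, End.mem_eigenspace_iff.mp hv, map_smul]).resolve_left hc
  ext v
  exact End.mem_eigenspace_iff.mp (this ▸ Submodule.mem_top)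

/-- conjugation action on the linear characters of a normal subgroup -/
@[reducible] def charAct (N : Subgroup G) [N.Normal] (k : Type*) [Field k] : MulAction G (N →* kˣ) where
  smul g χ := χ.comp (MulAut.conjNormal g⁻¹ : MulAut N).toMonoidHom
  one_smul χ := by
    show χ.comp _ = χ
    ext n; simp
  mul_smul g h χ := by
    show χ.comp _ = (χ.comp _).comp _
    ext n; simp

theorem gen_of_mem [Finite G] {p : ℕ} [hp : Fact p.Prime] {x g : G} (hx : orderOf x = p)
    (hgen : normalClosure ({x} : Set G) = ⊤) (hg : g ∈ zpowers x) (hg1 : g ≠ 1) :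
    orderOf g = p ∧ normalClosure ({g} : Set G) = ⊤ := by
  have ho : orderOf g = p := by
    refine ((Nat.dvd_prime hp.out).mp (hx ▸ orderOf_dvd_of_mem_zpowers hg)).resolve_left ?_
    rwa [orderOf_eq_one_iff]
  refine ⟨ho, ?_⟩
  have hz : zpowers g = zpowers x := eq_of_le_of_card_ge (zpowers_le.mpr hg) (by
    rw [Nat.card_zpowers, Nat.card_zpowers, ho, hx])
  rw [eq_top_iff, ← hgen]
  refine normalClosure_le_normal (Set.singleton_subset_iff.mpr ?_)
  have h1 : zpowers g ≤ normalClosure ({g} : Set G) := zpowers_le.mpr (subset_normalClosure rfl)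
  exact h1 (by rw [hz]; exact mem_zpowers _)

theorem abelian_case [IsAlgClosed k] [FiniteDimensional k V] [Nontrivial V] [Finite G] [Group.IsSolvable G]
    {ρ : Representation k G V} (hirr : Irr ρ) (hf : Function.Injective ρ) (N : Subgroup G) [hN : N.Normal]
    (hab : IsMulCommutative N) (hc : (Nat.card N : k) ≠ 0) (hnc : ¬ N ≤ center G)
    {p : ℕ} [hp : Fact p.Prime] (h5 : 5 ≤ p) (x : G) (hx : orderOf x = p)
    (hgen : normalClosure ({x} : Set G) = ⊤) :
    2 * finrank k (LinearMap.ker (ρ x - 1)) < finrank k V := by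
  classical
  haveI := Fintype.ofFinite N
  letI := charAct N k
  have hsm : ∀ (g : G) (χ : N →* kˣ) (n : N), (g • χ) n = χ (MulAut.conjNormal g⁻¹ n) := fun _ _ _ => rfl
  obtain ⟨U, hU⟩ := exists_minimal_of_wellFoundedLT
    (fun U : Submodule k V => U ≠ ⊥ ∧ ∀ n : N, ∀ u ∈ U, ρ n u ∈ U) ⟨⊤, top_ne_bot, fun _ _ _ => trivial⟩
  have hsc : ∀ n : N, ∃ c : k, ∀ u ∈ U, ρ n u = c • u := by
    intro n
    obtain ⟨c, hc⟩ := exists_eig U hU.1.1 (ρ n) (hU.1.2 n)
    refine ⟨c, fun u hu => End.mem_eigenspace_iff.mp (hU.2 ⟨hc, fun m v hv => ⟨hU.1.2 m v hv.1, ?_⟩⟩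
      inf_le_left hu).2⟩
    have e : (n : G) * m = m * n := congrArg Subtype.val (hab.is_comm.comm n m)
    rw [SetLike.mem_coe, End.mem_eigenspace_iff, ← End.mul_apply, ← map_mul, e, map_mul, End.mul_apply,
      End.mem_eigenspace_iff.mp hv.2, map_smul]
  choose c hcU using hsc
  obtain ⟨v₀, hv₀U, hv₀⟩ := (Submodule.ne_bot_iff U).mp hU.1.1
  let c' : N →* k :=
    { toFun := c
      map_one' := by
        have := hcU 1 v₀ hv₀U
        rw [coe_one, map_one, End.one_apply] at this
        exact smul_left_injective k hv₀ (by simpa using this.symm)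
      map_mul' := fun a b => by
        have := hcU (a * b) v₀ hv₀U
        rw [coe_mul, map_mul, End.mul_apply, hcU b v₀ hv₀U, map_smul, hcU a v₀ hv₀U, smul_smul] at this
        exact smul_left_injective k hv₀ (by simpa [mul_comm] using this.symm) }
  let χ₀ : N →* kˣ := c'.toHomUnits
  have hχ₀ : ∀ n : N, ρ n v₀ = (χ₀ n : k) • v₀ := fun n => hcU n v₀ hv₀U
  let e : (N →* kˣ) → End k V := fun χ => (Nat.card N : k)⁻¹ • ∑ n : N, (χ n⁻¹ : k) • ρ n
  have he1 : ∀ (χ : N →* kˣ) (m : N), ρ m * e χ = (χ m : k) • e χ := by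
    intro χ m
    simp only [e, mul_smul_comm, Finset.mul_sum, smul_comm (χ m : k), Finset.smul_sum]
    refine Fintype.sum_equiv (Equiv.mulLeft m) _ _ fun n => ?_
    simp only [Equiv.coe_mulLeft, coe_mul, map_mul, mul_inv_rev, smul_smul, Units.val_mul, map_inv]
    congr 1
    field_simp
    exact (Units.inv_mul _).symm
  have he2 : ∀ (χ ψ : N →* kˣ) (v : V), (∀ n : N, ρ n v = (χ n : k) • v) →
      e ψ v = if ψ = χ then v else 0 := by
    intro χ ψ v hv
    simp only [e, LinearMap.smul_apply, LinearMap.sum_apply, hv, smul_smul]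
    rw [← Finset.sum_smul, smul_smul]
    split_ifs with h
    · subst h
      simp only [map_inv, Units.inv_mul, Finset.sum_const, Finset.card_univ, nsmul_eq_mul, mul_one]
      rw [← Nat.card_eq_fintype_card, inv_mul_cancel₀ hc, one_smul]
    · have := sum_hom_units_eq_zero ((Units.coeHom k).comp (ψ⁻¹ * χ)) (by
        intro h0
        apply h
        ext n
        have := DFunLike.congr_fun h0 n
        simp only [MonoidHom.comp_apply, MonoidHom.mul_apply, MonoidHom.inv_apply, Units.coeHom_apply,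
          MonoidHom.one_apply, Units.val_eq_one, inv_mul_eq_one] at this
        rw [this])
      simp only [MonoidHom.comp_apply, MonoidHom.mul_apply, MonoidHom.inv_apply, Units.coeHom_apply,
        Units.val_mul] at this
      simp only [map_inv]
      rw [this, mul_zero, zero_smul]
  have he3 : ∀ (g : G) (χ : N →* kˣ), ρ g * e χ = e (g • χ) * ρ g := by
    intro g χ
    simp only [e, mul_smul_comm, smul_mul_assoc, Finset.mul_sum, Finset.sum_mul]
    congr 1
    refine Fintype.sum_equiv (MulAut.conjNormal g : MulAut N).toEquiv _ _ fun n => ?_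
    simp only [hsm, MulEquiv.toEquiv_eq_coe, EquivLike.coe_coe, map_inv, MulAut.inv_apply,
      MulEquiv.symm_apply_apply, MulAut.conjNormal_apply, ← map_mul, inv_mul_cancel_right]
  haveI : Finite (orbit G χ₀) := Finite.of_surjective (fun g : G => (⟨g • χ₀, mem_orbit _ g⟩ : orbit G χ₀))
    (by rintro ⟨_, g, rfl⟩; exact ⟨g, rfl⟩)
  haveI := Fintype.ofFinite (orbit G χ₀)
  have hsum : ∑ i : orbit G χ₀, e i = 1 := by
    have hcomm : ∀ g, ρ g * ∑ i : orbit G χ₀, e i = (∑ i : orbit G χ₀, e i) * ρ g := by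
      intro g
      rw [Finset.mul_sum, Finset.sum_mul]
      exact Fintype.sum_equiv (MulAction.toPerm g) _ _ fun i => he3 g i
    have := (hirr (LinearMap.ker (∑ i : orbit G χ₀, e i - 1)) fun g v hv => by
      rw [Submodule.mem_comap, LinearMap.mem_ker, LinearMap.sub_apply, sub_eq_zero] at *
      rw [← End.mul_apply, ← hcomm, End.mul_apply, hv]; rfl).resolve_left (by
        refine (Submodule.ne_bot_iff _).mpr ⟨v₀, ?_, hv₀⟩
        rw [LinearMap.mem_ker, LinearMap.sub_apply, sub_eq_zero, LinearMap.sum_apply,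
          Finset.sum_eq_single ⟨χ₀, mem_orbit_self _⟩]
        · rw [he2 χ₀ χ₀ v₀ hχ₀, if_pos rfl]; rfl
        · intro j _ hj
          rw [he2 χ₀ j v₀ hχ₀, if_neg (fun h => hj (Subtype.ext h))]
        · simp)
    exact sub_eq_zero.mp (LinearMap.ker_eq_top.mp this)
  haveI : Nontrivial (orbit G χ₀) := by
    by_contra hnt
    rw [not_nontrivial_iff_subsingleton] at hnt
    rw [Finset.sum_eq_single ⟨χ₀, mem_orbit_self _⟩ (fun j _ hj => absurd (Subsingleton.elim _ _) hj)
      (by simp)] at hsum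
    apply hnc
    intro n hn
    rw [mem_center_iff]
    intro g
    apply hf
    have := he1 χ₀ ⟨n, hn⟩
    simp only [hsum, mul_one] at this
    rw [map_mul, map_mul, this, mul_smul_comm, smul_mul_assoc, mul_one, one_mul]
  have hb := dim_bound ρ (fun i : orbit G χ₀ => e i) hsum (by
    intro i j hij
    ext v
    rw [End.mul_apply, he2 j i _ (fun n => by rw [← End.mul_apply, he1, LinearMap.smul_apply]),
      if_neg (fun h => hij (Subtype.ext h))]
    rfl) (fun g i => he3 g i) (finrank k (LinearMap.range (e χ₀))) (by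
    rintro ⟨_, g, rfl⟩
    exact rank_eq_of_conj (A := ρ g) (B := ρ g⁻¹) (by rw [← map_mul]; simp) (by rw [← map_mul]; simp)
      (he3 g χ₀)) x 3 (by
    intro g hg hg1
    obtain ⟨ho, hg'⟩ := gen_of_mem hx hgen hg hg1
    exact fix_ratio g (ho ▸ hp.out.odd_of_ne_two (by omega)) hg')
  rw [hx] at hb
  have hpos : 0 < finrank k V := finrank_pos
  obtain ⟨p', rfl⟩ : ∃ p', p = p' + 1 := ⟨p - 1, by omega⟩
  rw [Nat.add_sub_cancel] at hb
  by_contra hcon
  push Not at hcon
  nlinarith

theorem nonabelian_case [IsAlgClosed k] [FiniteDimensional k V] [Nontrivial V] [Finite G]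
    [Group.IsSolvable G] {ρ : Representation k G V} (hirr : Irr ρ) (hf : Function.Injective ρ)
    (N : Subgroup (G ⧸ center G)) [hN : N.Normal] {q : ℕ} (hq : q.Prime) (hel : IsElementaryAbelian q N)
    (hmin : ∀ K : Subgroup (G ⧸ center G), K.Normal → K ≤ N → K = ⊥ ∨ K = N)
    (hna : ∃ a b : G, (a : G ⧸ center G) ∈ N ∧ (b : G ⧸ center G) ∈ N ∧ a * b ≠ b * a)
    (hc : (Nat.card N : k) ≠ 0)
    {p : ℕ} [hp : Fact p.Prime] (h5 : 5 ≤ p) (x : G) (hx : orderOf x = p)
    (hgen : normalClosure ({x} : Set G) = ⊤) :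
    2 * finrank k (LinearMap.ker (ρ x - 1)) < finrank k V := by
  classical
  haveI := Fintype.ofFinite N
  letI : MulAction G N := MulAction.compHom N
    ((MulAut.conjNormal (H := N)).comp (QuotientGroup.mk' (center G)))
  have hsm : ∀ (g : G) (n : N), ((g • n : N) : G ⧸ center G) = (g : G ⧸ center G) * n * (g : G ⧸ center G)⁻¹ :=
    fun _ _ => rfl
  let s : N → G := fun n => (n : G ⧸ center G).out
  have hs : ∀ n : N, (s n : G ⧸ center G) = n := fun n => QuotientGroup.out_eq' _
  have hsN : ∀ n : N, (s n : G ⧸ center G) ∈ N := fun n => by rw [hs]; exact n.2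
  let σ : Representation k G (End k V) := ρ.linHom ρ
  have hσ : ∀ g T, σ g T = ρ g * T * ρ g⁻¹ := fun g T => rfl
  have hcls : ∀ a b : G, (a : G ⧸ center G) = b → ∃ z ∈ center G, b = a * z := fun a b h =>
    ⟨a⁻¹ * b, QuotientGroup.eq.mp h, by group⟩
  have hσz : ∀ z ∈ center G, σ z = 1 := by
    intro z hz
    obtain ⟨c, hc⟩ := scalar hirr hz
    refine LinearMap.ext fun T => ?_
    rw [hσ, hc, smul_mul_assoc, one_mul, ← mul_one T, ← mul_smul_comm, ← hc, mul_assoc, ← map_mul]
    simp
  have hσc : ∀ a b : G, (a : G ⧸ center G) = b → σ a = σ b := by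
    intro a b h
    obtain ⟨z, hz, rfl⟩ := hcls a b h
    rw [map_mul, hσz z hz, mul_one]
  have hcj : ∀ a b w : G, (a : G ⧸ center G) = b → a * w * a⁻¹ = b * w * b⁻¹ := by
    intro a b w h
    obtain ⟨z, hz, rfl⟩ := hcls a b h
    rw [mul_assoc a z w, ← mem_center_iff.mp hz w]; group
  have hZ0 : ∀ w : G, (w : G ⧸ center G) ∈ N → w ∉ center G → ∑ n : N, ρ (s n * w * (s n)⁻¹) = 0 := by
    intro w hw hwZ
    obtain ⟨n₀, hn₀, hne⟩ := exists_not_comm N hmin hna hw hwZ
    have hz := comm_mem_center N hel.1 hn₀ hw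
    obtain ⟨c, hc⟩ := scalar hirr hz
    have hc1 : c ≠ 1 := by
      rintro rfl
      rw [one_smul, ← map_one ρ] at hc
      exact hne (commutatorElement_eq_one_iff_mul_comm.mp (hf hc))
    have : ∑ n : N, ρ (s n * w * (s n)⁻¹) = c • ∑ n : N, ρ (s n * w * (s n)⁻¹) := by
      rw [Finset.smul_sum]
      refine (Fintype.sum_equiv (Equiv.mulRight (⟨_, hn₀⟩ : N)) _ _ fun n => ?_).symm
      rw [hcj (s (Equiv.mulRight _ n)) (s n * n₀) w (by rw [hs, QuotientGroup.mk_mul, hs]; rfl)]
      have e : s n * n₀ * w * (s n * n₀)⁻¹ = ⁅n₀, w⁆ * (s n * w * (s n)⁻¹) := by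
        calc s n * n₀ * w * (s n * n₀)⁻¹ = (s n * ⁅n₀, w⁆) * (w * (s n)⁻¹) := by
              rw [commutatorElement_def]; group
          _ = _ := by rw [mem_center_iff.mp hz (s n)]; group
      rw [e, map_mul ρ ⁅n₀, w⁆, hc, smul_mul_assoc, one_mul]
    have h2 : (c - 1) • ∑ n : N, ρ (s n * w * (s n)⁻¹) = 0 := by rw [sub_smul, ← this, one_smul, sub_self]
    exact (smul_eq_zero.mp h2).resolve_left (sub_ne_zero.mpr hc1)
  let π : End k (End k V) := (Nat.card N : k)⁻¹ • ∑ m : N, σ (s m)
  let L : G → End k (End k V) := fun g => LinearMap.mulLeft k (ρ g)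
  have hL : ∀ g T, L g T = ρ g * T := fun _ _ => rfl
  have hLm : ∀ a b, L (a * b) = L a * L b := fun a b => LinearMap.ext fun T => by
    rw [End.mul_apply, hL, hL, hL, map_mul, mul_assoc]
  have hL1 : L 1 = 1 := LinearMap.ext fun T => by rw [hL, map_one, one_mul]; rfl
  have hσL : ∀ g a, σ g * L a = L (g * a * g⁻¹) * σ g := fun g a => LinearMap.ext fun T => by
    rw [End.mul_apply, End.mul_apply, hL, hL, hσ, hσ, map_mul, map_mul]
    have : ρ g⁻¹ * ρ g = 1 := by rw [← map_mul]; simp
    calc ρ g * (ρ a * T) * ρ g⁻¹ = ρ g * ρ a * (ρ g⁻¹ * ρ g) * T * ρ g⁻¹ := by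
          rw [this, mul_one]; simp only [mul_assoc]
      _ = _ := by simp only [mul_assoc]
  have hσπ : ∀ g, σ g * π = π * σ g := by
    intro g
    simp only [π, mul_smul_comm, smul_mul_assoc, Finset.mul_sum, Finset.sum_mul]
    congr 1
    refine Fintype.sum_equiv (MulAction.toPerm g) _ _ fun m => ?_
    rw [← map_mul, ← map_mul]
    apply hσc
    rw [QuotientGroup.mk_mul, QuotientGroup.mk_mul, hs, hs, toPerm_apply, hsm]
    simp
  have hσπ' : ∀ m : N, σ (s m) * π = π := by
    intro m
    simp only [π, mul_smul_comm, Finset.mul_sum]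
    congr 1
    refine Fintype.sum_equiv (Equiv.mulLeft m) _ _ fun n => ?_
    rw [← map_mul]
    apply hσc
    rw [QuotientGroup.mk_mul, hs, hs, hs]
    rfl
  have hLπ : ∀ z ∈ center G, L z * π = π * L z := by
    intro z hz
    obtain ⟨c, hc⟩ := scalar hirr hz
    have : L z = c • (1 : End k (End k V)) := LinearMap.ext fun T => by
      rw [hL, hc, smul_mul_assoc, one_mul]; rfl
    rw [this, smul_mul_assoc c 1 π, mul_smul_comm c π 1, one_mul, mul_one]
  let E : G → End k (End k V) := fun a => L a * π * L a⁻¹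
  have hEc : ∀ a b : G, (a : G ⧸ center G) = b → E a = E b := by
    intro a b h
    obtain ⟨z, hz, rfl⟩ := hcls a b h
    simp only [E]
    rw [hLm, mul_inv_rev, hLm, mul_assoc (L a) (L z), hLπ z hz]
    calc L a * π * L a⁻¹ = L a * π * (L z * L z⁻¹) * L a⁻¹ := by rw [← hLm, mul_inv_cancel, hL1, mul_one]
      _ = _ := by simp only [mul_assoc]
  have hπw : ∀ w : G, (w : G ⧸ center G) ∈ N → w ∉ center G → π * L w * π = 0 := by
    intro w hw hwZ
    have : π * L w * π = (Nat.card N : k)⁻¹ • ∑ m : N, L (s m * w * (s m)⁻¹) * π := by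
      conv_lhs => rw [show π * L w * π = ((Nat.card N : k)⁻¹ • ∑ m : N, σ (s m)) * L w * π from rfl]
      rw [smul_mul_assoc, smul_mul_assoc, Finset.sum_mul, Finset.sum_mul]
      congr 1
      refine Finset.sum_congr rfl fun m _ => ?_
      rw [hσL, mul_assoc, hσπ']
    rw [this]
    refine LinearMap.ext fun T => ?_
    simp only [LinearMap.smul_apply, LinearMap.sum_apply, End.mul_apply, hL]
    rw [← Finset.sum_mul, hZ0 w hw hwZ, zero_mul, smul_zero]; rfl
  have hsum : ∑ n : N, E (s n) = 1 := by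
    refine LinearMap.ext fun T => ?_
    have e1 : ∀ n : N, E (s n) T =
        (Nat.card N : k)⁻¹ • ∑ m : N, ρ (s n * s m * (s n)⁻¹) * (T * ρ (s m)⁻¹) := by
      intro n
      simp only [E, π, End.mul_apply, LinearMap.smul_apply, LinearMap.sum_apply, hL, hσ, mul_smul_comm,
        Finset.mul_sum, map_mul, mul_assoc]
    rw [LinearMap.sum_apply]
    simp only [e1]
    rw [← Finset.smul_sum, Finset.sum_comm, Finset.sum_eq_single (1 : N)]
    · have h1 : s 1 ∈ center G := by rw [← QuotientGroup.eq_one_iff, hs]; rfl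
      have : ∀ n : N, ρ (s n * s 1 * (s n)⁻¹) * (T * ρ (s 1)⁻¹) = T := by
        intro n
        rw [mem_center_iff.mp h1 (s n), mul_inv_cancel_right, ← mul_assoc, ← hσ, hσz _ h1]; rfl
      simp only [this, Finset.sum_const, Finset.card_univ]
      rw [← Nat.cast_smul_eq_nsmul k, smul_smul, ← Nat.card_eq_fintype_card, inv_mul_cancel₀ hc, one_smul]
      rfl
    · intro m _ hm
      rw [← Finset.sum_mul, hZ0 _ (hsN m) (fun h => hm (Subtype.ext (by
        rw [← hs, (QuotientGroup.eq_one_iff _).mpr h]; rfl))), zero_mul]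
    · simp
  have hb := dim_bound σ (fun n : N => E (s n)) hsum (by
    intro i j hij
    have := hπw ((s i)⁻¹ * s j) (by
      rw [QuotientGroup.mk_mul, QuotientGroup.mk_inv]; exact N.mul_mem (N.inv_mem (hsN i)) (hsN j))
      (fun h => hij (Subtype.ext (by rw [← hs, ← hs]; exact QuotientGroup.eq.mpr h)))
    calc E (s i) * E (s j) = L (s i) * (π * L ((s i)⁻¹ * s j) * π) * L (s j)⁻¹ := by
          simp only [E, hLm, mul_assoc]
      _ = 0 := by rw [this, mul_zero, zero_mul]) (by
    intro g i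
    rw [← hEc (g * s i * g⁻¹) (s (g • i)) (by
      rw [hs, hsm, QuotientGroup.mk_mul, QuotientGroup.mk_mul, hs, QuotientGroup.mk_inv])]
    simp only [E]
    calc σ g * (L (s i) * π * L (s i)⁻¹) = (σ g * L (s i)) * π * L (s i)⁻¹ := by simp only [mul_assoc]
      _ = L (g * s i * g⁻¹) * (σ g * π) * L (s i)⁻¹ := by rw [hσL]; simp only [mul_assoc]
      _ = L (g * s i * g⁻¹) * π * (σ g * L (s i)⁻¹) := by rw [hσπ]; simp only [mul_assoc]
      _ = _ := by rw [hσL]; simp only [mul_assoc, mul_inv_rev, inv_inv]) (finrank k (LinearMap.range π)) (by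
    intro i
    refine rank_eq_of_conj (A := L (s i)) (B := L (s i)⁻¹) (by rw [← hLm, mul_inv_cancel, hL1])
      (by rw [← hLm, inv_mul_cancel, hL1]) ?_
    simp only [E]
    rw [mul_assoc, ← hLm, inv_mul_cancel, hL1, mul_one]) x (if p < 7 then 16 else 8) (by
    intro g hg hg1
    obtain ⟨ho, hg'⟩ := gen_of_mem hx hgen hg hg1
    have h1 := idx_bound N hq hel hmin hna h5 g ho hg'
    have h2 : Nat.card (fixedBy N g) = Nat.card ↥(centralizer {(g : G ⧸ center G)} ⊓ N) := by
      rw [← H3.card_subgroupOf]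
      refine Nat.card_congr (Equiv.subtypeEquivRight fun n => ?_)
      rw [mem_fixedBy, Subtype.ext_iff, hsm, mem_subgroupOf, mem_centralizer_singleton_iff,
        mul_inv_eq_iff_eq_mul, eq_comm]
    rw [h2, ← H3.card_inf_mul_relIndex (centralizer {(g : G ⧸ center G)}) N, mul_comm]
    refine Nat.mul_le_mul_left _ ?_
    split_ifs <;> omega)
  have hx1 : ρ x ≠ 1 := by
    intro h
    rw [← map_one ρ] at h
    rw [hf h, orderOf_one] at hx
    omega
  have hcb := commutant_bound (ρ x) hx1 (LinearMap.ker (σ x - 1)) (fun T hT => by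
    rw [LinearMap.mem_ker, LinearMap.sub_apply, sub_eq_zero, hσ, hT, mul_assoc, ← map_mul]
    simp)
  rw [hx, Module.finrank_linearMap] at hb
  obtain ⟨p', rfl⟩ : ∃ p', p = p' + 1 := ⟨p - 1, by omega⟩
  rw [Nat.add_sub_cancel] at hb
  by_contra hcon
  push Not at hcon
  have h4 : finrank k V * finrank k V ≤ 4 * finrank k (LinearMap.ker (ρ x - 1)) ^ 2 := by nlinarith
  generalize finrank k V * finrank k V = A at *
  generalize finrank k (LinearMap.ker (ρ x - 1)) ^ 2 = B at *
  generalize finrank k (LinearMap.ker (σ x - 1)) = C at *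
  split_ifs at hb with h7
  · have : 4 ≤ p' := by omega
    nlinarith
  · have : 6 ≤ p' := by omega
    nlinarith

theorem irr_case [IsAlgClosed k] [FiniteDimensional k V] [Nontrivial V] [Finite G]
    [Group.IsSolvable G] {ρ : Representation k G V} (hirr : Irr ρ) (hf : Function.Injective ρ)
    (l : ℕ) [hl : Fact l.Prime] [CharP k l] (hO : pCore l G = ⊥)
    {p : ℕ} [hp : Fact p.Prime] (h5 : 5 ≤ p) (x : G) (hx : orderOf x = p)
    (hgen : normalClosure ({x} : Set G) = ⊤) :
    2 * finrank k (LinearMap.ker (ρ x - 1)) < finrank k V := by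
  by_cases hZ : center G = ⊤
  · have hx1 : ρ x ≠ 1 := by
      intro h
      rw [← map_one ρ] at h
      rw [hf h, orderOf_one] at hx
      omega
    have := (hirr (LinearMap.ker (ρ x - 1)) fun g v hv => by
      rw [Submodule.mem_comap, LinearMap.mem_ker, LinearMap.sub_apply, sub_eq_zero] at *
      rw [← End.mul_apply, ← map_mul, ← mem_center_iff.mp (hZ ▸ mem_top x : x ∈ center G) g, map_mul,
        End.mul_apply, hv]; rfl).resolve_right
      (fun h => hx1 (sub_eq_zero.mp (LinearMap.ker_eq_top.mp h)))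
    rw [this, finrank_bot]
    exact finrank_pos
  have htop : (⊤ : Subgroup (G ⧸ center G)) ≠ ⊥ := by
    intro h
    apply hZ
    rw [eq_top_iff]
    intro g _
    rw [← QuotientGroup.eq_one_iff, ← mem_bot, ← h]; exact mem_top _
  obtain ⟨N, q, hq, hN, hN0, -, hel, hmin⟩ := H3.exists_minimal_normal_elementary_le
    (⊤ : Subgroup (G ⧸ center G)) inferInstance htop
  by_cases hna : ∃ a b : G, (a : G ⧸ center G) ∈ N ∧ (b : G ⧸ center G) ∈ N ∧ a * b ≠ b * a
  · refine nonabelian_case hirr hf N hq hel hmin hna ?_ h5 x hx hgen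
    haveI := Fact.mk hq
    have hNq : IsPGroup q N := fun g => ⟨1, Subtype.ext (by simpa using hel.2 g g.2)⟩
    obtain ⟨j, hj⟩ := hNq.exists_card_eq
    rw [hj, Nat.cast_pow]
    refine pow_ne_zero _ fun h0 => ?_
    rw [CharP.cast_eq_zero_iff k l, Nat.prime_dvd_prime_iff_eq hl.out hq] at h0
    subst h0
    obtain ⟨a, b, ha, hb, hab⟩ := hna
    have hz := comm_mem_center N hel.1 ha hb
    have hpw : ∀ i : ℕ, ⁅a ^ i, b⁆ = ⁅a, b⁆ ^ i := by
      intro i
      induction i with
      | zero => simp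
      | succ i ih => rw [pow_succ, comm_mul_left hz, ih, pow_succ]
    have hal : a ^ l ∈ center G := by
      rw [← QuotientGroup.eq_one_iff, QuotientGroup.mk_pow]; exact hel.2 _ ha
    have h1 : ⁅a, b⁆ ^ l = 1 := by
      rw [← hpw, commutatorElement_eq_one_iff_mul_comm]; exact (mem_center_iff.mp hal b).symm
    haveI : (zpowers ⁅a, b⁆).Normal := by
      refine ⟨fun n hn g => ?_⟩
      rw [mem_center_iff.mp ((zpowers_le.mpr hz) hn) g]
      simpa using hn
    have h2 : zpowers ⁅a, b⁆ ≤ pCore l G := H3.le_pCore (by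
      rintro ⟨_, i, rfl⟩
      refine ⟨1, Subtype.ext ?_⟩
      show (⁅a, b⁆ ^ i) ^ l ^ 1 = 1
      rw [pow_one, ← zpow_natCast, ← zpow_mul, mul_comm, zpow_mul, zpow_natCast, h1, one_zpow])
    rw [hO, le_bot_iff, zpowers_eq_bot] at h2
    exact hab (commutatorElement_eq_one_iff_mul_comm.mp h2)
  · push Not at hna
    have hab : IsMulCommutative (N.comap (QuotientGroup.mk' (center G))) :=
      ⟨⟨fun a b => Subtype.ext (hna a b a.2 b.2)⟩⟩
    refine abelian_case hirr hf _ hab ?_ ?_ h5 x hx hgen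
    · intro h0
      rw [CharP.cast_eq_zero_iff k l] at h0
      obtain ⟨S⟩ : Nonempty (Sylow l (N.comap (QuotientGroup.mk' (center G)))) := inferInstance
      haveI : (S : Subgroup (N.comap (QuotientGroup.mk' (center G)))).Normal :=
        ⟨fun n hn g => by rw [hab.is_comm.comm g n]; simpa using hn⟩
      have h1 := H3.map_pCore_le_pCore (p := l) (N.comap (QuotientGroup.mk' (center G)))
      rw [hO, H3.pCore_eq_sylow_of_normal S, le_bot_iff,
        Subgroup.map_eq_bot_iff_of_injective _ (subtype_injective _)] at h1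
      exact S.ne_bot_of_dvd_card h0 h1
    · intro hle
      apply hN0
      rw [eq_bot_iff]
      intro n hn
      obtain ⟨n, rfl⟩ := QuotientGroup.mk_surjective n
      exact (QuotientGroup.eq_one_iff _).mpr (hle hn)

theorem ker_le_add [FiniteDimensional k V] (A : End k V) (U : Submodule k V) (hU : U ≤ U.comap A) :
    finrank k (LinearMap.ker (A - 1)) ≤ finrank k (LinearMap.ker (A.restrict hU - 1)) +
      finrank k (LinearMap.ker (U.mapQ U A hU - 1)) := by
  let f : LinearMap.ker (A - 1) →ₗ[k] LinearMap.ker (U.mapQ U A hU - 1) :=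
    (U.mkQ ∘ₗ (LinearMap.ker (A - 1)).subtype).codRestrict _ fun v => by
      have := v.2
      rw [LinearMap.mem_ker, LinearMap.sub_apply, sub_eq_zero] at this ⊢
      show U.mkQ (A v) = U.mkQ v
      rw [this]; rfl
  have h1 := LinearMap.finrank_range_add_finrank_ker f
  have h2 := Submodule.finrank_le (LinearMap.range f)
  let g : LinearMap.ker f →ₗ[k] LinearMap.ker (A.restrict hU - 1) :=
    { toFun := fun v => ⟨⟨v.1.1, (Submodule.Quotient.mk_eq_zero U).mp (congrArg Subtype.val v.2)⟩, by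
        have := v.1.2
        rw [LinearMap.mem_ker, LinearMap.sub_apply, sub_eq_zero] at this ⊢
        exact Subtype.ext this⟩
      map_add' := fun _ _ => rfl
      map_smul' := fun _ _ => rfl }
  have h3 := LinearMap.finrank_le_finrank_of_injective (f := g) (fun a b h =>
    Subtype.ext (Subtype.ext (congrArg (fun t => t.1.1) h)))
  omega

universe u

theorem closed_case [IsAlgClosed k] [Finite G] [Group.IsSolvable G]
    (l : ℕ) [hl : Fact l.Prime] [CharP k l] (hO : pCore l G = ⊥)
    {p : ℕ} [hp : Fact p.Prime] (h5 : 5 ≤ p) (x : G) (hx : orderOf x = p)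
    (hgen : normalClosure ({x} : Set G) = ⊤) (n : ℕ) :
    ∀ (W : Type u) [AddCommGroup W] [Module k W] [FiniteDimensional k W] [Nontrivial W]
      (ρ : Representation k G W), finrank k W = n →
      (∀ M : Subgroup G, M.Normal → M ≠ ⊥ → ¬ l ∣ Nat.card M → ∀ [Fintype M], ∑ m : M, ρ m = 0) →
      2 * finrank k (LinearMap.ker (ρ x - 1)) < finrank k W := by
  induction n using Nat.strong_induction_on with
  | _ n ih =>
  intro W _ _ _ _ ρ hn hM
  by_cases hirr : Irr ρ
  · refine irr_case hirr ?_ l hO h5 x hx hgen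
    rw [← MonoidHom.ker_eq_bot_iff]
    by_contra h0
    obtain ⟨M, r, hr, hMn, hM0, hle, hel, -⟩ := H3.exists_minimal_normal_elementary_le
      (MonoidHom.ker ρ) inferInstance h0
    haveI := Fact.mk hr
    have hMr : IsPGroup r M := fun g => ⟨1, Subtype.ext (by simpa using hel.2 g g.2)⟩
    obtain ⟨j, hj⟩ := hMr.exists_card_eq
    have hnd : ¬ l ∣ Nat.card M := by
      intro hd
      rw [hj] at hd
      have := (Nat.prime_dvd_prime_iff_eq hl.out hr).mp (hl.out.dvd_of_dvd_pow hd)
      subst this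
      exact hM0 (le_bot_iff.mp (hO ▸ H3.le_pCore hMr))
    haveI := Fintype.ofFinite M
    have h1 := hM M hMn hM0 hnd
    rw [Finset.sum_congr rfl (fun (m : M) _ => (hle m.2 : ρ m = 1)), Finset.sum_const, Finset.card_univ,
      ← Nat.cast_smul_eq_nsmul k, ← Nat.card_eq_fintype_card, smul_eq_zero,
      CharP.cast_eq_zero_iff k l] at h1
    exact h1.elim hnd one_ne_zero
  · simp only [Irr, not_forall, not_or] at hirr
    obtain ⟨U, hU, hU0, hU1⟩ := hirr
    haveI : Nontrivial U := Submodule.nontrivial_iff_ne_bot.mpr hU0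
    haveI : Nontrivial (W ⧸ U) := Submodule.Quotient.nontrivial_iff.mpr hU1
    have e := Submodule.finrank_quotient_add_finrank U
    have p1 : 0 < finrank k U := finrank_pos
    have p2 : 0 < finrank k (W ⧸ U) := finrank_pos
    have h1 := ih _ (by omega) U (ρ.subrepresentation U hU) rfl (by
      intro M h1 h2 h3 _
      ext v
      have := LinearMap.congr_fun (hM M h1 h2 h3) v
      simpa [LinearMap.sum_apply] using this)
    have h2 := ih _ (by omega) (W ⧸ U) (ρ.quotient U hU) rfl (by
      intro M h1 h2 h3 _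
      refine LinearMap.ext fun v => ?_
      obtain ⟨v, rfl⟩ := U.mkQ_surjective v
      have := congrArg U.mkQ (LinearMap.congr_fun (hM M h1 h2 h3) v)
      simpa [LinearMap.sum_apply] using this)
    have h3 := ker_le_add (ρ x) U (hU x)
    have h4 : finrank k (LinearMap.ker (ρ.subrepresentation U hU x - 1)) =
      finrank k (LinearMap.ker ((ρ x).restrict (hU x) - 1)) := rfl
    have h5 : finrank k (LinearMap.ker (ρ.quotient U hU x - 1)) =
      finrank k (LinearMap.ker (U.mapQ U (ρ x) (hU x) - 1)) := rfl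
    omega

end Cfsg.Agent.H36.FixDim
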