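import Mathlib
import Cfsg.Agent.H3.Frattini
import Cfsg.Agent.H4.CoprimeAction
import Cfsg.Agent.H8.SylowIn
import Cfsg.Agent.H36.AltAm

/-! Fixed points of a coprime automorphism of odd prime order: basic set-up. -/

set_option autoImplicit false
set_option linter.unusedSectionVars false
set_option linter.unusedVariables false
set_option linter.style.haveILetI false

namespace Cfsg.Agent.H36.Flav

open Cfsg Subgroup
open scoped Pointwise commutatorElement

universe u

variable {Γ : Type*} [Group Γ]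

/-- `[h, P]`. -/
def L (P : Subgroup Γ) (h : Γ) : Subgroup Γ := closure {c | ∃ y ∈ P, c = ⁅h, y⁆}

/-- The subgroup generated by the fixed points in the `[h, P]`. -/
def D (P G : Subgroup Γ) : Subgroup Γ := ⨆ h ∈ G, L P h ⊓ centralizer (P : Set Γ)

structure Hyp (p : ℕ) (P G : Subgroup Γ) : Prop where
  card : Nat.card P ∣ p
  norm : P ≤ normalizer (G : Set Γ)
  cop : (Nat.card G).Coprime p
  sol : Group.IsSolvable G

variable {p : ℕ} {P G : Subgroup Γ}

theorem Hyp.cop' (H : Hyp p P G) : (Nat.card P).Coprime (Nat.card G) :=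
  (H.cop.coprime_dvd_right H.card).symm

theorem Hyp.sub (H : Hyp p P G) {K : Subgroup Γ} (h : K ≤ G) (hn : P ≤ normalizer (K : Set Γ)) :
    Hyp p P K :=
  ⟨H.card, hn, H.cop.coprime_dvd_left (card_dvd_of_le h), H4.isSolvable_of_le h H.sol⟩

theorem Hyp.map (H : Hyp p P G) {Γ' : Type*} [Group Γ'] (f : Γ →* Γ') :
    Hyp p (P.map f) (G.map f) :=
  ⟨(card_map_dvd P f).trans H.card, (map_mono H.norm).trans (le_normalizer_map f),
    H.cop.coprime_dvd_left (card_map_dvd G f), by
      haveI := H.sol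
      exact solvable_of_surjective (f := f.subgroupMap G) (MonoidHom.subgroupMap_surjective f G)⟩

theorem mem_L {h y : Γ} (hy : y ∈ P) : ⁅h, y⁆ ∈ L P h := subset_closure ⟨y, hy, rfl⟩

theorem L_le {h : Γ} {K : Subgroup Γ} : L P h ≤ K ↔ ∀ y ∈ P, ⁅h, y⁆ ∈ K := by
  refine ⟨fun H y hy => H (mem_L hy), fun H => (closure_le _).mpr ?_⟩
  rintro _ ⟨y, hy, rfl⟩; exact H y hy

theorem L_le_comm {h : Γ} (hh : h ∈ G) : L P h ≤ ⁅G, P⁆ :=
  L_le.mpr fun _ hy => commutator_mem_commutator hh hy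

theorem Hyp.L_le (H : Hyp p P G) {h : Γ} (hh : h ∈ G) : L P h ≤ G :=
  (L_le_comm hh).trans (H4.commutator_le_left_of_le_normalizer H.norm)

theorem map_L {Γ' : Type*} [Group Γ'] (f : Γ →* Γ') (h : Γ) : (L P h).map f = L (P.map f) (f h) := by
  apply le_antisymm
  · rw [map_le_iff_le_comap, L_le]
    intro y hy
    rw [mem_comap, map_commutatorElement]
    exact mem_L ⟨y, hy, rfl⟩
  · rw [L_le]
    rintro _ ⟨y, hy, rfl⟩
    exact ⟨_, mem_L hy, map_commutatorElement f h y⟩

theorem norm_L [Finite Γ] (h : Γ) : P ≤ normalizer (L P h : Set Γ) := by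
  intro z hz
  refine H8.mem_normalizer_of_conj_smul_le ?_
  rw [← H8.map_conj_eq_smul, map_le_iff_le_comap, L_le]
  intro y hy
  have := mul_mem (inv_mem (mem_L (h := h) hz)) (mem_L (h := h) (P.mul_mem hz hy))
  rw [mem_comap]
  convert this using 1
  simp only [MulEquiv.toMonoidHom_eq_coe, MonoidHom.coe_coe, MulAut.conj_apply, commutatorElement_def]
  group

theorem L_sup (h : Γ) : L P h ⊔ P = P ⊔ MulAut.conj h • P := by
  apply le_antisymm
  · refine sup_le (L_le.mpr fun y hy => ?_) le_sup_left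
    exact mul_mem (mem_sup_right (H8.conj_mem_conj_smul.mpr hy)) (mem_sup_left (P.inv_mem hy))
  · refine sup_le le_sup_right fun z hz => ?_
    have hy := H8.mem_conj_smul.mp hz
    have := mul_mem (mem_sup_left (mem_L (h := h) hy)) (mem_sup_right (S := L P h) hy)
    convert this using 1
    simp only [commutatorElement_def]; group

theorem Hyp.comm_L [Finite Γ] (H : Hyp p P G) {h : Γ} (hh : h ∈ G) : ⁅L P h, P⁆ = L P h := by
  have H' := H.sub (H.L_le hh) (norm_L h)
  refine le_antisymm (H4.commutator_le_left_of_le_normalizer H'.norm) (Flav.L_le.mpr fun y hy => ?_)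
  obtain ⟨n, hn, hc⟩ := H4.exists_centralizer_of_fixed_mod H'.norm H'.cop' (Or.inr H'.sol) (k := h)
    (fun a ha => by rw [← commutatorElement_inv]; exact inv_mem (mem_L ha))
  have : ⁅h, y⁆ = ⁅n⁻¹, y⁆ := by
    rw [← H4.commutatorElement_mul_of_mem_centralizer (x := n⁻¹) hc hy, inv_mul_cancel_left]
  rw [this]
  exact commutator_mem_commutator (inv_mem hn) hy

theorem le_D {h : Γ} (hh : h ∈ G) : L P h ⊓ centralizer (P : Set Γ) ≤ D P G :=
  le_iSup₂_of_le (f := fun h (_ : h ∈ G) => L P h ⊓ centralizer (P : Set Γ)) h hh le_rfl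

theorem D_le {K : Subgroup Γ} : D P G ≤ K ↔ ∀ h ∈ G, L P h ⊓ centralizer (P : Set Γ) ≤ K :=
  iSup₂_le_iff

theorem D_mono {K : Subgroup Γ} (h : K ≤ G) : D P K ≤ D P G := D_le.mpr fun _ hh => le_D (h hh)

theorem D_le_cent : D P G ≤ centralizer (P : Set Γ) := D_le.mpr fun _ _ => inf_le_right

theorem Hyp.D_le (H : Hyp p P G) : D P G ≤ G := Flav.D_le.mpr fun _ hh => inf_le_left.trans (H.L_le hh)

theorem Hyp.fix_map [Finite Γ] (H : Hyp p P G) {Γ' : Type*} [Group Γ'] (f : Γ →* Γ') :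
    G.map f ⊓ centralizer (P.map f : Set Γ') = (G ⊓ centralizer (P : Set Γ)).map f := by
  apply le_antisymm
  · rintro _ ⟨⟨g, hg, rfl⟩, hc⟩
    have H' := H.sub (K := G ⊓ f.ker) inf_le_left (H4.le_normalizer_inf H.norm le_normalizer_of_normal)
    obtain ⟨n, hn, hc'⟩ := H4.exists_centralizer_of_fixed_mod H'.norm H'.cop' (Or.inr H'.sol) (k := g)
      (fun a ha => ⟨G.mul_mem (H4.conj_mem_of_mem_normalizer (H.norm ha) hg) (G.inv_mem hg), by
        change ⁅a, g⁆ ∈ f.ker
        rw [MonoidHom.mem_ker, map_commutatorElement, commutatorElement_eq_one_iff_mul_comm]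
        exact hc _ ⟨a, ha, rfl⟩⟩)
    exact ⟨n * g, ⟨G.mul_mem hn.1 hg, hc'⟩, by rw [map_mul, hn.2, one_mul]⟩
  · rintro _ ⟨g, ⟨hg, hc⟩, rfl⟩
    refine ⟨⟨g, hg, rfl⟩, ?_⟩
    rintro _ ⟨y, hy, rfl⟩
    rw [← map_mul, ← map_mul, hc y hy]

theorem Hyp.map_D [Finite Γ] (H : Hyp p P G) {Γ' : Type*} [Group Γ'] (f : Γ →* Γ') :
    (D P G).map f = D (P.map f) (G.map f) := by
  apply le_antisymm
  · rw [map_le_iff_le_comap, Flav.D_le]
    intro h hh
    rw [← map_le_iff_le_comap, ← (H.sub (H.L_le hh) (norm_L h)).fix_map f, map_L]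
    exact le_D ⟨h, hh, rfl⟩
  · rw [Flav.D_le]
    rintro _ ⟨h, hh, rfl⟩
    rw [← map_L, (H.sub (H.L_le hh) (norm_L h)).fix_map f]
    exact map_mono (le_D hh)

theorem Hyp.norm_D [Finite Γ] (H : Hyp p P G) :
    G ⊓ centralizer (P : Set Γ) ≤ normalizer (D P G : Set Γ) := by
  intro c hc
  rw [H8.mem_normalizer_iff_conj_smul_eq, ← H8.map_conj_eq_smul, H.map_D, H8.map_conj_eq_smul,
    H8.map_conj_eq_smul, H8.conj_smul_eq_of_mem_centralizer hc.2,
    H8.mem_normalizer_iff_conj_smul_eq.mp (le_normalizer hc.1)]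

theorem norm_comm_right (G P : Subgroup Γ) : P ≤ normalizer ((⁅G, P⁆ : Subgroup Γ) : Set Γ) :=
  normalizer_commutator_ge_right _ _

/-- The statement to be proved. -/
def T (P G : Subgroup Γ) : Prop := ⁅G, P⁆ ⊓ centralizer (P : Set Γ) ≤ D P G

theorem Hyp.T_map_iff [Finite Γ] (H : Hyp p P G) {Γ' : Type*} [Group Γ'] (f : Γ →* Γ') :
    T (P.map f) (G.map f) ↔ (⁅G, P⁆ ⊓ centralizer (P : Set Γ)).map f ≤ (D P G).map f := by
  rw [T, ← map_commutator, (H.sub (H4.commutator_le_left_of_le_normalizer H.norm)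
    (norm_comm_right G P)).fix_map f, H.map_D]

/-- Two conjugates of `P` generating a complement. -/
theorem core {G : Type*} [Group G] [Finite G] (P : Subgroup G) (W : Subgroup G)
    [hWn : W.Normal] [IsMulCommutative W]
    (hmin : ∀ K : Subgroup G, K.Normal → K ≤ W → K = ⊥ ∨ K = W) (A R : Subgroup G) (a : G)
    (hA : A = P ⊔ MulAut.conj a • P) (hAW : A ⊔ W = ⊤) (hRA : R ≤ A) (hAR : A ≤ normalizer (R : Set G))
    (hcop : (Nat.card R).Coprime (Nat.card W)) (hC : W ⊓ centralizer (R : Set G) = ⊥)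
    (hlt : Nat.card ↥(W ⊓ centralizer (P : Set G)) ^ 2 < Nat.card W) :
    ∃ v ∈ W, P ⊔ MulAut.conj (v * a) • P = ⊤ := by
  by_contra hcon
  push Not at hcon
  have hNR : W ⊓ normalizer (R : Set G) = ⊥ := by
    rw [eq_bot_iff, ← hC]
    refine le_inf inf_le_left (H36.AltQ.cent_of_inf_bot inf_le_right
      (H4.le_normalizer_inf le_normalizer_of_normal
        (le_normalizer.trans le_normalizer)) ?_)
    rw [eq_bot_iff, ← inf_eq_bot_of_coprime hcop]
    exact le_inf inf_le_right (inf_le_left.trans inf_le_left)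
  have hPA : P ≤ A := hA ▸ le_sup_left
  have hPaA : MulAut.conj a • P ≤ A := hA ▸ le_sup_right
  have hcomm : ∀ w ∈ W, ∀ y ∈ A, w * y * w⁻¹ ∈ normalizer (R : Set G) → y * w = w * y := by
    intro w hw y hy h
    have : w * y * w⁻¹ * y⁻¹ ∈ W ⊓ normalizer (R : Set G) := by
      refine ⟨?_, (normalizer (R : Set G)).mul_mem h ((normalizer (R : Set G)).inv_mem (hAR hy))⟩
      have := W.mul_mem hw (hWn.conj_mem _ (W.inv_mem hw) y)
      simpa [mul_assoc] using this
    rw [hNR, mem_bot] at this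
    calc y * w = (w * y * w⁻¹ * y⁻¹) * (y * w) := by rw [this, one_mul]
      _ = w * y := by group
  have hle : W ≤ (W ⊓ centralizer (P : Set G)) ⊔ (W ⊓ centralizer ((MulAut.conj a • P : Subgroup G) : Set G)) := by
    intro v hv
    set B := P ⊔ MulAut.conj (v * a) • P with hB
    have hBW : B ⊔ W = ⊤ := by
      rw [eq_top_iff, ← hAW, hA]
      refine sup_le (sup_le (le_sup_left.trans le_sup_left) ?_) le_sup_right
      intro y hy
      have h1 : v * y * v⁻¹ ∈ B := mem_sup_right (by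
        rw [← H8.conj_smul_conj_smul]; exact H8.conj_mem_conj_smul.mpr hy)
      have := (B ⊔ W).mul_mem ((B ⊔ W).mul_mem (mem_sup_right (W.inv_mem hv)) (mem_sup_left h1))
        (mem_sup_right hv)
      simpa [mul_assoc] using this
    have hBn : (B ⊓ W).Normal := by
      rw [← normalizer_eq_top_iff, eq_top_iff, ← hBW]
      refine sup_le (H4.le_normalizer_inf le_normalizer le_normalizer_of_normal) ?_
      exact ((le_centralizer W).trans (centralizer_le inf_le_right)).trans (centralizer_le_normalizer _)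
    have hB0 : B ⊓ W = ⊥ := by
      refine (hmin _ hBn inf_le_right).resolve_right fun h => hcon v hv ?_
      rw [← hBW, sup_of_le_left (inf_eq_right.mp h)]
    have hRWn : (W ⊔ R).Normal := by
      rw [← normalizer_eq_top_iff, eq_top_iff, ← hAW]
      exact sup_le (H4.le_normalizer_sup le_normalizer_of_normal hAR) (le_sup_left.trans le_normalizer)
    have hT : Nat.card ↥(B ⊓ (W ⊔ R)) = Nat.card R := by
      have e1 := H3.card_sup_mul_card_inf (B ⊓ (W ⊔ R)) W
      have e2 := H3.card_sup_mul_card_inf R W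
      have a1 : B ⊓ (W ⊔ R) ⊓ W = ⊥ := by
        rw [eq_bot_iff, ← hB0]; exact inf_le_inf_right _ inf_le_left
      have a2 : B ⊓ (W ⊔ R) ⊔ W = R ⊔ W := by
        apply le_antisymm (sup_le (inf_le_right.trans (sup_comm W R).le) le_sup_right)
        intro y hy
        have : y ∈ B ⊔ W := hBW ▸ mem_top y
        obtain ⟨b, hb, w, hw, rfl⟩ := mem_sup_of_normal_right.mp this
        refine mul_mem (mem_sup_left ⟨hb, ?_⟩) (mem_sup_right hw)
        have := (W ⊔ R).mul_mem ((sup_comm R W).le hy) (mem_sup_left (W.inv_mem hw))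
        simpa using this
      rw [a1, a2] at e1
      rw [inf_eq_bot_of_coprime hcop, e1] at e2
      exact Nat.eq_of_mul_eq_mul_right Nat.card_pos e2
    obtain ⟨k, hk, hkR⟩ := H4.exists_conj_eq_of_le_sup (A := R) (K := W) le_normalizer_of_normal hcop
      (Or.inr (H4.isSolvable_of_isMulCommutative W)) inf_le_right hT
    have hBk : ∀ y ∈ B, k⁻¹ * y * k⁻¹⁻¹ ∈ normalizer (R : Set G) := by
      intro y hy
      have : y ∈ normalizer ((B ⊓ (W ⊔ R) : Subgroup G) : Set G) :=
        H4.le_normalizer_inf le_normalizer le_normalizer_of_normal hy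
      rw [← hkR, H8.normalizer_conj_smul, H8.mem_conj_smul] at this
      rwa [inv_inv]
    have h1 : k⁻¹ ∈ W ⊓ centralizer (P : Set G) :=
      ⟨W.inv_mem hk, fun y hy => hcomm _ (W.inv_mem hk) y (hPA hy) (hBk y (mem_sup_left hy))⟩
    have h2 : k⁻¹ * v ∈ W ⊓ centralizer ((MulAut.conj a • P : Subgroup G) : Set G) := by
      refine ⟨W.mul_mem (W.inv_mem hk) hv, fun y hy => hcomm _ (W.mul_mem (W.inv_mem hk) hv) y (hPaA hy) ?_⟩
      have := hBk (v * y * v⁻¹) (mem_sup_right (by
        rw [← H8.conj_smul_conj_smul]; exact H8.conj_mem_conj_smul.mpr hy))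
      simpa [mul_assoc] using this
    have := mul_mem (mem_sup_left (inv_mem h1)) (mem_sup_right h2)
    simpa using this
  have e1 : Nat.card ↥(W ⊓ centralizer ((MulAut.conj a • P : Subgroup G) : Set G)) =
      Nat.card ↥(W ⊓ centralizer (P : Set G)) := by
    rw [H8.centralizer_conj_smul, ← H8.card_conj_smul (W ⊓ centralizer (P : Set G)) a, smul_inf,
      Normal.conj_smul_eq_self a W]
  have e2 := Nat.le_of_dvd (Nat.mul_pos Nat.card_pos Nat.card_pos) (H3.card_sup_dvd_of_le_normalizer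
    (H := W ⊓ centralizer (P : Set G)) (N := W ⊓ centralizer ((MulAut.conj a • P : Subgroup G) : Set G))
    ((inf_le_left.trans ((le_centralizer W).trans (centralizer_le inf_le_left))).trans
      (centralizer_le_normalizer _)))
  have e3 := card_le_of_le hle
  rw [e1, ← sq] at e2
  omega

end Cfsg.Agent.H36.Flav
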