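import Mathlib
import Cfsg.Agent.H36.Flav
import Cfsg.Agent.H3.Fitting
import Cfsg.Agent.H69.FixLift

/-! Fixed points of a coprime automorphism of odd prime order: a non-central chief factor. -/

set_option autoImplicit false
set_option linter.unusedSectionVars false
set_option linter.unusedVariables false
set_option linter.style.haveILetI false

namespace Cfsg.Agent.H36.Flav

open Cfsg Subgroup
open scoped Pointwise commutatorElement

variable {Γ : Type*} [Group Γ] [Finite Γ] {p : ℕ} {P G : Subgroup Γ}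

/-- A minimal counterexample. -/
structure Ctx (p : ℕ) (P G : Subgroup Γ) : Prop extends Hyp p P G where
  prime : p.Prime
  odd : p ≠ 2
  normal : G.Normal
  top : G ⊔ P = ⊤
  comm : ⁅G, P⁆ = G
  proper : ∀ K : Subgroup Γ, K < G → P ≤ normalizer (K : Set Γ) → ⁅K, P⁆ ⊓ centralizer (P : Set Γ) ≤ D P G
  quo : ∀ N : Subgroup Γ, N.Normal → N ≤ G → N ≠ ⊥ → ∀ c ∈ G ⊓ centralizer (P : Set Γ),
    ∃ d ∈ D P G, ∃ n ∈ N ⊓ centralizer (P : Set Γ), d * n = c
  ne : ¬ G ⊓ centralizer (P : Set Γ) ≤ D P G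

theorem Ctx.F1 (X : Ctx p P G) {N : Subgroup Γ} (hN : N.Normal) (hNG : N ≤ G)
    (h : N ⊓ centralizer (P : Set Γ) ≤ D P G) : N = ⊥ := by
  by_contra h0
  refine X.ne fun c hc => ?_
  obtain ⟨d, hd, n, hn, rfl⟩ := X.quo N hN hNG h0 c hc
  exact mul_mem hd (h hn)

theorem Ctx.F2 (X : Ctx p P G) {h : Γ} (hh : h ∈ G) : L P h < G :=
  lt_of_le_of_ne (X.L_le hh) fun e => X.ne (by
    have := le_D (P := P) hh
    rwa [e] at this)

theorem Ctx.normal_of (X : Ctx p P G) {N : Subgroup Γ} (h1 : G ≤ normalizer (N : Set Γ))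
    (h2 : P ≤ normalizer (N : Set Γ)) : N.Normal := by
  rw [← normalizer_eq_top_iff, eq_top_iff, ← X.top]; exact sup_le h1 h2

theorem Ctx.card_eq (X : Ctx p P G) : Nat.card P = p := by
  refine ((Nat.dvd_prime X.prime).mp X.card).resolve_left fun h => X.ne ?_
  rw [card_eq_one] at h
  rw [← X.comm, h, commutator_bot_right, bot_inf_eq]; exact bot_le

theorem Ctx.zpowers_eq (X : Ctx p P G) {x : Γ} (hx : x ∈ P) (h1 : x ≠ 1) : zpowers x = P := by
  have hle : zpowers x ≤ P := (zpowers_le).mpr hx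
  refine eq_of_le_of_card_ge hle ?_
  have := (Nat.dvd_prime X.prime).mp (X.card_eq ▸ card_dvd_of_le hle)
  rcases this with h | h
  · exact absurd (zpowers_eq_bot.mp (card_eq_one.mp h)) h1
  · rw [h, X.card_eq]

/-- The elements acting trivially on `V / U`. -/
def stab (V U : Subgroup Γ) [hV : V.Normal] (hUV : U ≤ V) : Subgroup Γ where
  carrier := {g | ∀ v ∈ V, ⁅v, g⁆ ∈ U}
  one_mem' := fun v _ => by simp
  mul_mem' := by
    intro g h hg hh v hv
    have h1 := hh v hv
    have := U.mul_mem (hg v hv) (U.mul_mem (U.inv_mem (hg _ (hUV h1))) h1)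
    convert this using 1
    simp only [commutatorElement_def]; group
  inv_mem' := by
    intro g hg v hv
    have := U.inv_mem (hg _ (hV.conj_mem' v hv g))
    convert this using 1
    simp only [commutatorElement_def]; group

theorem norm_stab (V U : Subgroup Γ) [hV : V.Normal] (hUV : U ≤ V) :
    normalizer (U : Set Γ) ≤ normalizer (stab V U hUV : Set Γ) := by
  intro b hb
  refine H8.mem_normalizer_of_conj_smul_le fun g hg v hv => ?_
  have := H4.conj_mem_of_mem_normalizer hb (H8.mem_conj_smul.mp hg _ (hV.conj_mem' v hv b))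
  convert this using 1
  simp only [commutatorElement_def]; group

theorem exists_sylow_not_le (H : Hyp p P G) {X : Subgroup Γ} (h : ¬ G ≤ X) :
    ∃ r : ℕ, r.Prime ∧ ∃ S : Subgroup Γ, IsPGroup r S ∧ S ≤ G ∧ P ≤ normalizer (S : Set Γ) ∧ ¬ S ≤ X := by
  obtain ⟨r, hr, hd⟩ := Nat.exists_prime_and_dvd (n := X.relIndex G) (fun e => h (relIndex_eq_one.mp e))
  haveI : Fact r.Prime := ⟨hr⟩
  obtain ⟨S, hS⟩ := H4.exists_invariant_sylow H.norm H.cop' (Or.inr H.sol) r
  have hS' := H8.isSylowIn_map_subtype S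
  exact ⟨r, hr, _, hS'.isPGroup, hS'.le, hS, fun hle =>
    hS'.not_dvd (hd.trans (relIndex_dvd_of_le_left G hle))⟩

theorem Ctx.caseA1 (X : Ctx p P G) {V : Subgroup Γ} [hV : V.Normal] [IsMulCommutative V] (hVG : V ≤ G)
    (h0 : V ≠ ⊥) (hVc : ⁅V, G⁆ = V) :
    ∃ r : ℕ, r.Prime ∧ ∃ S : Subgroup Γ, IsPGroup r S ∧ P ≤ normalizer (S : Set Γ) ∧ V ⊔ S = G := by
  haveI := X.normal
  have HV := X.sub hVG le_normalizer_of_normal
  set U := (V ⊓ D P G) ⊔ ⁅V, P⁆ with hU
  have hUV : U ≤ V := sup_le inf_le_left (H4.commutator_le_left_of_le_normalizer HV.norm)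
  have hUC : U ⊓ centralizer (P : Set Γ) ≤ D P G := by
    rintro u ⟨hu, hc⟩
    obtain ⟨a, ha, b, hb, rfl⟩ := (H4.mem_sup_iff_of_le_normalizer' (K := ⁅V, P⁆) (A := V ⊓ D P G)
      (inf_le_left.trans (normalizer_commutator_ge_left V P))).mp (by rw [sup_comm]; exact hu)
    have : b ∈ centralizer (P : Set Γ) ⊓ ⁅V, P⁆ := ⟨by
      have := mul_mem (inv_mem (D_le_cent ha.2)) hc
      rwa [inv_mul_cancel_left] at this, hb⟩
    rw [H4.centralizer_inf_commutator_eq_bot HV.norm HV.cop', mem_bot] at this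
    rw [this, mul_one]; exact ha.2
  have star : ∀ W : Subgroup Γ, W ≤ V → P ≤ normalizer (W : Set Γ) →
      W ⊓ centralizer (P : Set Γ) ≤ D P G → W ≤ U := by
    intro W hW hn hc
    have HW := HV.sub hW hn
    rw [← H4.commutator_sup_centralizer HW.norm HW.cop' (Or.inr HW.sol)]
    exact sup_le ((commutator_mono hW le_rfl).trans le_sup_right)
      ((le_inf (inf_le_left.trans hW) hc).trans le_sup_left)
  set M := stab V U hUV with hM
  have hGM : ¬ G ≤ M := by
    intro h
    have : V ≤ U := by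
      rw [← hVc, commutator_le]
      exact fun v hv g hg => h hg v hv
    exact h0 (X.F1 hV hVG ((inf_le_inf_right _ this).trans hUC))
  have hPU : P ≤ normalizer (U : Set Γ) :=
    H4.le_normalizer_sup ((le_centralizer_iff.mp (inf_le_right.trans D_le_cent)).trans
      (centralizer_le_normalizer _)) (normalizer_commutator_ge_right V P)
  have hCU : G ⊓ centralizer (P : Set Γ) ≤ normalizer (U : Set Γ) :=
    H4.le_normalizer_sup (H4.le_normalizer_inf le_normalizer_of_normal X.norm_D)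
      (H4.le_normalizer_commutator le_normalizer_of_normal (inf_le_right.trans (centralizer_le_normalizer _)))
  have hPM : P ≤ normalizer ((G ⊓ M : Subgroup Γ) : Set Γ) :=
    H4.le_normalizer_inf X.norm (hPU.trans (norm_stab V U hUV))
  have hCM : G ⊓ centralizer (P : Set Γ) ≤ normalizer ((G ⊓ M : Subgroup Γ) : Set Γ) :=
    H4.le_normalizer_inf le_normalizer_of_normal (hCU.trans (norm_stab V U hUV))
  have hX : ¬ G ≤ (G ⊓ M) ⊔ (G ⊓ centralizer (P : Set Γ)) := by
    intro h
    apply hGM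
    have : ⁅G, P⁆ ≤ ⁅G ⊓ M, P⁆ := H4.commutator_le_of_mul_centralizer fun k hk => by
      obtain ⟨n, hn, c, hc, e⟩ := (H4.mem_sup_iff_of_le_normalizer hCM).mp (h hk)
      exact ⟨n, hn, c, hc.2, e⟩
    rw [X.comm] at this
    exact this.trans ((H4.commutator_le_left_of_le_normalizer hPM).trans inf_le_right)
  obtain ⟨r, hr, S, hS, hSG, hPS, hSX⟩ := exists_sylow_not_le X.toHyp hX
  refine ⟨r, hr, S, hS, hPS, (sup_le hVG hSG).eq_or_lt.resolve_right fun hlt => hSX ?_⟩
  have hn : P ≤ normalizer ((V ⊔ S : Subgroup Γ) : Set Γ) := H4.le_normalizer_sup HV.norm hPS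
  have HS := X.sub hSG hPS
  rw [← H4.commutator_sup_centralizer HS.norm HS.cop' (Or.inr HS.sol)]
  refine sup_le_sup (le_inf ((H4.commutator_le_left_of_le_normalizer hPS).trans hSG) ?_)
    (inf_le_inf_right _ hSG)
  intro g hg v hv
  have hg' : g ∈ ⁅V ⊔ S, P⁆ := commutator_mono le_sup_right le_rfl hg
  refine star (V ⊓ ⁅V ⊔ S, P⁆) inf_le_left (H4.le_normalizer_inf HV.norm
    (normalizer_commutator_ge_right _ _)) ((inf_le_inf_right _ inf_le_right).trans (X.proper _ hlt hn)) ⟨?_, ?_⟩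
  · have := V.mul_mem hv (hV.conj_mem _ (V.inv_mem hv) g)
    simpa [commutatorElement_def, mul_assoc] using this
  · exact (⁅V ⊔ S, P⁆).mul_mem (H4.conj_mem_of_mem_normalizer
      (normalizer_commutator_ge_left _ P (mem_sup_left hv)) hg') ((⁅V ⊔ S, P⁆).inv_mem hg')

theorem Ctx.caseA (X : Ctx p P G) {V : Subgroup Γ} [hV : V.Normal] {q : ℕ} (hq : q.Prime)
    (hel : IsElementaryAbelian q V) (hVG : V ≤ G) (h0 : V ≠ ⊥)
    (hmin : ∀ K : Subgroup Γ, K.Normal → K ≤ V → K = ⊥ ∨ K = V) : V ≤ centralizer (G : Set Γ) := by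
  classical
  haveI := X.normal
  haveI := hel.1
  haveI : Fact q.Prime := ⟨hq⟩
  have hVq : IsPGroup q V := H3.IsElementaryAbelian.isPGroup' hel
  have HV := X.sub hVG le_normalizer_of_normal
  by_contra hnc
  have hF : ¬ V ⊓ centralizer (P : Set Γ) ≤ D P G := fun h => h0 (X.F1 hV hVG h)
  have hVc : ⁅V, G⁆ = V := (hmin _ inferInstance (commutator_le_left V G)).resolve_left fun h =>
    hnc (commutator_eq_bot_iff_le_centralizer.mp h)
  obtain ⟨r, hr, S, hS, hPS, hVS⟩ := X.caseA1 hVG h0 hVc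
  haveI : Fact r.Prime := ⟨hr⟩
  have hSG : S ≤ G := hVS ▸ le_sup_right
  have hrq : r ≠ q := by
    rintro rfl
    have : IsPGroup r G := hVS ▸ IsPGroup.to_sup_of_normal_left hVq hS
    exact hnc (le_centralizer_iff.mp (H3.le_centralizer_minimal_normal_of_isNilpotent this.isNilpotent hmin))
  have hcop : (Nat.card S).Coprime (Nat.card V) := IsPGroup.coprime_card_of_ne r q hrq S V hS hVq
  have hSV : S ⊓ V = ⊥ := inf_eq_bot_of_coprime hcop
  have hSlt : S < G := lt_of_le_of_ne hSG fun e => h0 (by rw [← hSV, e, inf_of_le_right hVG])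
  have hSP : ⁅S, P⁆ = S := by
    refine le_antisymm (H4.commutator_le_left_of_le_normalizer hPS) fun s hs => ?_
    have h1 : G ≤ V ⊔ ⁅S, P⁆ := by
      rw [← X.comm, commutator_le]
      intro g hg y hy
      rw [← hVS] at hg
      obtain ⟨v, hv, t, ht, rfl⟩ := mem_sup_of_normal_left.mp hg
      have := mul_mem (mul_mem (mem_sup_left hv) (mem_sup_right (commutator_mem_commutator ht hy)))
        (mem_sup_left (hV.conj_mem _ (V.inv_mem hv) y))
      convert this using 1
      simp only [commutatorElement_def]; group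
    obtain ⟨v, hv, t, ht, rfl⟩ := mem_sup_of_normal_left.mp (h1 (hSG hs))
    have : v ∈ S ⊓ V := ⟨by
      have := S.mul_mem hs (S.inv_mem (H4.commutator_le_left_of_le_normalizer hPS ht))
      rwa [mul_inv_cancel_right] at this, hv⟩
    rw [hSV, mem_bot] at this
    rwa [this, one_mul]
  have hnorm : ∀ N : Subgroup Γ, V ≤ normalizer (N : Set Γ) → S ≤ normalizer (N : Set Γ) →
      P ≤ normalizer (N : Set Γ) → N.Normal := fun N a b c => X.normal_of (hVS ▸ sup_le a b) c
  have hfaith : S ⊓ centralizer (V : Set Γ) = ⊥ := by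
    by_contra hN
    refine hF fun c hc => ?_
    obtain ⟨d, hd, n, hn, e⟩ := X.quo _ (hnorm _ ((le_centralizer_iff.mp inf_le_right).trans
      (centralizer_le_normalizer _)) (H4.le_normalizer_inf le_normalizer le_normalizer_of_normal)
      (H4.le_normalizer_inf hPS le_normalizer_of_normal)) (inf_le_left.trans hSG) hN c ⟨hVG hc.1, hc.2⟩
    have hcn : Commute c n⁻¹ := (show Commute c n from hn.1.2 c hc.1).inv_right
    have h1 : c ^ Nat.card S ∈ D P G := by
      have := pow_mem hd (Nat.card S)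
      rwa [eq_mul_inv_of_mul_eq e, hcn.mul_pow, inv_pow, H4.pow_card_eq_one_of_mem hn.1.1, inv_one,
        mul_one] at this
    refine (zpowers_le.mpr h1) (mem_zpowers_pow_iff.mpr ?_)
    exact hcop.coprime_dvd_right (V.orderOf_dvd_natCard hc.1)
  have hS0 : S ≠ ⊥ := fun e => hnc (by
    rw [← hVS, e, sup_bot_eq]; exact le_centralizer V)
  obtain ⟨T, ⟨hTS, hT0, hST, hPT⟩, hTmin⟩ := (wellFounded_lt (α := Subgroup Γ)).has_min
    {T | T ≤ S ∧ T ≠ ⊥ ∧ S ≤ normalizer (T : Set Γ) ∧ P ≤ normalizer (T : Set Γ)}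
    ⟨S, le_rfl, hS0, le_normalizer, hPS⟩
  have hTm : ∀ K : Subgroup Γ, K ≤ T → S ≤ normalizer (K : Set Γ) → P ≤ normalizer (K : Set Γ) →
      K = ⊥ ∨ K = T := fun K h1 h2 h3 => by
    by_cases h : K = ⊥
    · exact Or.inl h
    · exact Or.inr (h1.eq_or_lt.resolve_right (hTmin K ⟨h1.trans hTS, h, h2, h3⟩))
  have hTZ : T ≤ centralizer (S : Set Γ) := by
    refine inf_eq_left.mp ((hTm _ inf_le_left (H4.le_normalizer_inf hST
      (H4.le_normalizer_centralizer le_normalizer)) (H4.le_normalizer_inf hPT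
      (H4.le_normalizer_centralizer hPS))).resolve_left ?_)
    exact H3.inf_centralizer_ne_bot_of_isNilpotent hS.isNilpotent hTS hST hT0
  have hTm' : ∀ K : Subgroup Γ, K ≤ T → P ≤ normalizer (K : Set Γ) → K = ⊥ ∨ K = T := fun K h1 h2 =>
    hTm K h1 ((le_centralizer_iff.mp (h1.trans hTZ)).trans (centralizer_le_normalizer _)) h2
  have hVT : V ⊓ centralizer (T : Set Γ) = ⊥ := by
    refine (hmin _ (hnorm _ ?_ (H4.le_normalizer_inf le_normalizer_of_normal
      (H4.le_normalizer_centralizer hST)) (H4.le_normalizer_inf le_normalizer_of_normal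
      (H4.le_normalizer_centralizer hPT))) inf_le_left).resolve_right fun h => hT0 ?_
    · exact ((le_centralizer V).trans (centralizer_le inf_le_left)).trans (centralizer_le_normalizer _)
    · rw [eq_bot_iff, ← hfaith]
      exact le_inf hTS (le_centralizer_iff.mp (inf_eq_left.mp h))
  have hcT : (Nat.card T).Coprime (Nat.card V) := H4.coprime_of_le_left hcop hTS
  have hcomm : ∀ U : Subgroup Γ, U ≤ V → T ≤ normalizer (U : Set Γ) → U ≤ ⁅U, T⁆ := by
    intro U h1 h2
    have := H4.commutator_sup_centralizer h2 (H4.coprime_of_le_right hcT h1)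
      (Or.inr (H4.isSolvable_of_le h1 HV.sol))
    have h3 : U ⊓ centralizer (T : Set Γ) = ⊥ := by
      rw [eq_bot_iff, ← hVT]; exact inf_le_inf_right _ h1
    rw [h3, sup_bot_eq] at this
    exact this.ge
  have HT := X.sub (hTS.trans hSG) hPT
  rcases hTm' (T ⊓ centralizer (P : Set Γ)) inf_le_left
    ((le_centralizer_iff.mp inf_le_right).trans (centralizer_le_normalizer _)) with hTC | hTC
  swap
  · have hTC' : T ≤ centralizer (P : Set Γ) := inf_eq_left.mp hTC
    have hTD : T ≤ D P G := (le_inf (hTS.trans hSP.ge) hTC').trans (X.proper S hSlt hPS)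
    refine hF ((hcomm _ inf_le_left (H4.le_normalizer_inf le_normalizer_of_normal
      (hTC'.trans le_normalizer))).trans ((commutator_mono le_rfl hTD).trans ?_))
    exact le_normalizer_iff_commutator_le_right.mp ((inf_le_inf_right _ hVG).trans X.norm_D)
  have hTP : ⁅T, P⁆ = T := by
    have := H4.commutator_sup_centralizer HT.norm HT.cop' (Or.inr HT.sol)
    rwa [hTC, sup_bot_eq] at this
  rcases (sup_le hVG (hTS.trans hSG)).eq_or_lt with hVT' | hlt
  swap
  · refine hF ((inf_le_inf_right _ ?_).trans (X.proper _ hlt (H4.le_normalizer_sup HV.norm hPT)))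
    refine (hcomm V le_rfl le_normalizer_of_normal).trans ((commutator_mono le_rfl
      (hTP.ge.trans (commutator_mono (le_sup_right (a := V)) le_rfl))).trans ?_)
    exact le_normalizer_iff_commutator_le_right.mp (le_sup_left.trans (normalizer_commutator_ge_left _ _))
  obtain ⟨a, ha, ha1⟩ := (bot_or_exists_ne_one T).resolve_left hT0
  have hL : L P a = T := (hTm' _ (HT.L_le ha) (norm_L a)).resolve_left fun h => ha1 (by
    have : a ∈ T ⊓ centralizer (P : Set Γ) := ⟨ha, fun y hy => by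
      have := mem_L (h := a) hy
      rw [h, mem_bot, commutatorElement_eq_one_iff_mul_comm] at this
      exact this.symm⟩
    rwa [hTC, mem_bot] at this)
  have hW := H69.Wielandt_card (M := T ⊔ P) (K := T) (R := P) (V := V)
    ⟨hPT, (inf_eq_bot_of_coprime HT.cop'.symm), rfl⟩ (fun x hx h1 => by
      rw [← hTC, ← X.zpowers_eq hx h1, zpowers_eq_closure, centralizer_closure])
    le_normalizer_of_normal (by
      rw [sup_comm]
      exact Nat.Coprime.coprime_dvd_right (H3.card_sup_dvd_of_le_normalizer (H := P) (N := T) hPT)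
        (Nat.Coprime.mul_right HV.cop'.symm hcT.symm)) HV.sol
  have h1 : V ⊓ centralizer ((T ⊔ P : Subgroup Γ) : Set Γ) = ⊥ := by
    rw [eq_bot_iff, ← hVT]; exact inf_le_inf_left _ (H3.centralizer_anti le_sup_left)
  rw [h1, hVT, card_bot, one_pow, one_mul, mul_one, X.card_eq] at hW
  have h2 : 1 < Nat.card ↥(V ⊓ centralizer (P : Set Γ)) :=
    (one_lt_card_iff_ne_bot _).mpr fun h => hF (h ▸ bot_le)
  have h3 : 2 < p := lt_of_le_of_ne X.prime.two_le X.odd.symm
  obtain ⟨v, hv, h⟩ := core P V hmin (T ⊔ P) T a (by rw [← hL, L_sup])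
    (by rw [sup_right_comm, sup_comm T V, hVT', X.top]) le_sup_left (sup_le le_normalizer hPT) hcT hVT
    (by rw [hW]; exact Nat.pow_lt_pow_right h2 h3)
  have hva : v * a ∈ G := G.mul_mem (hVG hv) (hSG (hTS ha))
  refine (X.F2 hva).not_ge fun g hg => ?_
  rw [← L_sup] at h
  obtain ⟨l, hl, y, hy, rfl⟩ := (H4.mem_sup_iff_of_le_normalizer (norm_L (v * a))).mp (h ▸ mem_top g)
  have : y ∈ P ⊓ G := ⟨hy, by
    have := G.mul_mem (G.inv_mem (X.L_le hva hl)) hg
    rwa [inv_mul_cancel_left] at this⟩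
  rw [inf_eq_bot_of_coprime X.cop', mem_bot] at this
  rwa [this, mul_one]

end Cfsg.Agent.H36.Flav
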