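import Mathlib
import Cfsg.Agent.H36.Flav2
import Cfsg.Agent.H8.Tate

/-! Fixed points of a coprime automorphism of odd prime order: the central case and the theorem. -/

set_option autoImplicit false
set_option linter.unusedSectionVars false
set_option linter.unusedVariables false
set_option linter.style.haveILetI false

namespace Cfsg.Agent.H36.Flav

open Cfsg Subgroup
open scoped Pointwise commutatorElement

universe u

variable {Γ : Type*} [Group Γ] [Finite Γ] {p : ℕ} {P G : Subgroup Γ}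

theorem Ctx.Z_le (X : Ctx p P G) : G ⊓ centralizer (G : Set Γ) ≤ center Γ := by
  haveI := X.normal
  set Z := G ⊓ centralizer (G : Set Γ) with hZ
  have HZ := X.sub (K := Z) inf_le_left le_normalizer_of_normal
  haveI : IsMulCommutative Z := le_centralizer_iff_isMulCommutative.mp
    (inf_le_right.trans (H3.centralizer_anti inf_le_left))
  have h1 : ⁅Z, P⁆ ≤ Z := H4.commutator_le_left_of_le_normalizer HZ.norm
  have h2 : ⁅Z, P⁆ = ⊥ := X.F1 (X.normal_of ((le_centralizer_iff.mp (h1.trans inf_le_right)).trans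
    (centralizer_le_normalizer _)) (normalizer_commutator_ge_right _ _)) (h1.trans inf_le_left) (by
      rw [inf_comm, H4.centralizer_inf_commutator_eq_bot HZ.norm HZ.cop']; exact bot_le)
  rw [← centralizer_univ, ← coe_top, ← X.top, H3.centralizer_sup]
  exact le_inf inf_le_right (commutator_eq_bot_iff_le_centralizer.mp h2)

theorem Ctx.Z_inf (X : Ctx p P G) (h0 : G ⊓ centralizer (G : Set Γ) ≠ ⊥) {V : Subgroup Γ}
    (hV : V ≤ G ⊓ centralizer (G : Set Γ)) (hV0 : V ≠ ⊥) : ¬ V ≤ D P G := fun h =>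
  hV0 (X.F1 (H3.normal_of_le_center (hV.trans X.Z_le)) (hV.trans inf_le_left) (inf_le_left.trans h))

theorem Ctx.Z_inf_D (X : Ctx p P G) : G ⊓ centralizer (G : Set Γ) ⊓ D P G = ⊥ :=
  X.F1 (H3.normal_of_le_center (inf_le_left.trans X.Z_le)) (inf_le_left.trans inf_le_left)
    (inf_le_left.trans inf_le_right)

theorem Ctx.Z_inf_comm (X : Ctx p P G) {K : Subgroup Γ} (hK : K < G) (hn : P ≤ normalizer (K : Set Γ))
    {z : Γ} (hz : z ∈ G ⊓ centralizer (G : Set Γ)) (h : z ∈ ⁅K, P⁆) : z = 1 := by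
  rw [← mem_bot, ← X.Z_inf_D]
  exact ⟨hz, X.proper K hK hn ⟨h, center_le_centralizer _ (X.Z_le hz)⟩⟩

theorem Ctx.C_le (X : Ctx p P G) : G ⊓ centralizer (P : Set Γ) ≤ ⁅G, G⁆ := by
  haveI := X.normal
  let φ := QuotientGroup.mk' ⁅G, G⁆
  have H := X.map φ
  haveI : IsMulCommutative (G.map φ) := by
    rw [← le_centralizer_iff_isMulCommutative, ← commutator_eq_bot_iff_le_centralizer, ← map_commutator,
      Subgroup.map_eq_bot_iff, QuotientGroup.ker_mk']
  have := H4.centralizer_inf_commutator_eq_bot H.norm H.cop'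
  rwa [← map_commutator, X.comm, inf_comm, X.fix_map, Subgroup.map_eq_bot_iff, QuotientGroup.ker_mk'] at this

theorem Ctx.isPGroup (X : Ctx p P G) {V : Subgroup Γ} {q : ℕ} [hq : Fact q.Prime] (hVq : IsPGroup q V)
    (hV : V ≤ G ⊓ centralizer (G : Set Γ)) (h0 : V ≠ ⊥) : IsPGroup q G := by
  haveI := X.normal
  have hVZ := hV.trans X.Z_le
  haveI : V.Normal := H3.normal_of_le_center hVZ
  obtain ⟨S₀, hPS⟩ := H4.exists_invariant_sylow X.norm X.cop' (Or.inr X.sol) q
  have hS := H8.isSylowIn_map_subtype S₀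
  set S := (S₀ : Subgroup G).map G.subtype with hSd
  rcases hS.le.eq_or_lt with h | hlt
  · exact h ▸ hS.isPGroup
  exfalso
  have hVS : V ≤ S := hS.le_of_le_normalizer hVq (hV.trans inf_le_left) le_normalizer_of_normal
  have hVC : V ≤ G ⊓ centralizer (P : Set Γ) :=
    le_inf (hV.trans inf_le_left) (hVZ.trans (center_le_centralizer _))
  have h1 : V ≤ ⁅S, S⁆ := by
    intro v hv
    have hvG := (hV hv).1
    have := H8.center_inf_commutator_inf_sylow_le S₀ (show (⟨v, hvG⟩ : G) ∈ _ from ⟨⟨?_, ?_⟩, ?_⟩)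
    · rw [hSd, ← map_commutator]; exact ⟨_, this, rfl⟩
    · exact mem_center_iff.mpr fun g => Subtype.ext ((hV hv).2 g g.2)
    · have h2 := X.C_le (hVC hv)
      have e : ⁅G, G⁆ = (commutator G).map G.subtype := by
        rw [commutator_def, map_commutator, ← MonoidHom.range_eq_map, range_subtype]
      rw [e] at h2
      obtain ⟨w, hw, e⟩ := h2
      exact (show w = ⟨v, hvG⟩ from Subtype.ext e) ▸ hw
    · obtain ⟨w, hw, e⟩ := hVS hv
      exact (show w = ⟨v, hvG⟩ from Subtype.ext e) ▸ hw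
  have HS := X.sub hS.le hPS
  have hn : S ≤ normalizer ((⁅S, P⁆ : Subgroup Γ) : Set Γ) := normalizer_commutator_ge_left _ _
  have h2 : ⁅S, S⁆ ≤ ⁅S, P⁆ ⊔ (S ⊓ D P G) := by
    rw [commutator_le]
    intro s hs t ht
    obtain ⟨n, hn1, c, hc, rfl⟩ := H4.exists_commutator_mul_centralizer HS.norm HS.cop' (Or.inr HS.sol) hs
    obtain ⟨m, hm1, e, he, rfl⟩ := H4.exists_commutator_mul_centralizer HS.norm HS.cop' (Or.inr HS.sol) ht
    have hce : ⁅c, e⁆ ∈ S ⊓ D P G := by
      refine ⟨S.mul_mem (S.mul_mem (S.mul_mem hc.1 he.1) (S.inv_mem hc.1)) (S.inv_mem he.1), ?_⟩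
      obtain ⟨d, hd, v, hv, rfl⟩ := X.quo V inferInstance (hV.trans inf_le_left) h0 c ⟨hS.le hc.1, hc.2⟩
      obtain ⟨d', hd', v', hv', rfl⟩ := X.quo V inferInstance (hV.trans inf_le_left) h0 e ⟨hS.le he.1, he.2⟩
      have a1 := mem_center_iff.mp (hVZ hv.1)
      have a2 := mem_center_iff.mp (hVZ hv'.1)
      have : ⁅d * v, d' * v'⁆ = ⁅d, d'⁆ := by
        calc ⁅d * v, d' * v'⁆ = d * (v * (d' * v') * v⁻¹) * d⁻¹ * v'⁻¹ * d'⁻¹ := by
              simp only [commutatorElement_def]; group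
          _ = d * d' * (v' * d⁻¹ * v'⁻¹) * d'⁻¹ := by rw [← a1]; group
          _ = ⁅d, d'⁆ := by rw [← a2]; simp only [commutatorElement_def]; group
      change _ ∈ D P G
      rw [this]
      exact mul_mem (mul_mem (mul_mem hd hd') (inv_mem hd)) (inv_mem hd')
    have b1 := H4.conj_mem_of_mem_normalizer (hn hc.1) hm1
    have b2 := H4.conj_mem_of_mem_normalizer (hn (S.mul_mem (S.mul_mem hc.1 he.1) (S.inv_mem hc.1)))
      (inv_mem hn1)
    have := mul_mem (mul_mem (mem_sup_left (mul_mem (mul_mem hn1 b1) b2)) (mem_sup_right hce))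
      (mem_sup_left (inv_mem hm1))
    convert this using 1
    simp only [commutatorElement_def]; group
  refine X.Z_inf (fun h => h0 (le_bot_iff.mp (h ▸ hV))) hV h0 fun v hv => ?_
  obtain ⟨n, hn1, d, hd, e⟩ := (H4.mem_sup_iff_of_le_normalizer (inf_le_left.trans hn)).mp (h2 (h1 hv))
  have : n ∈ D P G := X.proper S hlt hPS ⟨hn1, by
    rw [eq_mul_inv_of_mul_eq e]
    exact (centralizer (P : Set Γ)).mul_mem (hVC hv).2 (inv_mem (D_le_cent hd.2))⟩
  exact e ▸ mul_mem this hd.2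

theorem comm_mul_left {a b c : Γ} (h : ⁅b, c⁆ ∈ center Γ) : ⁅a * b, c⁆ = ⁅a, c⁆ * ⁅b, c⁆ := by
  have h1 := mem_center_iff.mp h
  calc ⁅a * b, c⁆ = a * ⁅b, c⁆ * a⁻¹ * ⁅a, c⁆ := by simp only [commutatorElement_def]; group
    _ = _ := by rw [h1 a, mul_inv_cancel_right, h1]

theorem comm_mul_right {a b c : Γ} (h : ⁅a, c⁆ ∈ center Γ) : ⁅a, b * c⁆ = ⁅a, b⁆ * ⁅a, c⁆ := by
  have h1 := mem_center_iff.mp h
  calc ⁅a, b * c⁆ = ⁅a, b⁆ * (b * ⁅a, c⁆ * b⁻¹) := by simp only [commutatorElement_def]; group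
    _ = _ := by rw [h1 b, mul_inv_cancel_right]

theorem Ctx.class_two (X : Ctx p P G) (hnil : Group.IsNilpotent G) :
    ⁅G, G⁆ ≤ G ⊓ centralizer (G : Set Γ) := by
  haveI := X.normal
  set Z := G ⊓ centralizer (G : Set Γ) with hZ
  let φ := QuotientGroup.mk' Z
  haveI : (G.map φ).Normal := X.normal.map φ (QuotientGroup.mk'_surjective Z)
  set Y := G ⊓ (centralizer (G.map φ : Set (Γ ⧸ Z))).comap φ with hY
  have hYm : ∀ y, y ∈ Y ↔ y ∈ G ∧ ∀ g ∈ G, ⁅g, y⁆ ∈ Z := by
    intro y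
    refine and_congr_right fun hy => ⟨fun h g hg => ?_, fun h => ?_⟩
    · rw [← QuotientGroup.eq_one_iff]
      change φ ⁅g, y⁆ = 1
      rw [map_commutatorElement, commutatorElement_eq_one_iff_mul_comm]
      exact h _ ⟨g, hg, rfl⟩
    · rintro _ ⟨g, hg, rfl⟩
      rw [← commutatorElement_eq_one_iff_mul_comm, ← map_commutatorElement]
      exact (QuotientGroup.eq_one_iff _).mpr (h g hg)
  by_cases hab : G ≤ centralizer (G : Set Γ)
  · rw [commutator_eq_bot_iff_le_centralizer.mpr hab]; exact bot_le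
  obtain ⟨y, -, hy1, hy2⟩ := H3.exists_central_mod (G := G) (N := center G) (C := ⊤) (fun h => hab
    fun g hg k hk => congrArg Subtype.val (mem_center_iff.mp (h (mem_top ⟨g, hg⟩)) ⟨k, hk⟩))
  have hyY : (y : Γ) ∈ Y := (hYm y).mpr ⟨y.2, fun g hg => ⟨(⁅(⟨g, hg⟩ : G), y⁆).2, fun k hk =>
    congrArg Subtype.val (mem_center_iff.mp (hy2 ⟨g, hg⟩) ⟨k, hk⟩)⟩⟩
  obtain ⟨h, hh, l, hl, hyl⟩ : ∃ h ∈ G, ∃ l ∈ L P h, ⁅l, (y : Γ)⁆ ≠ 1 := by
    by_contra hc
    push Not at hc
    apply hy1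
    have : G ≤ centralizer ({(y : Γ)} : Set Γ) := by
      refine X.comm.ge.trans ((commutator_le).mpr ?_)
      intro g hg z hz
      rw [mem_centralizer_singleton_iff, ← commutatorElement_eq_one_iff_mul_comm]
      exact hc g hg _ (mem_L hz)
    exact mem_center_iff.mpr fun g => Subtype.ext (mem_centralizer_singleton_iff.mp (this g.2))
  have hLG := X.L_le hh
  have hK : Y ⊔ L P h = G := by
    refine (sup_le inf_le_left hLG).eq_or_lt.resolve_right fun hlt => hyl ?_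
    refine X.Z_inf_comm hlt (H4.le_normalizer_sup le_normalizer_of_normal (norm_L h))
      (((hYm y).mp hyY).2 l (hLG hl)) ?_
    have hl' : l ∈ ⁅Y ⊔ L P h, P⁆ := commutator_mono le_sup_right le_rfl ((X.comm_L hh).ge hl)
    have := mul_mem hl' (H4.conj_mem_of_mem_normalizer
      (normalizer_commutator_ge_left _ P (mem_sup_left hyY)) (inv_mem hl'))
    simpa [commutatorElement_def, mul_assoc] using this
  have hLL : ⁅L P h, L P h⁆ = ⊥ := by
    by_contra h0
    have h1 : ⁅L P h, L P h⁆ ≤ L P h := H4.commutator_le_left_of_le_normalizer le_normalizer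
    refine H3.inf_centralizer_ne_bot_of_isNilpotent hnil (h1.trans hLG) ?_ h0 ?_
    · rw [← hK]
      refine sup_le (le_trans ?_ (centralizer_le_normalizer _)) (normalizer_commutator_ge_left _ _)
      rw [le_centralizer_iff, commutator_le]
      intro a ha b hb w hw
      have a1 := mem_center_iff.mp (X.Z_le (inv_mem (((hYm w).mp hw).2 a (hLG ha))))
      have a2 := mem_center_iff.mp (X.Z_le (inv_mem (((hYm w).mp hw).2 b (hLG hb))))
      rw [commutatorElement_inv] at a1 a2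
      rw [← mul_inv_eq_iff_eq_mul]
      calc w * ⁅a, b⁆ * w⁻¹ = (⁅w, a⁆ * (a * (⁅w, b⁆ * b) * a⁻¹)) * ⁅w, a⁆⁻¹ * b⁻¹ * ⁅w, b⁆⁻¹ := by
            simp only [commutatorElement_def]; group
        _ = (⁅w, b⁆ * (a * b * a⁻¹ * b⁻¹)) * ⁅w, b⁆⁻¹ := by
            rw [← a1, mul_inv_cancel_right, ← mul_assoc a, a2 a]; group
        _ = ⁅a, b⁆ := by rw [← a2, mul_inv_cancel_right]; rfl
    · rw [eq_bot_iff]
      intro z hz
      exact X.Z_inf_comm (X.F2 hh) (norm_L h) ⟨hLG (h1 hz.1), hz.2⟩ ((X.comm_L hh).ge (h1 hz.1))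
  have hLY : L P h ≤ Y := by
    refine le_inf hLG ?_
    have e : G.map φ = Y.map φ ⊔ (L P h).map φ := by rw [← Subgroup.map_sup, hK]
    rw [← map_le_iff_le_comap, e, H3.centralizer_sup]
    refine le_inf ?_ ?_
    · rw [le_centralizer_iff]
      exact (map_le_iff_le_comap.mpr inf_le_right).trans (H3.centralizer_anti (map_mono hLG))
    · rw [← commutator_eq_bot_iff_le_centralizer, ← map_commutator, hLL, Subgroup.map_bot]
  rw [sup_of_le_left hLY] at hK
  rw [commutator_le]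
  intro a ha b hb
  exact ((hYm b).mp (hK.ge hb)).2 a ha

theorem Ctx.not_class_two (X : Ctx p P G) (h2 : ⁅G, G⁆ ≤ G ⊓ centralizer (G : Set Γ)) : False := by
  haveI := X.normal
  set Z := G ⊓ centralizer (G : Set Γ) with hZ
  have hc : ∀ a ∈ G, ∀ b ∈ G, ⁅a, b⁆ ∈ center Γ := fun a ha b hb =>
    X.Z_le (h2 (commutator_mem_commutator ha hb))
  have hCZ : G ⊓ centralizer (P : Set Γ) ≤ Z := X.C_le.trans h2
  let φ := QuotientGroup.mk' Z
  have hP0 : P ≠ ⊥ := fun h => X.prime.one_lt.ne' (by rw [← X.card_eq, h, card_bot])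
  obtain ⟨x, hx, hx1⟩ := (bot_or_exists_ne_one P).resolve_left hP0
  have hfix : G.map φ ⊓ centralizer (P.map φ : Set (Γ ⧸ Z)) = ⊥ := by
    rw [X.fix_map, Subgroup.map_eq_bot_iff, QuotientGroup.ker_mk']; exact hCZ
  haveI : (G.map φ).Normal := X.normal.map φ (QuotientGroup.mk'_surjective Z)
  have hsurj : Function.Surjective (fun g : G.map φ =>
      (⟨⁅(g : Γ ⧸ Z), φ x⁆, commutator_le_left _ ⊤ (commutator_mem_commutator g.2 (mem_top _))⟩ :
        G.map φ)) := by
    rw [← Finite.injective_iff_surjective]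
    intro a b hab
    have e : ⁅(a : Γ ⧸ Z), φ x⁆ = ⁅(b : Γ ⧸ Z), φ x⁆ := congrArg Subtype.val hab
    have : ((b⁻¹ * a : G.map φ) : Γ ⧸ Z) ∈ G.map φ ⊓ centralizer (P.map φ : Set (Γ ⧸ Z)) := by
      refine ⟨(b⁻¹ * a).2, ?_⟩
      rw [← X.zpowers_eq hx hx1, MonoidHom.map_zpowers, zpowers_eq_closure, centralizer_closure]
      refine mem_centralizer_singleton_iff.mpr ?_
      simp only [commutatorElement_def, mul_left_inj] at e
      simp only [coe_mul, coe_inv]
      calc (b : Γ ⧸ Z)⁻¹ * a * φ x = (b : Γ ⧸ Z)⁻¹ * (a * φ x * (a : Γ ⧸ Z)⁻¹) * a := by group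
        _ = _ := by rw [e]; group
    rw [hfix, mem_bot] at this
    exact (inv_mul_eq_one.mp (Subtype.ext this)).symm
  have key : ∀ u ∈ G, ⁅u, x * u * x⁻¹⁆ = 1 := by
    intro u hu
    obtain ⟨⟨_, h, hh, rfl⟩, e⟩ := hsurj ⟨φ u, u, hu, rfl⟩
    have e' : φ ⁅h, x⁆ = φ u := by rw [map_commutatorElement]; exact congrArg Subtype.val e
    have hz := mem_center_iff.mp (X.Z_le (QuotientGroup.eq.mp e'))
    set δ := ⁅h, x⁆ with hδ
    have hδL : δ ∈ L P h := mem_L hx
    have hδ2 : x * δ * x⁻¹ ∈ L P h := H4.conj_mem_of_mem_normalizer (norm_L h hx) hδL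
    have h1 : ⁅δ, x * δ * x⁻¹⁆ = 1 := X.Z_inf_comm (X.F2 hh) (norm_L h)
      (h2 (commutator_mem_commutator (X.L_le hh hδL) (X.L_le hh hδ2)))
      ((X.comm_L hh).ge (mul_mem (mul_mem (mul_mem hδL hδ2) (inv_mem hδL)) (inv_mem hδ2)))
    obtain ⟨z, rfl⟩ : ∃ z, u = δ * z := ⟨δ⁻¹ * u, by group⟩
    rw [inv_mul_cancel_left] at hz
    rw [commutatorElement_eq_one_iff_mul_comm] at h1 ⊢
    calc δ * z * (x * (δ * z) * x⁻¹) = δ * (z * (x * δ * (z * x⁻¹))) := by group
      _ = δ * (x * δ * x⁻¹) * z * z := by rw [← hz x⁻¹, ← hz]; group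
      _ = x * δ * (x⁻¹ * δ * z) * z := by rw [h1]; group
      _ = _ := by rw [hz (x⁻¹ * δ)]; group
  have hcj : ∀ u ∈ G, x * u * x⁻¹ ∈ G := fun u hu => X.normal.conj_mem u hu x
  have hsq : ∀ a ∈ G, ⁅a, x * x⁆ ∈ Z := by
    intro a₀ ha₀
    refine ⟨commutator_le_left G ⊤ (commutator_mem_commutator ha₀ (mem_top _)), fun b' hb' => ?_⟩
    obtain ⟨a, rfl⟩ : ∃ a, a₀ = a⁻¹ := ⟨a₀⁻¹, (inv_inv _).symm⟩
    have ha : a ∈ G := inv_mem_iff.mp ha₀
    obtain ⟨b, hb, rfl⟩ : ∃ b ∈ G, b' = x * b * x⁻¹ := ⟨x⁻¹ * b' * x, X.normal.conj_mem' _ hb' x, by group⟩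
    have k1 := key (a * b) (G.mul_mem ha hb)
    rw [show x * (a * b) * x⁻¹ = (x * a * x⁻¹) * (x * b * x⁻¹) by group,
      comm_mul_left (hc _ hb _ (G.mul_mem (hcj a ha) hb')), comm_mul_right (hc _ ha _ hb'),
      comm_mul_right (hc _ hb _ hb'), key a ha, key b hb, one_mul, mul_one] at k1
    have k2 : ⁅a, x * b * x⁻¹⁆ = ⁅x * (x * a * x⁻¹) * x⁻¹, x * b * x⁻¹⁆ := by
      rw [eq_inv_of_mul_eq_one_left k1, commutatorElement_inv]
      have := mem_center_iff.mp (hc _ (hcj a ha) _ hb) x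
      calc _ = x * ⁅x * a * x⁻¹, b⁆ * x⁻¹ := by rw [this, mul_inv_cancel_right]
        _ = _ := by simp only [commutatorElement_def]; group
    have k3 := comm_mul_left (a := a⁻¹) (hc _ (hcj _ (hcj a ha)) _ hb')
    rw [← k2, ← comm_mul_left (hc _ ha _ hb'), inv_mul_cancel, commutatorElement_one_left,
      commutatorElement_eq_one_iff_mul_comm] at k3
    rw [show ⁅a⁻¹, x * x⁆ = a⁻¹ * (x * (x * a * x⁻¹) * x⁻¹) by simp only [commutatorElement_def]; group]
    exact k3.symm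
  have hxx : x * x ≠ 1 := fun h => by
    have h1 : orderOf x = p := by rw [← Nat.card_zpowers, X.zpowers_eq hx hx1, X.card_eq]
    have : p ∣ 2 := h1 ▸ orderOf_dvd_of_pow_eq_one (by rw [sq, h])
    exact X.odd ((Nat.prime_dvd_prime_iff_eq X.prime Nat.prime_two).mp this)
  have h3 : G.map φ ≤ centralizer (P.map φ : Set (Γ ⧸ Z)) := by
    rw [← X.zpowers_eq (P.mul_mem hx hx) hxx, MonoidHom.map_zpowers, zpowers_eq_closure, centralizer_closure]
    rintro _ ⟨a, ha, rfl⟩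
    rw [mem_centralizer_singleton_iff, ← commutatorElement_eq_one_iff_mul_comm, ← map_commutatorElement]
    exact (QuotientGroup.eq_one_iff _).mpr (hsq a ha)
  rw [inf_of_le_left h3, Subgroup.map_eq_bot_iff, QuotientGroup.ker_mk'] at hfix
  apply X.ne
  refine X.C_le.trans ?_
  rw [commutator_eq_bot_iff_le_centralizer.mpr (hfix.trans inf_le_right)]
  exact bot_le

theorem Ctx.false (X : Ctx p P G) : False := by
  haveI := X.normal
  obtain ⟨V, q, hq, hV, h0, hVG, hel, hmin⟩ := H3.exists_minimal_normal_elementary_le G X.sol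
    (fun h => X.ne (by rw [h, bot_inf_eq]; exact bot_le))
  haveI : Fact q.Prime := ⟨hq⟩
  have := X.isPGroup (H3.IsElementaryAbelian.isPGroup' hel) (le_inf hVG (X.caseA hq hel hVG h0 hmin)) h0
  exact X.not_class_two (X.class_two this.isNilpotent)

theorem main {p : ℕ} (hp : p.Prime) (h2 : p ≠ 2) (n : ℕ) : ∀ (Γ : Type u) [Group Γ] [Finite Γ]
    (P G : Subgroup Γ), Nat.card G = n → Hyp p P G → T P G := by
  induction n using Nat.strong_induction_on with
  | _ n ih =>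
  have step : ∀ (Γ : Type u) [Group Γ] [Finite Γ] (P G : Subgroup Γ), Nat.card G = n → Hyp p P G →
      G.Normal → G ⊔ P = ⊤ → T P G := by
    intro Γ _ _ P G hn H hN htop
    have hsub : ∀ K : Subgroup Γ, K < G → P ≤ normalizer (K : Set Γ) →
        ⁅K, P⁆ ⊓ centralizer (P : Set Γ) ≤ D P G := fun K hK hPK =>
      (ih _ (hn ▸ lt_of_le_of_ne (card_le_of_le hK.le) fun e => hK.ne (eq_of_le_of_card_ge hK.le e.ge)) Γ P K rfl (H.sub hK.le hPK)).trans (D_mono hK.le)
    rcases (H4.commutator_le_left_of_le_normalizer H.norm).eq_or_lt with hc | hlt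
    · by_contra hne
      refine Ctx.false (p := p) (P := P) (G := G) ⟨H, hp, h2, hN, htop, hc, hsub, ?_, by
        rwa [T, hc] at hne⟩
      intro N hN' hNG h0 c hcm
      have h1 : Nat.card (G.map (QuotientGroup.mk' N)) < n := by
        rw [H3.card_map_mk', ← hn, ← H3.card_mul_relIndex hNG]
        refine lt_mul_left (Nat.pos_of_ne_zero FiniteIndex.index_ne_zero) ((one_lt_card_iff_ne_bot N).mpr h0)
      have h3 := (H.T_map_iff _).mp (ih _ h1 _ _ _ rfl (H.map (QuotientGroup.mk' N)))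
      rw [hc] at h3
      obtain ⟨d, hd, e⟩ := h3 ⟨c, hcm, rfl⟩
      exact ⟨d, hd, d⁻¹ * c, ⟨QuotientGroup.eq.mp e, (centralizer (P : Set Γ)).mul_mem (inv_mem (D_le_cent hd)) hcm.2⟩, by group⟩
    · have := hsub _ hlt (norm_comm_right G P)
      rwa [H4.commutator_commutator_eq H.norm H.cop' (Or.inr H.sol)] at this
  intro Γ _ _ P G hn H
  have e1 : (P.subgroupOf (G ⊔ P)).map (G ⊔ P).subtype = P := map_subgroupOf_eq_of_le le_sup_right
  have e2 : (G.subgroupOf (G ⊔ P)).map (G ⊔ P).subtype = G := map_subgroupOf_eq_of_le le_sup_left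
  haveI := H4.normal_subgroupOf_sup_left H.norm
  have H' : Hyp p (P.subgroupOf (G ⊔ P)) (G.subgroupOf (G ⊔ P)) :=
    ⟨by rw [H4.card_subgroupOf_of_le le_sup_right]; exact H.card, le_normalizer_of_normal,
      by rw [H4.card_subgroupOf_of_le le_sup_left]; exact H.cop, H4.isSolvable_subgroupOf H.sol⟩
  have := (H'.T_map_iff (G ⊔ P).subtype).mpr (map_mono (step _ _ _
    (by rw [H4.card_subgroupOf_of_le le_sup_left, hn]) H' inferInstance
    (map_injective (G ⊔ P).subtype_injective (by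
      rw [Subgroup.map_sup, e1, e2, ← MonoidHom.range_eq_map, range_subtype]))))
  rwa [e1, e2] at this

end Cfsg.Agent.H36.Flav
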