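import Cfsg.Agent.H42.FvDefs
import Cfsg.Agent.H49.KgSub
import Cfsg.Agent.H80.KLang

/-!
# The subsystem subgroup of the roots vanishing on a Cartan element is bounded
-/

set_option autoImplicit false
set_option linter.unusedSectionVars false

namespace Cfsg.Agent.H36.FvBdd0

open Equiv Cfsg.Lie H34 H34.Split H37 H40 H73 H75 H75.EX H80.KL
open H34.Cert hiding lang

section cent

variable {ι Φ κ : Type*} [Fintype ι] [DecidableEq ι] [Fintype κ] [DecidableEq κ] [Finite Φ]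
  {R : RS ι Φ} {G : Type*} [Group G] {P : Split (sgn R) G} {T : SubD R κ}

variable (P T) in
/-- The commutator relations inside the subsystem. -/
def Cmm (f : Φ → ℕ) : Prop := ∀ r s : {r // T.Ψ r}, (sgn T.rs).pos r → (sgn T.rs).pos s →
  ∀ x ∈ P.X r, ∀ y ∈ P.X s, x * y * x⁻¹ * y⁻¹ ∈ P.U (Subtype.val ''
    {t : {r // T.Ψ r} | f r < f t ∧ f s < f t ∧ (sgn T.rs).Btw r s t})

/-- The subsystem subgroup as a group with root subgroups. -/
noncomputable def split {f : Φ → ℕ} (h : Cmm P T f) : Split (sgn T.rs) (Gc P T) where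
  X r := (P.X r).subgroupOf _
  H := P.H.subgroupOf _
  N := (Nc P T).subgroupOf _
  ν g := T.res (P.ν g)
  ht r := f r
  phi_univ := Phi_univ T.rs
  ν_mul n hn n' hn' := by
    rw [Subgroup.coe_mul, P.ν_mul n hn.1 n' hn'.1, (T.pres_W' (P.ν n) hn.2).res_mul (T.pres_W' (P.ν n') hn'.2)]
  ν_mem n hn := T.res_mem _ hn.2
  mem_H n := ⟨fun hn => ⟨⟨H_le_N (P := P) hn, (ν_H (P := P) (h := n) hn).symm ▸ one_mem _⟩,
    by rw [ν_H (P := P) (h := n) hn, T.res_one]⟩, fun ⟨hn, e⟩ => mem_H_of (P := P) hn.1 (T.eq_one hn.2 e)⟩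
  exists_s k := by
    obtain ⟨n, h1, h2, h3⟩ := exists_liftU (P := P) _ (T.τ_mem_W' k)
    exact ⟨⟨n, U_le_Gc h2⟩, ⟨h1, h3 ▸ T.τ_mem_W' k⟩, by rw [h3, T.res_τ]; rfl⟩
  conj n hn r x hx := by
    rw [Subgroup.mem_subgroupOf, (T.pres_W' (P.ν n) hn.2).res_apply]
    exact P.conj _ hn.1 _ _ hx
  X_ne k := by
    obtain ⟨x, hx, h1⟩ := P.X_ne_one (T.β k)
    exact ⟨⟨x, X_le_Gc (T.mem_β k) hx⟩, hx, fun e => h1 (congrArg Subtype.val e)⟩
  comm r s hr hs x hx y hy := (mem_rootU U_le_Gc).2 (h r s hr hs x hx y hy)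
  sl2 k x hx h1 := by
    obtain ⟨a, ha, n, hn, b, hb, e1, e2⟩ := IsCent.sl2_root (P := P) (T.β k) (x := x) hx fun e => h1 (Subtype.ext e)
    have hn' : n ∈ Nc P T := ⟨hn, e1 ▸ T.τ_mem_W' k⟩
    exact ⟨⟨a, X_le_Gc (T.mem_β k) ha⟩, ha, ⟨n, Nc_le hn'⟩, hn', ⟨b, X_le_Gc (T.mem_β k) hb⟩, hb,
      by rw [e1, T.res_τ]; rfl, Subtype.ext e2⟩
  sepV u hu k hk hv := by
    rw [mem_rootU U_le_Gc] at hu hv
    refine Subtype.ext (P.sepV _ (U_sub hu ?_) _ hk (U_sub hv ?_)) <;> rintro _ ⟨r, hr, rfl⟩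
    exacts [(T.pos_iff r).1 hr, mt (T.pos_iff r).2 hr]
  sepH u hu hh := by
    rw [mem_rootU U_le_Gc] at hu
    refine Subtype.ext (P.sepH _ (U_sub hu ?_) hh)
    rintro _ ⟨r, hr, rfl⟩
    exact (T.pos_iff r).1 hr
  gen := by
    refine eq_top_iff.2 fun g _ => ?_
    obtain ⟨a, ha, b, hb, e⟩ := mem_Gc g.2
    rw [show g = ⟨a, H_le_Gc ha⟩ * ⟨b, U_le_Gc hb⟩ from Subtype.ext e]
    exact mul_mem (Subgroup.mem_sup_left ha) (Subgroup.mem_sup_right ((mem_rootU U_le_Gc).2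
      (U_sub hb fun r hr => ⟨⟨r, hr⟩, trivial, rfl⟩)))

variable {f : Φ → ℕ} (h : Cmm P T f)

theorem split_X {r : {r // T.Ψ r}} {g : Gc P T} : g ∈ (split h).X r ↔ (g : G) ∈ P.X r := Iff.rfl

theorem split_ν (g : Gc P T) : (split h).ν g = T.res (P.ν g) := rfl

theorem split_U {A : Set {r // T.Ψ r}} {g : Gc P T} :
    g ∈ (split h).U A ↔ (g : G) ∈ P.U (Subtype.val '' A) := mem_rootU U_le_Gc

end cent

section chev

variable {D : ChevalleyDatum} {C : Cert D} {k : Type*} [Field k]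

theorem bdd_sub {ι : Type*} [Fintype ι] [DecidableEq ι] {ρ : D.group k →* GL ι k}
    (hX : ∀ r, IsLine ρ ((C.split k).X r)) {n : ℕ} {T : SubD C.R (Fin n)} {f : Fin D.nroots → ℕ}
    (hc : Cmm (C.split k) T f) : Bdd (ρ.comp ((C.split k).U {r | T.Ψ r}).subtype) Set.univ := by
  set L := (C.split k).U {r | T.Ψ r} with hL
  have h0 : ∀ r, T.Ψ r → BL ρ L ((C.split k).X r) := fun r hr => BL.line (hX r) (EX.X_le_U hr)
  have h1 : ∀ g ∈ L, BL ρ L {g} := Split.U_ind_left (p := fun g => BL ρ L {g}) BL.one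
    fun r hr x hx g _ ih => (h0 r hr).mul ih (by rintro _ rfl; exact ⟨x, hx, g, rfl, rfl⟩)
  have h3 : ∀ r, T.Ψ r → BL ρ L (Set.range (C.ng k r)) := fun r hr =>
    ((h0 r hr).mul (h0 _ (T.neg_mem r hr)) (S'' := {g | ∃ a ∈ _, ∃ b ∈ _, g = a * b}) fun _ h => h).mul
      (h0 r hr) (by
        rintro _ ⟨t, rfl⟩
        exact ⟨_, ⟨_, xg_mem_X r t, _, xg_mem_X' r _, rfl⟩, _, xg_mem_X r t, ng_eq r t⟩)
  have h4 : ∀ r : {r | T.Ψ r}, BL ρ L (Set.range (C.hg k r)) := fun r =>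
    (h3 r r.2).mul (h3 r r.2) (by rintro _ ⟨t, rfl⟩; exact ⟨_, ⟨_, rfl⟩, _, ⟨_, rfl⟩, hg_eq _ t⟩)
  have h5 : BL ρ L (Tt C k {r | T.Ψ r}) := by
    obtain ⟨M, hM⟩ := exists_list_Tt (C := C) (k := k) (A := {r | T.Ψ r})
    refine (BL.list h4 M).mono fun g hg => ?_
    obtain ⟨c, e⟩ := hM g hg
    exact ⟨_, fun r => ⟨_, rfl⟩, e⟩
  let E := Eg C k ⊓ L ⊓ Nc (C.split k) T
  have h6 : BL ρ L E := by
    have : Finite {a : k | a * a = 1} :=
      (Set.toFinite {(1 : k), -1}).subset fun a h => mul_self_eq_one_iff.1 h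
    refine (BL.iUnion (α := Perm (Fin D.nroots) × (Fin D.nroots → {a : k | a * a = 1}))
      (T := fun p => {g | g ∈ L ∧ Sg C g p.1 fun r => p.2 r}) fun p => ?_).mono ?_
    · by_cases h : ∃ g ∈ L, Sg C g p.1 fun r => p.2 r
      · obtain ⟨g, hg, e⟩ := h
        exact (h1 g hg).mono fun g' hg' => hg'.2.unique e
      · exact BL.one.mono fun g hg => absurd ⟨g, hg⟩ h
    · rintro g ⟨⟨⟨-, a, ha, e⟩, hg⟩, -⟩
      exact Set.mem_iUnion.2 ⟨(_, fun r => ⟨a r, ha r⟩), hg, e⟩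
  let K := E ⊔ Tt C k {r | T.Ψ r}
  have h7 : BL ρ L K := h6.mul h5 fun g hg => exists_mul_of_mem_sup (le_normalizer_of_conj_mem
    fun e (he : e ∈ E) => conj_mem_Tt he.2.1 fun r hr => (T.pres_W' _ he.2.2 r).2 hr) hg
  have hK : K ≤ Nc (C.split k) T :=
    sup_le inf_le_right fun g hg => ⟨H_le_N (Tt_le hg), (ν_H (Tt_le hg)).symm ▸ one_mem _⟩
  have hn : ∀ b, ∀ t ≠ 0, C.ng k (T.β b) t ∈ K := fun b t ht => by
    obtain ⟨c, hc0, e⟩ := exists_ng_mem (C := C) (k := k) (T.β b)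
    rw [← inv_mul_cancel_right (C.ng k (T.β b) t) (C.ng k (T.β b) c), ← ng_neg']
    refine mul_mem (Subgroup.mem_sup_right (ng_mul_ng_mem (T.mem_β b) ht (neg_ne_zero.2 hc0)))
      (Subgroup.mem_sup_left ⟨⟨e, (h3 _ (T.mem_β b)).1 ⟨c, rfl⟩⟩, e.1, ?_⟩)
    rw [ν_ng_τ _ hc0]; exact T.τ_mem_W' b
  obtain ⟨M, hM, hMA⟩ := H40.Filt.exists_list (Set.toFinite ((sgn T.rs).inv ((sgn T.rs).wJ Set.univ)))
  have h2 := BL.list (fun r : {r // T.Ψ r} => h0 r r.2) M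
  have h8 : ∀ a ∈ (split hc).U ((sgn T.rs).inv ((sgn T.rs).wJ Set.univ)), ∃ y : {r // T.Ψ r} → D.group k,
      (∀ r : {r // T.Ψ r}, y r ∈ (C.split k).X r) ∧ (a : D.group k) = (M.map y).prod := fun a ha => by
    obtain ⟨y, hy, rfl⟩ := Split.exists_prod ((split hc).cl_inv ((sgn T.rs).wJ_mem_W _)) hM hMA ha
    exact ⟨fun r => y r, hy, by rw [SubmonoidClass.coe_list_prod, List.map_map]; rfl⟩
  refine (BL.mul (S'' := (L : Set (D.group k))) (h2.mul h7 (S'' := {g | ∃ a ∈ _, ∃ b ∈ _, g = a * b})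
    fun _ h => h) h2 fun g hg => ?_).2.mono fun g _ => g.2
  have hN : ∀ m ∈ K.subgroupOf (Gc (C.split k) T), m ∈ (split hc).N := fun m hm => hK hm
  obtain ⟨a, ha, m, hm, u, hu, e⟩ := Split.bruhat_K (P := split hc) Set.univ
    (K := K.subgroupOf (Gc (C.split k) T)) hN
    (fun m hm => (sgn T.rs).WJ_univ.symm ▸ (split hc).ν_mem m (hN m hm)) (fun b _ x hx hx1 => by
      obtain ⟨t, et⟩ := mem_X.1 ((split_X hc).1 hx)
      have ht : t ≠ 0 := fun h => hx1 (Subtype.ext (by rw [← et, h, xg_zero]; rfl))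
      have ht' : -t⁻¹ ≠ 0 := neg_ne_zero.2 (inv_ne_zero ht)
      refine ⟨⟨_, X_le_Gc (T.mem_β b) (xg_mem_X _ t⁻¹)⟩, xg_mem_X (C := C) (T.β b) t⁻¹,
        ⟨_, Nc_le (hK (hn b _ ht'))⟩, hn b _ ht', ⟨_, X_le_Gc (T.mem_β b) (xg_mem_X _ t⁻¹)⟩,
        xg_mem_X (C := C) (T.β b) t⁻¹, ?_, Subtype.ext ?_⟩
      · rw [split_ν hc, ν_ng_τ _ ht', T.res_τ]; rfl
      · show (x : D.group k) = C.xg k (T.β b) t⁻¹ * C.ng k (T.β b) (-t⁻¹) * C.xg k (T.β b) t⁻¹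
        rw [← et, ng_eq, xg_neg, inv_neg, inv_inv, neg_neg, ← C.neg_val]
        show C.xg k (C.R.neg (T.β b)) t = _
        group)
    (g := ⟨g, U_le_Gc hg⟩) ((split_U hc).2 (U_sub hg fun r hr =>
      ⟨⟨r, hr⟩, (split hc).phi_univ.symm ▸ Set.mem_univ _, rfl⟩))
  exact ⟨_, ⟨a, h8 a ha, m, hm, rfl⟩, u, h8 u hu, congrArg Subtype.val e⟩

end chev

open H42.Fv H50.E83

theorem bdd0 (comm : CommStmt) : Bdd0Stmt := by
  intro h ρ hX
  obtain ⟨n, T, hT⟩ := H49.KgSub.sub _ _ C8.R C8.wtv_inj (fun r => r ∈ Psi h)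
    (fun r hr => by
      show al _ h = 0
      rw [al_neg, show al r h = 0 from hr, neg_zero])
    (fun r s hr hs => by
      show al _ h = 0
      rw [al_of_rc (r := s) (s := r) (a := 1) (b := -C8.R.pair r s)
        (by rw [C8.R.rc_τ, one_smul, neg_smul, sub_eq_add_neg]), show al r h = 0 from hr,
        show al s h = 0 from hs, mul_zero, mul_zero, add_zero])
  have hc : Cmm P8 T (fun r => (C8.R.ht r).toNat) := by
    intro r s hr hs x hx y hy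
    rw [sgn_pos, T.pos_iff] at hr hs
    refine U_sub (comm r hr s hs x hx y hy) fun t ht => ?_
    have h1 := (C8.R.ht_pos_iff _).2 hr
    have h2 := (C8.R.ht_pos_iff _).2 hs
    have h3 := Sum2.ht ht
    refine ⟨⟨t, (hT t).2 (clo_psi h r ((hT r).1 r.2) s ((hT s).1 s.2) t ht)⟩,
      ⟨by dsimp only; omega, by dsimp only; omega, fun w hw => ?_⟩, rfl⟩
    obtain ⟨v, hv, hp, rfl⟩ := T.exists_lift hw
    simp only [sgn_pos, T.pos_iff, hp.res_apply]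
    exact fun h4 h5 => clo_pos _ h4 _ h5 _ (Sum2.W ht hv)
  have e : Psi h = {r | T.Ψ r} := Set.ext fun r => (hT r).symm
  rw [e]
  exact bdd_sub hX hc

end Cfsg.Agent.H36.FvBdd0
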