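import Cfsg.Agent.H98.GbG

/-!
# A nonzero twisted class function needs a character fixed by the twist
-/

set_option autoImplicit false

namespace Cfsg.Agent.H36.GbCl2

open Cfsg Cfsg.Agent.H98.GB

universe u

theorem cl2 (hD : DECStmt.{u}) : CL2Stmt.{u} := by
  intro G _ _ l S f hf h0
  by_contra hne
  push Not at hne
  refine h0 ?_
  have key : ∀ f' ∈ {f' | ∃ χ ∈ S, f' ∈ VS l {χ}}, f' = 0 := by
    rintro f' ⟨χ, hχ, h1, h2⟩
    have hl : ∀ g, f' g = (l g : ℂ) * f' g := fun g => by
      have := h1 g g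
      rwa [mul_inv_cancel_right] at this
    have hE : f' ∈ VS l (∅ : Set (IrrCharacter G)) := by
      refine ⟨h1, fun ψ _ g => ?_⟩
      by_cases hψ : ψ = χ
      swap
      · exact h2 ψ hψ g
      subst hψ
      have hi := H11.isIrrCharacter_mul_linear ψ.2 (H11.isCharacter_monoidHom l⁻¹) (by simp)
      have hn : (⟨_, hi⟩ : IrrCharacter G) ∉ ({ψ} : Set (IrrCharacter G)) := fun e => by
        refine hne ψ hχ (funext fun x => ?_)
        have e1 : ψ.1 x * ((l x)⁻¹ : ℂˣ) = ψ.1 x := congrFun (congrArg Subtype.val e) x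
        show (l x : ℂ) * ψ.1 x = ψ.1 x
        conv_lhs => rw [← e1]
        rw [mul_left_comm, Units.mul_inv, mul_one]
      have h3 := congrArg ((l g : ℂ) * ·) (h2 _ hn g)
      simp only [mul_zero, Finset.mul_sum] at h3
      rw [← h3]
      refine Finset.sum_congr rfl fun x _ => ?_
      show _ = (l g : ℂ) * (ψ.1 x * ((l x)⁻¹ : ℂˣ) * f' (x⁻¹ * g))
      conv_lhs => rw [hl (x⁻¹ * g), map_mul, map_inv, Units.val_mul]
      ring
    have := (hD G).1 l ∅ f' hE
    simpa using this
  have := (hD G).1 l S f hf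
  rw [(Submodule.span_eq_bot).2 key] at this
  exact this

end Cfsg.Agent.H36.GbCl2
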