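import Cfsg.Agent.H98.GbL
import Cfsg.Agent.H47.GbNweh

/-! Project GB, piece R2Lb: values at a scalar block of order `p`. -/

set_option autoImplicit false

namespace Cfsg.Agent.H36.GbR2Lb

open Cfsg Finset Cfsg.Agent.H98.GB
open scoped ComplexConjugate MatrixGroups

universe u

theorem central {G : Type u} [Group G] [Finite G] {χ : G → ℂ} (hχ : IsIrrCharacter G χ) {z : G}
    (hz : ∀ g, z * g = g * z) (g : G) : χ (z * g) * χ 1 = χ z * χ g := by
  have := Fintype.ofFinite G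
  have h := H11.sum_irr_conj_mul hχ z g
  have e : ∀ x : G, x * z * x⁻¹ = z := fun x => by rw [← hz x, mul_inv_cancel_right]
  simp only [e, Finset.sum_const, card_univ, nsmul_eq_mul, ← Nat.card_eq_fintype_card] at h
  have h1 := H11.irr_apply_one_ne_zero hχ
  have h2 := H11.card_ne_zero G
  field_simp at h
  exact h

theorem central_ne {G : Type u} [Group G] [Finite G] {χ : G → ℂ} (hχ : IsIrrCharacter G χ) {z : G}
    (hz : ∀ g, z * g = g * z) : χ z ≠ 0 := fun e => by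
  have h := central hχ hz z⁻¹
  rw [mul_inv_cancel, e, zero_mul, mul_self_eq_zero] at h
  exact H11.irr_apply_one_ne_zero hχ h

theorem inner_prod {G₁ G₂ : Type u} [Group G₁] [Fintype G₁] [Group G₂] [Fintype G₂]
    (f ψ : G₁ → ℂ) (f' ψ' : G₂ → ℂ) :
    classInner (fun y : G₁ × G₂ => f y.1 * f' y.2) (fun y => ψ y.1 * ψ' y.2) =
      classInner f ψ * classInner f' ψ' := by
  simp only [classInner, Nat.card_prod, Fintype.sum_prod_type, map_mul, Nat.cast_mul, mul_inv]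
  rw [mul_mul_mul_comm, sum_mul_sum]
  congr 1
  exact sum_congr rfl fun _ _ => sum_congr rfl fun _ _ => by ring

theorem reg_prod {G₁ G₂ : Type u} [Group G₁] [Group G₂] {p : ℕ} (hp : p.Prime) (y : G₁ × G₂) :
    IsPRegular p y ↔ IsPRegular p y.1 ∧ IsPRegular p y.2 := by
  simp only [IsPRegular, Prod.orderOf, hp.dvd_lcm, not_or]

theorem sch_box {A : Type*} [CommRing A] [Algebra ℂ A] {N : ℕ} (hN : 1 ≤ N) (P : ℕ → A)
    {S : Finset ℕ} (hS : #S = N) (hw : H19.wtS S = 1) : sch N P S = P 1 := by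
  have hp : H19.Par 1 = {{1}} := by
    ext μ
    rw [H19.mem_Par, mem_singleton]
    refine ⟨fun ⟨h1, h2⟩ => ?_, by rintro rfl; simp⟩
    induction μ using Multiset.induction_on with
    | empty => simp at h1
    | cons a ν _ =>
      rw [Multiset.sum_cons] at h1
      have ha := h2 a (Multiset.mem_cons_self _ _)
      have : ν = 0 := Multiset.eq_zero_of_forall_notMem fun r hr => by
        have := Multiset.single_le_sum (fun _ _ => Nat.zero_le _) r hr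
        have := h2 r (Multiset.mem_cons_of_mem hr)
        omega
      subst this
      obtain rfl : a = 1 := by simpa using h1
      rfl
  have hz : H19.zM {1} = 1 := by simp [H19.zM]
  have hL : S ∈ H19.Lam N 1 := H19.mem_Lam'.2 ⟨hS, hw⟩
  have h1 := H19.sum_chiS_sq hN hL
  have h2 := H19.chiS_degree_pos hL
  rw [Multiset.replicate_one] at h2
  rw [hp, sum_singleton, hz, Nat.cast_one, div_one] at h1
  have h3 : H19.chiS N S {1} * H19.chiS N S {1} = 1 := by exact_mod_cast h1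
  have h4 : H19.chiS N S {1} = 1 := by nlinarith
  simp [sch, hw, hp, hz, h4]

theorem sL_box {A : Type*} [CommRing A] [Algebra ℂ A] {Φ : Type} [Fintype Φ] {N : ℕ} (hN : 1 ≤ N)
    (P : Φ → ℕ → A) {L : Φ → Finset ℕ} {Γ : Φ} (hc : ∀ φ, #(L φ) = N)
    (h0 : ∀ φ, φ ≠ Γ → H19.wtS (L φ) = 0) (h1 : H19.wtS (L Γ) = 1) : sL N P L = P Γ 1 := by
  rw [sL, Fintype.prod_eq_single Γ, sch_box hN _ (hc Γ) h1]
  intro φ hφ
  rw [H19.eq_range_of_wtS (h0 φ hφ), hc]
  simp [sch, H19.wtS_range, H47.GbNw.par_zero, H19.chiS_range_zero, H19.zM_zero]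

theorem move {S : Finset ℕ} {x : ℕ} (hx : x ∈ S) (h1 : 1 ≤ x) (h2 : x - 1 ∉ S) :
    #(insert (x - 1) (S.erase x)) = #S ∧ H19.wtS (insert (x - 1) (S.erase x)) + 1 = H19.wtS S := by
  have h3 : x - 1 ∉ S.erase x := fun h => h2 (mem_of_mem_erase h)
  have h4 : #(insert (x - 1) (S.erase x)) = #S := by
    rw [card_insert_of_notMem h3, card_erase_add_one hx]
  refine ⟨h4, ?_⟩
  have h5 := H19.sum_eq_wtS (insert (x - 1) (S.erase x))
  have h6 := H19.sum_eq_wtS S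
  rw [h4, sum_insert h3] at h5
  rw [← add_sum_erase S _ hx] at h6
  omega

theorem exists_move {S : Finset ℕ} (h : H19.wtS S ≠ 0) : ∃ x ∈ S, 1 ≤ x ∧ x - 1 ∉ S := by
  refine H19.exists_move_of_wgt (p := 1) ?_
  have : H19.run 1 0 S = S := by ext a; simp [H19.mem_run]
  simpa [H19.wgt, this] using h

section
variable {F : Type u} [Field F] [Fintype F] [DecidableEq F] (C : Ctx F)

omit [Fintype F] [DecidableEq F] in
theorem comm_u {m : ℕ} {z : Fˣ} {u : GL (Fin m) F} (hu : u.1 = (z : F) • 1) (g : GL (Fin m) F) :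
    u * g = g * u := Units.ext (by simp [hu])

theorem value (hC : COPStmt.{u}) (hR : ROOTStmt.{u}) {m k n : ℕ} (h : m + k = n) {z : Fˣ}
    {u : GL (Fin m) F} (hz : orderOf z = C.p) (hu : u.1 = (z : F) • 1) (x : C.H.A)
    {s : GL (Fin m) F} {t : GL (Fin k) F} (hs : IsPRegular C.p s) (ht : IsPRegular C.p t) :
    C.H.ev x n (tri h (u * s) 0 t) = res h (C.H.ev x n) (u * s) t := by
  obtain ⟨-, -, -, r4, -, r6, r7, r8⟩ := hR F C
  refine ((hC F 1).1 m k n h _ _ _ (C.H.tw x n) (r8 _ _ _ _ ?_)).symm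
  rw [Multiset.disjoint_left]
  intro a ha hb
  have h1 : a ^ (orderOf s * orderOf t) = 1 := by rw [mul_comm, pow_mul, r7 _ _ a hb, one_pow]
  have h2 : (u * s) ^ (orderOf s * orderOf t) = u ^ (orderOf s * orderOf t) := by
    rw [(show Commute u s from comm_u hu s).mul_pow, pow_mul s, pow_orderOf_eq_one, one_pow, mul_one]
  have h3 : z ^ (orderOf s * orderOf t) ≠ 1 := fun e => by
    rw [← orderOf_dvd_iff_pow_eq_one, hz, C.hp.dvd_mul] at e
    exact e.elim hs ht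
  refine (r6 _ (u ^ (orderOf s * orderOf t))).1 ?_ ?_
  · have h4 : ((z : F) ^ (orderOf s * orderOf t) - 1) ≠ 0 := sub_ne_zero.2 fun e =>
      h3 (Units.ext (by simpa using e))
    have : (u ^ (orderOf s * orderOf t)).1 - 1 =
        Units.mk0 _ h4 • (1 : Matrix (Fin m) (Fin m) F) := by
      rw [Units.val_pow_eq_pow_val, hu, _root_.smul_pow, one_pow, Units.smul_def, Units.val_mk0,
        sub_smul, one_smul]
    rw [this]
    exact isUnit_one.smul _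
  · rw [← h2, r4]
    exact Multiset.mem_map.2 ⟨a, ha, h1⟩

theorem mem_XC (hI : IRRStmt.{u}) {n : ℕ} (hn : n ≤ C.n0) {Λ : C.Lb} (hΛ : C.IsLab n Λ)
    {χ : IrrCharacter (GL (Fin n) F)} (e : χ.1 = C.sC Λ n) (Cs : Set C.Lb) :
    χ ∈ C.XC n Cs ↔ Λ ∈ Cs :=
  ⟨fun ⟨Λ', h1, h2, h3⟩ => (hI F C n hn Λ hΛ).2.2 Λ' h2 (e.symm.trans h3) ▸ h1,
    fun h => ⟨Λ, h, hΛ, e⟩⟩

end

theorem r2lb (hF : FOCKStmt.{u}) (hL : LABStmt.{u}) (hC : COPStmt.{u}) (hR : ROOTStmt.{u})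
    (hI : IRRStmt.{u}) (hO : COMPLStmt.{u}) (hS : BLKSStmt.{u}) (hB : BASBStmt.{u})
    (hX : RESXStmt.{u}) (hH : HOOKStmt.{u}) (hY : SYSStmt.{u}) : R2LbStmt.{u} := by
  intro F _ _ _ C Γ hΓ k n h hn z u hz hu
  have lab := hL F C
  obtain ⟨-, -, x3, x4⟩ := hX F C
  have hd : C.dg Γ ≤ C.n0 := by omega
  have hk : k ≤ C.n0 := by omega
  have x3' := x3 _ _ _ h hn (lab.fin (C.dg Γ)).toFinset (lab.fin k).toFinset (by simp) (by simp)
  generalize hL1 : (lab.fin (C.dg Γ)).toFinset = L₁ at x3'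
  generalize hL2 : (lab.fin k).toFinset = L₂ at x3'
  have m1 : ∀ Λ, Λ ∈ L₁ ↔ C.IsLab (C.dg Γ) Λ := by simp [← hL1]
  have m2 : ∀ Λ, Λ ∈ L₂ ↔ C.IsLab k Λ := by simp [← hL2]
  refine ⟨fun χ ψ₁ ψ₂ hne => ?_, fun B hb hBs => ?_⟩
  · obtain ⟨Λ, hΛ, e⟩ := hO F C n hn χ
    obtain ⟨Λ₁, hΛ₁, e₁⟩ := hO F C _ hd ψ₁
    obtain ⟨Λ₂, hΛ₂, e₂⟩ := hO F C _ hk ψ₂
    have key : (pRegularPart C.p fun y : GL (Fin (C.dg Γ)) F × GL (Fin k) F =>
        χ.1 (tri h (u * y.1) 0 y.2)) = ∑ K₁ ∈ L₁, ∑ K₂ ∈ L₂,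
          (C.H.ip n (sL C.N C.pp Λ) (sL C.N C.pp K₁ * sL C.N C.pp K₂) *
            (C.sC K₁ _ u / C.sC K₁ (C.dg Γ) 1)) •
          fun y : GL (Fin (C.dg Γ)) F × GL (Fin k) F =>
            pRegularPart C.p (C.sC K₁ _) y.1 * pRegularPart C.p (C.sC K₂ k) y.2 := by
      funext y
      simp only [Finset.sum_apply, Pi.smul_apply, smul_eq_mul, pRegularPart]
      by_cases hy : IsPRegular C.p y
      · obtain ⟨h1, h2⟩ := (reg_prod C.hp y).1 hy
        simp only [hy, h1, h2, if_true]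
        rw [e, Ctx.sC, value C hC hR h hz hu _ h1 h2, x3']
        refine sum_congr rfl fun K₁ hK₁ => sum_congr rfl fun K₂ _ => ?_
        have i1 := (hI F C _ hd K₁ ((m1 _).1 hK₁)).2.1
        have h3 := central i1 (comm_u hu) y.1
        have h4 := H11.irr_apply_one_ne_zero i1
        rw [eq_div_of_mul_eq h4 h3]
        ring
      · rw [if_neg hy]
        rw [reg_prod C.hp, not_and_or] at hy
        rcases hy with hy | hy <;> simp [hy]
    rw [key, H11.classInner_sum_left] at hne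
    obtain ⟨K₁, hK₁, hne⟩ := exists_ne_zero_of_sum_ne_zero hne
    rw [H11.classInner_sum_left] at hne
    obtain ⟨K₂, hK₂, hne⟩ := exists_ne_zero_of_sum_ne_zero hne
    rw [H11.classInner_smul_left, inner_prod, e₁, e₂] at hne
    have c0 := left_ne_zero_of_mul (left_ne_zero_of_mul hne)
    have c1 := left_ne_zero_of_mul (right_ne_zero_of_mul hne)
    have c2 := right_ne_zero_of_mul (right_ne_zero_of_mul hne)
    have hw := x4 _ _ _ h hn K₁ K₂ Λ ((m1 _).1 hK₁) ((m2 _).1 hK₂) hΛ c0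
    have hsm : ∀ Γ', C.sm Λ Γ' = C.sm Λ₁ Γ' + C.sm Λ₂ Γ' := fun Γ' => by
      rw [← of_not_not fun e => c1 (hS F C _ hd K₁ Λ₁ ((m1 _).1 hK₁) hΛ₁ Γ' e),
        ← of_not_not fun e => c2 (hS F C _ hk K₂ Λ₂ ((m2 _).1 hK₂) hΛ₂ Γ' e)]
      simp only [Ctx.sm, hw, mul_add, sum_add_distrib]
    rw [mem_XC C hI hn hΛ e, mem_XC C hI hd hΛ₁ e₁, mem_XC C hI hk hΛ₂ e₂, lab.sup_iff _ _ hΛ.1,
      lab.sup_iff _ _ hΛ₁.1, lab.sup_iff _ _ hΛ₂.1]
    simp only [hsm, Nat.add_eq_zero_iff, imp_and, forall_and]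
  obtain ⟨χ0, rfl⟩ := hb
  obtain ⟨Λ, hΛ, hbas, ψ, hψ, e⟩ := hB F C n hn χ0
  refine ⟨ψ, hψ, ?_⟩
  have hsup := (mem_XC C hI hn hΛ e _).1 (hBs hψ)
  have d0 := lab.dg_pos Γ
  have w0 : ∀ φ, φ ≠ Γ → H19.wtS (Λ φ) = 0 := fun φ hφ => by
    have : Λ φ = range C.N := by
      by_cases h1 : C.lp φ = Γ
      · exact hbas φ fun h2 => hφ (h2.symm.trans h1)
      · exact hsup φ h1
    rw [this, H19.wtS_range]
  have wt1 : ∀ K : C.Lb, (∀ φ, φ ≠ Γ → H19.wtS (K φ) = 0) → wt C.dg K = C.dg Γ * H19.wtS (K Γ) :=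
    fun K hK => Fintype.sum_eq_single Γ fun φ hφ => by rw [hK φ hφ, mul_zero]
  obtain ⟨N', hN⟩ : ∃ N', C.N = N' + 1 := Nat.exists_eq_succ_of_ne_zero
    (Nat.mul_ne_zero (by omega) (by omega))
  have hrow := H19.mem_Lam'.1 (H19.rowS_mem N' 1)
  set bx : C.Lb := Function.update (fun _ => range C.N) Γ (H19.rowS N' 1) with hbx
  have b0 : ∀ φ, φ ≠ Γ → H19.wtS (bx φ) = 0 := fun φ hφ => by
    rw [hbx, Function.update_of_ne hφ, H19.wtS_range]
  have b1 : H19.wtS (bx Γ) = 1 := by rw [hbx, Function.update_self, hrow.2]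
  have bc : ∀ φ, #(bx φ) = C.N := fun φ => by
    by_cases hφ : φ = Γ
    · rw [hφ, hbx, Function.update_self, hrow.1, hN]
    · rw [hbx, Function.update_of_ne hφ, card_range]
  have bl : C.IsLab (C.dg Γ) bx := ⟨bc, by rw [wt1 _ b0, b1, mul_one]⟩
  have bs : sL C.N C.pp bx = C.pp Γ 1 := sL_box (by omega) _ bc b0 b1
  have hv := value C hC hR h hz hu (sL C.N C.pp Λ) (s := 1) (t := 1)
    (by simpa [IsPRegular] using C.hp.one_lt.ne') (by simpa [IsPRegular] using C.hp.one_lt.ne')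
  rw [mul_one] at hv
  rw [e, Ctx.sC, hv, x3', sum_eq_single_of_mem bx ((m1 _).2 bl)]
  swap
  · intro K₁ hK₁ hne
    refine sum_eq_zero fun K₂ hK₂ => ?_
    refine mul_eq_zero_of_left (mul_eq_zero_of_left (of_not_not fun c0 => hne ?_) _) _
    have hw := x4 _ _ _ h hn K₁ K₂ Λ ((m1 _).1 hK₁) ((m2 _).1 hK₂) hΛ c0
    have k0 : ∀ φ, φ ≠ Γ → H19.wtS (K₁ φ) = 0 := fun φ hφ => by
      have := hw φ
      rw [w0 φ hφ] at this
      omega
    have k1 := ((m1 _).1 hK₁).2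
    rw [wt1 _ k0] at k1
    have k2 : H19.wtS (K₁ Γ) = 1 := Nat.eq_of_mul_eq_mul_left d0 (by rw [k1, mul_one])
    refine (hI F C _ hd K₁ ((m1 _).1 hK₁)).2.2 bx bl ?_
    rw [Ctx.sC, Ctx.sC, bs, sL_box (by omega) _ ((m1 _).1 hK₁).1 k0 k2]
  obtain ⟨y1, y2, y3⟩ := hY F C
  have hook := hH F 1 C.H C.Φ C.dg C.n0 C.N C.pp (y2 _) (y3 _) Λ hΛ.1 (hΛ.2 ▸ hn) Γ 1 one_pos
    (by omega)
  have hg := (y1 Γ 1 one_pos).1
  rw [mul_one] at hook hg
  set Mv := (Λ Γ).filter (fun x => 1 ≤ x ∧ x - 1 ∉ Λ Γ) with hMv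
  have ml : ∀ x ∈ Mv, C.IsLab k (Function.update Λ Γ (insert (x - 1) ((Λ Γ).erase x))) := by
    intro x hx
    obtain ⟨h1, h2, h3⟩ := mem_filter.1 hx
    obtain ⟨h4, h5⟩ := move h1 h2 h3
    refine ⟨fun φ => ?_, ?_⟩
    · by_cases hφ : φ = Γ
      · rw [hφ, Function.update_self, h4, hΛ.1]
      · rw [Function.update_of_ne hφ, hΛ.1]
    · have h6 := hΛ.2
      rw [wt1 _ w0, ← h5, mul_add, mul_one] at h6
      rw [wt1 _ fun φ hφ => by rw [Function.update_of_ne hφ, w0 φ hφ], Function.update_self]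
      omega
  have hc : ∀ K₂ ∈ L₂, C.H.ip n (sL C.N C.pp Λ) (sL C.N C.pp bx * sL C.N C.pp K₂) =
      ∑ x ∈ Mv, if Function.update Λ Γ (insert (x - 1) ((Λ Γ).erase x)) = K₂ then 1 else 0 := by
    intro K₂ hK₂
    have h1 := (hF F 1 C.H).adj hg k (sL C.N C.pp K₂) (sL C.N C.pp Λ)
    rw [h] at h1
    rw [bs, Hall.ip, ← H11.conj_classInner, ← Hall.ip, h1, Hall.ip, H11.conj_classInner, hook,
      map_sum, Finset.sum_apply, H11.classInner_sum_left]
    refine sum_congr rfl fun x hx => ?_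
    have h2 : (Λ Γ).filter (fun z => x - 1 < z ∧ z < x) = ∅ :=
      filter_eq_empty_iff.2 fun z _ => by omega
    rw [h2, card_empty, pow_zero, one_smul]
    obtain ⟨-, i1, i2⟩ := hI F C _ hk _ (ml x hx)
    have i3 := (hI F C _ hk _ ((m2 _).1 hK₂)).2.1
    split_ifs with h3
    · rw [← h3]; exact H11.classInner_irr_self i1
    · exact H11.classInner_irr_of_ne i1 i3 fun e => h3 (i2 _ ((m2 _).1 hK₂) e)
  rw [sum_congr rfl fun K₂ hK₂ => by rw [hc K₂ hK₂, sum_mul, sum_mul], sum_comm,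
    sum_congr rfl (g := fun x => C.sC bx _ u *
      C.sC (Function.update Λ Γ (insert (x - 1) ((Λ Γ).erase x))) k 1) fun x hx => by
      rw [sum_eq_single_of_mem _ ((m2 _).2 (ml x hx)) fun K _ hK => by rw [if_neg hK.symm]; simp]
      simp, ← mul_sum]
  refine mul_ne_zero (central_ne (hI F C _ hd bx bl).2.1 (comm_u hu)) ?_
  choose! dd hd1 hd2 using fun x hx => H11.exists_pos_degree (hI F C _ hk _ (ml x hx)).2.1
  rw [sum_congr rfl hd2, ← Nat.cast_sum, Nat.cast_ne_zero]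
  refine (sum_pos hd1 ?_).ne'
  have h6 := hΛ.2
  rw [wt1 _ w0] at h6
  obtain ⟨x, h1, h2⟩ := exists_move (S := Λ Γ) fun e => by rw [e] at h6; omega
  exact ⟨x, mem_filter.2 ⟨h1, h2⟩⟩

end Cfsg.Agent.H36.GbR2Lb
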