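import Cfsg.Agent.H50.L81Defs

/-! Project L81, piece ENUM: the possible composition factors. -/

set_option autoImplicit false

namespace Cfsg.Agent.H36.L81Enum

open Finset Cfsg.Agent.H50.L81 Cfsg.Agent.H50.SL2S

/-- The smallest member of the orbit of `r`. -/
def orb (r : ℕ) : ℕ := ((List.range 4).map fun k => rot^[k] r).foldl min r
def reps : List ℕ := [44, 26, 80, 50, 14, 16, 22, 40, 8, 4, 20, 2, 10, 0]
def dig (r j : ℕ) : Bool :=
  j % 3 ≤ r % 3 && j / 3 % 3 ≤ r / 3 % 3 && j / 9 % 3 ≤ r / 9 % 3 && j / 27 ≤ r / 27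
def EF (n r e : ℕ) : ℕ :=
  ((List.range (r + 1)).filter fun j => dig r j && (r / 2 + (n - 1) * j) % n == e).length
def co (n e a : ℕ) : ℕ := ∑ b ∈ range 41, if orb (2 * b) = a then EF n (2 * b) e else 0

theorem dig_spec : ∀ b < 41, ∀ j < 2 * b + 1,
    (¬ 3 ∣ (2 * b).descFactorial j / j.factorial ↔ dig (2 * b) j = true) := by decide +kernel

theorem EE_eq (n : ℕ) {b : ℕ} (hb : b < 41) (e : ℕ) : EE n (2 * b) e = EF n (2 * b) e := by
  rw [EE, JJ, filter_filter, EF, ← List.toFinset_card_of_nodup (List.nodup_range.filter _),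
    List.toFinset_filter, List.toFinset_range]
  refine congrArg _ (filter_congr fun j hj => ?_)
  rw [Nat.choose_eq_descFactorial_div_factorial, dig_spec b hb j (mem_range.1 hj)]
  simp

theorem orb_spec : ∀ r < 81, Even r → orb r ∈ reps ∧ ∃ k < 4, orb r = rot^[k] r := by decide +kernel

theorem rot_lt : ∀ r < 81, Even r → rot r < 81 ∧ Even (rot r) := by decide +kernel

theorem m_orb {m : ℕ → ℕ} (h : ∀ r < 81, Even r → m (rot r) = m r) {r : ℕ} (hr : r < 81)
    (he : Even r) : m r = m (orb r) := by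
  obtain ⟨-, k, -, e⟩ := orb_spec r hr he
  rw [e]
  clear e
  induction k generalizing r with
  | zero => rfl
  | succ k ih =>
    rw [Function.iterate_succ_apply, ← ih (rot_lt r hr he).1 (rot_lt r hr he).2, h r hr he]

theorem SE_eq {m : ℕ → ℕ} (h : ∀ r < 81, Even r → m (rot r) = m r) (n e : ℕ) :
    SE m n e = (reps.map fun a => m a * co n e a).sum := by
  rw [← List.sum_toFinset _ (by decide)]
  simp only [co, mul_sum]
  rw [sum_comm]
  refine sum_congr rfl fun b hb => ?_
  have hb := mem_range.1 hb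
  rw [sum_eq_single (orb (2 * b)), if_pos rfl, m_orb h (by omega) (even_two_mul b), EE_eq n hb]
  · intro a _ ha
    rw [if_neg ha.symm, mul_zero]
  · intro ha
    exact absurd (List.mem_toFinset.2 (orb_spec _ (by omega) (even_two_mul b)).1) ha

abbrev Vr : Type := List ℕ × ℕ × Bool

def sm (e : ℕ) : List Vr → List ℕ → ℕ
  | x :: vs, k :: ms => k * x.1.getD e 0 + sm e vs ms
  | _, _ => 0

def wf : List Vr → Bool
  | [] => true
  | x :: vs => x.2.1 < 6 && 0 < x.1.getD x.2.1 0 && (!x.2.2 || vs.all fun y => y.1.getD x.2.1 0 == 0) &&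
      wf vs

def go (P : List ℕ → Bool) : List Vr → List ℕ → List ℕ → Bool
  | [], rem, acc => !((List.range 6).all fun e => rem.getD e 0 == 0) || P acc
  | x :: vs, rem, acc =>
    (if x.2.2 then [rem.getD x.2.1 0 / x.1.getD x.2.1 0]
      else List.range (rem.getD x.2.1 0 / x.1.getD x.2.1 0 + 1)).all fun k =>
      !((List.range 6).all fun e => k * x.1.getD e 0 ≤ rem.getD e 0) ||
        go P vs ((List.range 6).map fun e => rem.getD e 0 - k * x.1.getD e 0) (acc ++ [k])

theorem sm_zero (j : ℕ) : ∀ (vs : List Vr) (ms : List ℕ), (∀ y ∈ vs, y.1.getD j 0 = 0) → sm j vs ms = 0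
  | [], _, _ => rfl
  | _ :: _, [], _ => rfl
  | x :: vs, k :: ms, h => by
    rw [sm, h x (by simp), sm_zero j vs ms fun y hy => h y (by simp [hy]), mul_zero]

theorem go_sound (P : List ℕ → Bool) : ∀ (vs : List Vr) (ms rem acc : List ℕ), wf vs = true →
    ms.length = vs.length → (∀ e < 6, sm e vs ms = rem.getD e 0) → go P vs rem acc = true →
    P (acc ++ ms) = true
  | [], [], rem, acc, _, _, h, H => by
    rw [go, Bool.or_eq_true, Bool.not_eq_true', List.all_eq_false] at H
    rw [List.append_nil]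
    refine H.resolve_left fun ⟨e, he, k⟩ => k ?_
    rw [← h e (List.mem_range.1 he)]
    rfl
  | x :: vs, k :: ms, rem, acc, w, hl, h, H => by
    simp only [wf, Bool.and_eq_true, decide_eq_true_eq, Bool.or_eq_true, Bool.not_eq_true',
      List.all_eq_true, beq_iff_eq] at w
    obtain ⟨⟨⟨w1, w2⟩, w3⟩, w4⟩ := w
    simp only [sm] at h
    rw [go, List.all_eq_true] at H
    have H1 := H k (by
      have h1 := h _ w1
      split_ifs with hb
      · rw [sm_zero _ vs ms (w3.resolve_left (by simp [hb])), add_zero] at h1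
        rw [← h1, Nat.mul_div_cancel _ w2, List.mem_singleton]
      · exact List.mem_range.2 (Nat.lt_succ_of_le ((Nat.le_div_iff_mul_le w2).2 (by omega))))
    rw [Bool.or_eq_true, Bool.not_eq_true', List.all_eq_false] at H1
    have := go_sound P vs ms _ _ w4 (by simpa using hl) (fun e he => by
      have := h e he
      rw [List.getD_eq_getElem _ _ (by simpa using he), List.getElem_map, List.getElem_range]
      omega) (H1.resolve_left fun ⟨e, he, k⟩ => k (by
        have := h e (List.mem_range.1 he)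
        rw [decide_eq_true_eq]
        omega))
    simpa using this

def vs : List Vr := [([0, 2, 3, 3, 6, 4], 4, false), ([4, 3, 3, 3, 1, 3], 1, false),
  ([1, 2, 2, 2, 2, 2], 1, false), ([0, 1, 2, 2, 3, 1], 4, false), ([0, 1, 2, 2, 1, 0], 2, false),
  ([0, 1, 1, 2, 1, 1], 3, false), ([0, 1, 1, 0, 1, 3], 5, false), ([0, 0, 0, 0, 1, 1], 4, true),
  ([4, 2, 1, 1, 0, 0], 1, false), ([0, 1, 1, 0, 0, 0], 2, true), ([2, 1, 0, 0, 0, 1], 5, true),
  ([4, 1, 0, 0, 0, 0], 1, true), ([0, 0, 0, 1, 0, 0], 3, true), ([1, 0, 0, 0, 0, 0], 0, true)]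

def ws : List Vr := ([[32, 36, 40, 36], [28, 28, 24, 28], [21, 20, 20, 20], [20, 18, 16, 18],
  [8, 12, 16, 12], [16, 12, 8, 12], [8, 12, 16, 12], [6, 4, 2, 4], [12, 8, 8, 8], [0, 4, 8, 4],
  [6, 4, 4, 4], [4, 4, 0, 4], [4, 2, 0, 2], [1, 0, 0, 0]] : List (List ℕ)).map fun v => (v, 0, false)

def es : List ℕ := [0, 1, 2, 4, 7, 8]

def PP (ms : List ℕ) : Bool :=
  !((List.range 10).any fun j => (List.range 4).all fun e => sm e ws ms == pat4 j e) ||
    (List.range 10).any fun i => ms == reps.map (mm i)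

theorem PP_spec {ms : List ℕ} (h : PP ms = true) (k : ∃ j < 10, ∀ e < 4, sm e ws ms = pat4 j e) :
    ∃ i < 10, ms = reps.map (mm i) := by
  obtain ⟨j, hj, k⟩ := k
  simp only [PP, Bool.or_eq_true, Bool.not_eq_true', List.any_eq_false, List.any_eq_true,
    List.mem_range, beq_iff_eq, List.all_eq_true] at h
  exact h.resolve_left fun h => h j hj k

theorem search : ∀ i < 17, go PP vs (es.map (pat41 i)) [] = true := by decide +kernel

theorem sm_map (m c : ℕ → ℕ) (e : ℕ) : ∀ (l : List ℕ) (v : List Vr),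
    l.map c = v.map (fun x => x.1.getD e 0) → sm e v (l.map m) = (l.map fun a => m a * c a).sum
  | [], [], _ => rfl
  | a :: l, x :: v, h => by
    simp only [List.map_cons, List.cons.injEq] at h
    rw [List.map_cons, sm, sm_map m c e l v h.2, List.map_cons, List.sum_cons, h.1]

theorem co41 : ∀ e < 6, es.getD e 0 < 41 ∧
    reps.map (co 41 (es.getD e 0)) = vs.map fun x => x.1.getD e 0 := by decide +kernel

theorem co40 : ∀ e < 4, (reps.map fun a => ∑ k ∈ range 10, co 40 (4 * k + e) a) =
    ws.map fun x => x.1.getD e 0 := by decide +kernel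

theorem mm_orb : ∀ i < 10, ∀ r < 81, Even r → mm i (orb r) = mm i r := by decide +kernel

theorem enum : EnumStmt := by
  intro m h i hi hx j hj hy
  have k := go_sound PP vs (reps.map m) _ _ (by decide) (by simp [reps, vs]) (fun e he => by
    rw [sm_map m _ e _ _ (co41 e he).2, ← SE_eq h, hx _ (co41 e he).1]
    interval_cases e <;> rfl) (search i hi)
  obtain ⟨i', hi', e⟩ := PP_spec (ms := reps.map m) k ⟨j, hj, fun e he => by
    rw [sm_map m _ e _ _ (co40 e he), ← hy e he, ← List.sum_toFinset _ (by decide)]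
    simp only [SE_eq h, mul_sum]
    rw [sum_comm]
    exact sum_congr rfl fun j _ => List.sum_toFinset _ (by decide)⟩
  refine ⟨i', hi', fun r hr he => ?_⟩
  rw [m_orb h hr he, List.map_inj_left.1 e _ (orb_spec r hr he).1, mm_orb i' hi' r hr he]

end Cfsg.Agent.H36.L81Enum
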