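import Mathlib
import Cfsg.Agent.H36.McL2

set_option autoImplicit false
set_option linter.unusedSectionVars false

/-! One connected class of transvections. -/

namespace Cfsg.Agent.H36

open Module

variable {k V : Type*} [Field k] [AddCommGroup V] [Module k V]

/-- the evaluation pairing -/
abbrev ev (k V : Type*) [Field k] [AddCommGroup V] [Module k V] :
    Dual k V →ₗ[k] V →ₗ[k] k := LinearMap.id

/-- span of the axes -/
def axSp (C : V → Dual k V → Prop) : Submodule k (Dual k V) := cenSp k (fun φ v => C v φ)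

/-- common kernel of the axes -/
def kerSp (C : V → Dual k V → Prop) : Submodule k V := (axSp C).dualCoannihilator

/-- group generated by the transvections of the class -/
def KC (C : V → Dual k V → Prop) : Subgroup (V ≃ₗ[k] V) :=
  Subgroup.closure {g | ∃ v φ, C v φ ∧ IsTv g v φ}

variable {C : V → Dual k V → Prop}

theorem mem_kerSp {x : V} : x ∈ kerSp C ↔ ∀ v φ, C v φ → φ x = 0 := by
  rw [kerSp, Submodule.mem_dualCoannihilator]
  refine ⟨fun h v φ e => h φ (mem_cenSp (T := fun φ v => C v φ) e), fun h φ hφ => ?_⟩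
  by_contra hn
  obtain ⟨ψ, v, e1, e2⟩ := exists_ne_of_mem_cenSp (f := Module.Dual.eval k V x) hφ hn
  exact e2 (h v ψ e1)

theorem KC_sub_mem {g : V ≃ₗ[k] V} (hg : g ∈ KC C) (x : V) : g x - x ∈ cenSp k C := by
  induction hg using Subgroup.closure_induction generalizing x with
  | one => simp
  | mem g hg =>
    obtain ⟨v, φ, e1, e2⟩ := hg
    rw [e2]; simpa using Submodule.smul_mem _ _ (mem_cenSp e1)
  | mul a b _ _ ha hb => simpa using Submodule.add_mem _ (ha (b x)) (hb x)
  | inv a _ ha => simpa using Submodule.neg_mem _ (ha (a⁻¹ x))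

theorem KC_fix {g : V ≃ₗ[k] V} (hg : g ∈ KC C) {x : V} (hx : x ∈ kerSp C) : g x = x := by
  induction hg using Subgroup.closure_induction with
  | one => simp
  | mem g hg =>
    obtain ⟨v, φ, e1, e2⟩ := hg
    rw [e2, mem_kerSp.mp hx v φ e1]; simp
  | mul a b _ _ ha hb => simp [ha, hb]
  | inv a _ ha => rw [LinearEquiv.coe_inv, LinearEquiv.symm_apply_eq, ha]

theorem KC_mem {g : V ≃ₗ[k] V} (hg : g ∈ KC C) {x : V} (hx : x ∈ cenSp k C) : g x ∈ cenSp k C := by
  simpa using Submodule.add_mem _ (KC_sub_mem hg x) hx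

theorem KC_map {g : V ≃ₗ[k] V} (hg : g ∈ KC C) :
    (cenSp k C).map (g : V →ₗ[k] V) = cenSp k C := by
  apply le_antisymm
  · rintro _ ⟨x, hx, rfl⟩; exact KC_mem hg hx
  · intro x hx
    exact ⟨g⁻¹ x, KC_mem ((KC C).inv_mem hg) hx, by simp⟩

/-- restriction to the span of the centres -/
noncomputable def KCres (C : V → Dual k V → Prop) : KC C →* (cenSp k C ≃ₗ[k] cenSp k C) :=
  MonoidHom.mk' (fun g => LinearEquiv.ofSubmodules (g : V ≃ₗ[k] V) _ _ (KC_map g.2))
    (fun _ _ => LinearEquiv.ext fun _ => Subtype.ext rfl)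

theorem KCres_apply (g : KC C) (x : cenSp k C) : (KCres C g x : V) = (g : V ≃ₗ[k] V) x := rfl

theorem KCres_range_le (G : Subgroup (cenSp k C ≃ₗ[k] cenSp k C))
    (hG : ∀ v φ (_ : C v φ) (f : cenSp k C ≃ₗ[k] cenSp k C), (∀ x, (f x : V) = x + φ x • v) → f ∈ G) :
    (KCres C).range ≤ G := by
  rintro _ ⟨⟨g, hg⟩, rfl⟩
  induction hg using Subgroup.closure_induction with
  | one => exact (map_one (KCres C)) ▸ G.one_mem
  | mem g hg =>
    obtain ⟨v, φ, e1, e2⟩ := hg
    exact hG v φ e1 _ fun x => e2 x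
  | mul a b ha hb ha' hb' =>
    exact (map_mul (KCres C) ⟨a, ha⟩ ⟨b, hb⟩) ▸ G.mul_mem ha' hb'
  | inv a ha ha' => exact (map_inv (KCres C) ⟨a, ha⟩) ▸ G.inv_mem ha'

theorem mem_KCres_range {v : V} {φ : Dual k V} (h : C v φ) (h0 : φ v = 0)
    (f : cenSp k C ≃ₗ[k] cenSp k C) (hf : ∀ x, (f x : V) = x + φ x • v) : f ∈ (KCres C).range :=
  ⟨⟨LinearEquiv.transvection h0, Subgroup.subset_closure ⟨v, φ, h, fun _ => rfl⟩⟩,
    LinearEquiv.ext fun x => Subtype.ext (hf x).symm⟩

variable [FiniteDimensional k V] (h : TV (ev k V) C) (hc : Conn (ev k V) C)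
include h hc

theorem TV.axis {θ : Dual k V} (hθ : θ ∈ axSp C) (h0 : θ ≠ 0) : ∃ y, C y θ :=
  h.flip.centre hc.flip hθ h0

theorem TV.isCompl : IsCompl (cenSp k C) (kerSp C) := by
  constructor
  · rw [Submodule.disjoint_def]
    intro u hu hz
    by_contra hn
    obtain ⟨χ, e⟩ := h.centre hc hu hn
    obtain ⟨x, ξ, e1, e2, -⟩ := h.opp e
    exact e2 (mem_kerSp.mp hz x ξ e1)
  · rw [codisjoint_iff, ← Submodule.dualAnnihilator_eq_bot_iff, Submodule.dualAnnihilator_sup_eq,
      kerSp, Subspace.dualCoannihilator_dualAnnihilator_eq, eq_bot_iff]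
    rintro θ ⟨h1, h2⟩
    by_contra hn
    obtain ⟨y, e⟩ := h.axis hc h2 hn
    obtain ⟨x, ξ, e1, -, e2⟩ := h.opp e
    exact e2 ((Submodule.mem_dualAnnihilator θ).mp h1 x (mem_cenSp e1))

theorem TV.range_SL [Finite V] {u : V} (h2 : Two k C u) :
    ((KCres C).range : Set (cenSp k C ≃ₗ[k] cenSp k C)) =
      {f : cenSp k C ≃ₗ[k] cenSp k C | LinearMap.det (f : cenSp k C →ₗ[k] cenSp k C) = 1} := by
  apply Set.Subset.antisymm
  · intro f hf
    have := KCres_range_le (C := C) LinearEquiv.det.ker (fun v φ e f hf => by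
      have h0 : (φ ∘ₗ (cenSp k C).subtype) ⟨v, mem_cenSp e⟩ = 0 := h.zero e
      have : f = LinearEquiv.transvection h0 := LinearEquiv.ext fun x => Subtype.ext (hf x)
      rw [this, MonoidHom.mem_ker, LinearEquiv.transvection.det_eq_one]) hf
    rw [MonoidHom.mem_ker] at this
    simpa using congrArg Units.val this
  · intro f hf
    refine det_one_mem_of_transv _ (fun θ w h0 => ?_) f hf
    by_cases hw : w = 0
    · subst hw; rw [LinearEquiv.transvection.of_right_eq_zero]; exact Subgroup.one_mem _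
    by_cases hθ : θ = 0
    · subst hθ; rw [LinearEquiv.transvection.of_left_eq_zero]; exact Subgroup.one_mem _
    let θ' : Dual k V := θ ∘ₗ (cenSp k C).projectionOnto (kerSp C) (h.isCompl hc)
    have e1 : ∀ x : cenSp k C, θ' x = θ x := fun x => by
      simp [θ', Submodule.projectionOnto_apply_left]
    have e2 : θ' ∈ axSp C := by
      rw [← Subspace.dualCoannihilator_dualAnnihilator_eq (W := axSp C),
        Submodule.mem_dualAnnihilator]
      intro x hx
      simp [θ', Submodule.projectionOnto_apply_of_mem_right (h.isCompl hc) hx]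
    have e3 : θ' ≠ 0 := fun e => hθ (LinearMap.ext fun x => by rw [← e1, e]; rfl)
    obtain ⟨y, hy⟩ := h.axis hc e2 e3
    have e4 : θ' w = 0 := by rw [e1, h0]
    have e5 := h.full hc h2 hy w.2 (fun e => hw (Subtype.ext e)) e4
    exact mem_KCres_range e5 e4 _ fun x => by rw [e1]; rfl

theorem TV.range_Sp (h2 : ∀ u, ¬ Two k C u) :
    ∃ B : LinearMap.BilinForm k (cenSp k C), B.IsAlt ∧ B.Nondegenerate ∧
      ((KCres C).range : Set (cenSp k C ≃ₗ[k] cenSp k C)) =
        {f : cenSp k C ≃ₗ[k] cenSp k C | ∀ x y, B (f x) (f y) = B x y} := by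
  obtain ⟨f, f1, f2⟩ := h.exists_alt h2 hc
  simp only [LinearMap.id_apply] at f2
  let B : LinearMap.BilinForm k (cenSp k C) := LinearMap.mk₂ k (fun u w => f u w)
    (fun u u' w => by
      rw [f2 _ (u + u').2 _ w.2, f2 _ u.2 _ w.2, f2 _ u'.2 _ w.2]; simp; ring)
    (fun c u w => by rw [f2 _ (c • u).2 _ w.2, f2 _ u.2 _ w.2]; simp)
    (fun u w w' => by simp) (fun c u w => by simp)
  have hB : ∀ u w, B u w = f u w := fun _ _ => rfl
  have hA : B.IsAlt := fun u => by
    rw [hB]
    by_cases hu : (u : V) = 0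
    · rw [hu, map_zero]
    · exact h.zero (f1 _ u.2 hu)
  have hN : B.Nondegenerate := by
    refine hA.isRefl.nondegenerate_iff_separatingLeft.mpr fun u hu => ?_
    by_contra hn
    obtain ⟨x, ξ, e1, -, e2⟩ := h.opp (f1 _ u.2 fun e => hn (Subtype.ext e))
    exact e2 (hu ⟨x, mem_cenSp e1⟩)
  refine ⟨B, hA, hN, Set.Subset.antisymm ?_ ?_⟩
  · refine KCres_range_le (C := C) (H27.isomGroup B) fun v φ e g hg => ?_
    obtain ⟨c, rfl⟩ := h.prop h2 (f1 v (mem_cenSp e) (h.ne1 e)) e
    convert H27.altTv_mem_isomGroup hA ⟨v, mem_cenSp e⟩ (-c) using 1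
    refine LinearEquiv.ext fun x => Subtype.ext ?_
    rw [hg, H27.altTv_apply, hB]
    simp [f2 _ x.2 _ (mem_cenSp e)]
  · refine H27.isomGroup_le_of_altTv_mem hN hA _ fun w c => ?_
    by_cases hw : (w : V) = 0
    · convert Subgroup.one_mem _ using 1
      refine LinearEquiv.ext fun x => Subtype.ext ?_
      rw [H27.altTv_apply]; simp [hw]
    by_cases hc0 : c = 0
    · rw [hc0, H27.altTv_zero]; exact Subgroup.one_mem _
    have e := h.smul2 (f1 _ w.2 hw) (neg_ne_zero.mpr hc0)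
    refine mem_KCres_range e (h.zero e) _ fun x => ?_
    rw [H27.altTv_apply, hB]
    simp [f2 _ x.2 _ w.2]

end Cfsg.Agent.H36
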