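import Cfsg.Agent.H71.P3Defs

/-!
# Project P3, pieces FR and SPR: no invariant spread of hyperbolic lines
-/

set_option autoImplicit false

namespace Cfsg.Agent.H36.P3Spr

open Cfsg Module Cfsg.Agent.H27 Cfsg.Agent.H71.P3
open scoped Pointwise

theorem fr : FrStmt := by
  classical
  intro P _ r p hp h2 sy ir hc hn
  have := Fintype.ofFinite P
  have := Fact.mk hp
  let A : Matrix P P (ZMod p) := Matrix.of fun a b => if r a b then 1 else 0
  let J : Matrix P P (ZMod p) := Matrix.of fun _ _ => 1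
  have cast : ∀ n : ℕ, n % p = 1 → (n : ZMod p) = 1 := fun n h => by
    rw [← ZMod.natCast_mod, h, Nat.cast_one]
  have key : ∀ a b, ∑ c, (if r a c ∧ r b c then (1 : ZMod p) else 0) = 1 := fun a b => by
    rw [Finset.sum_boole, ← cast _ (hn a b), Set.ncard_eq_toFinset_card']
    congr 2
    ext c
    simp
  have h1 : A * A = J := by
    ext a b
    rw [Matrix.mul_apply, show J a b = 1 from rfl, ← key a b]
    refine Finset.sum_congr rfl fun c _ => ?_
    have : r c b ↔ r b c := ⟨sy _ _, sy _ _⟩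
    by_cases h : r a c <;> by_cases h' : r b c <;> simp [A, h, h', this]
  have h3 : A * J = J := by
    ext a b
    rw [Matrix.mul_apply, show J a b = 1 from rfl, ← key a a]
    refine Finset.sum_congr rfl fun c _ => ?_
    simp [A, J]
  have h4 : ∀ n, A ^ (n + 2) = J := fun n => by
    induction n with
    | zero => rw [zero_add, pow_two, h1]
    | succ n ih => rw [add_right_comm, pow_succ', ih, h3]
  have h5 := ZMod.trace_pow_card A
  have h6 : A.trace = 0 := by simp [Matrix.trace, A, ir]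
  have h7 : J.trace = 1 := by
    rw [← cast _ hc, Nat.card_eq_fintype_card]
    simp [Matrix.trace, J]
  obtain ⟨n, hn⟩ := Nat.exists_eq_add_of_le' hp.two_le
  have h8 : A ^ p = J := by
    have := h4 n
    rwa [← hn] at this
  rw [h8, h7, h6, zero_pow hp.ne_zero] at h5
  exact one_ne_zero h5

variable {F V : Type} [Field F] [AddCommGroup V] [Module F V] (S : Sp F V)

theorem skew (u v : V) : S.B u v = -S.B v u := (S.alt.neg_eq v u).symm

/-- the decomposition along a hyperbolic line -/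
theorem exists_dec {l : Submodule F V} (h : S.Hyp l) (y : V) :
    ∃ a ∈ l, ∀ s ∈ l, S.B (y - a) s = 0 := by
  obtain ⟨u, w, e, rfl⟩ := h
  refine ⟨S.B y w • u - S.B y u • w, sub_mem
    (Submodule.smul_mem _ _ (Submodule.subset_span (by simp)))
    (Submodule.smul_mem _ _ (Submodule.subset_span (by simp))), fun s hs => ?_⟩
  obtain ⟨a, b, rfl⟩ := Submodule.mem_span_pair.1 hs
  have e' : S.B w u = -1 := by rw [skew, e]
  simp [e, e', S.alt.self_eq_zero]
  ring

theorem mem_of_perp {l : Submodule F V} (h : S.Hyp l) {v : V}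
    (hv : ∀ t, (∀ s ∈ l, S.B t s = 0) → S.B t v = 0) : v ∈ l := by
  obtain ⟨a, ha, h1⟩ := exists_dec S h v
  have : v - a = 0 := S.nd.1 _ fun t => by
    obtain ⟨b, hb, h2⟩ := exists_dec S h t
    have h3 : S.B (t - b) (v - a) = 0 := by rw [map_sub, hv _ h2, h2 a ha, sub_zero]
    rw [show t = t - b + b by abel, map_add, h1 b hb, skew, h3, neg_zero, add_zero]
  rwa [sub_eq_zero.1 this]

theorem hyp_ne {l : Submodule F V} (h : S.Hyp l) : ∃ u ∈ l, ∃ w ∈ l, S.B u w = 1 := by
  obtain ⟨u, w, e, rfl⟩ := h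
  exact ⟨u, Submodule.subset_span (by simp), w, Submodule.subset_span (by simp), e⟩

theorem hyp_dim {l : Submodule F V} (h : S.Hyp l) : finrank F l ≤ 2 := by
  classical
  obtain ⟨u, w, -, rfl⟩ := h
  refine (finrank_span_le_card _).trans ?_
  rw [Set.toFinset_insert, Set.toFinset_singleton]
  exact Finset.card_le_two

omit S in
theorem cast_card [Finite F] [Finite V] {W : Submodule F V} (h : W ≠ ⊥) :
    (({v | v ∈ W ∧ v ≠ 0}.ncard : ℕ) : ZMod (ringChar F)) = -1 := by
  have h1 : Nat.card W = {v | v ∈ W ∧ v ≠ 0}.ncard + 1 := by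
    rw [← Set.ncard_insert_of_notMem (a := (0 : V)) (by simp), ← Nat.card_coe_set_eq]
    refine Nat.card_congr (Equiv.setCongr ?_)
    ext v
    by_cases hv : v = 0 <;> simp [hv]
  have h2 : ringChar F ∣ Nat.card W := by
    have := Fintype.ofFinite F
    rw [Module.natCard_eq_pow_finrank (K := F)]
    refine dvd_pow ?_ (fun e => h (Submodule.finrank_eq_zero.1 e))
    rw [← ringChar.spec, Nat.card_eq_fintype_card]
    exact FiniteField.cast_card_eq_zero F
  have h3 := (ZMod.natCast_eq_zero_iff _ _).2 h2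
  rw [h1, Nat.cast_succ] at h3
  exact eq_neg_of_add_eq_zero_left h3

omit S in
/-- counting the members of a partial spread that fill a subspace -/
theorem count [Finite F] [Finite V] {T : Submodule F V → Prop} (h0 : ∀ l, T l → l ≠ ⊥)
    (hd : ∀ l m, T l → T m → l ≠ m → l ⊓ m = ⊥) {D : Submodule F V} (hD : D ≠ ⊥)
    (h : ∀ x ∈ D, x ≠ 0 → ∃ m, T m ∧ x ∈ m ∧ m ≤ D) :
    {c : {m // T m} | c.1 ≤ D}.ncard % ringChar F = 1 := by
  classical
  have : Finite (Submodule F V) := Finite.of_injective _ SetLike.coe_injective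
  have := Fintype.ofFinite V
  have := Fintype.ofFinite {m // T m}
  have hp := CharP.char_is_prime F (ringChar F)
  have h1 : (Finset.univ.filter fun v => v ∈ D ∧ v ≠ 0) =
      (Finset.univ.filter fun c : {m // T m} => c.1 ≤ D).biUnion
        fun c => Finset.univ.filter fun v => v ∈ c.1 ∧ v ≠ 0 := by
    ext v
    simp only [Finset.mem_filter, Finset.mem_univ, true_and, Finset.mem_biUnion]
    refine ⟨fun hv => ?_, fun ⟨c, hc, hv⟩ => ⟨hc hv.1, hv.2⟩⟩
    obtain ⟨m, hm, h1, h2⟩ := h v hv.1 hv.2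
    exact ⟨⟨m, hm⟩, h2, h1, hv.2⟩
  have h2 := congrArg Finset.card h1
  rw [Finset.card_biUnion (fun a _ b _ hab => Finset.disjoint_left.2 fun v ha hb => by
    simp only [Finset.mem_filter, Finset.mem_univ, true_and] at ha hb
    have := hd _ _ a.2 b.2 fun e => hab (Subtype.ext e)
    exact ha.2 ((Submodule.eq_bot_iff _).1 this v ⟨ha.1, hb.1⟩))] at h2
  have h3 : ∀ W : Submodule F V, W ≠ ⊥ →
      (((Finset.univ.filter fun v => v ∈ W ∧ v ≠ 0).card : ℕ) : ZMod (ringChar F)) = -1 :=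
    fun W hW => by
      rw [← cast_card hW, Set.ncard_eq_toFinset_card']
      congr 2
      ext v
      simp
  have h4 := congrArg (Nat.cast (R := ZMod (ringChar F))) h2
  rw [h3 D hD, Nat.cast_sum, Finset.sum_congr rfl fun c _ => h3 c.1 (h0 _ c.2), Finset.sum_const,
    smul_neg, neg_inj, nsmul_eq_mul, mul_one] at h4
  rw [Set.ncard_eq_toFinset_card', show ({c : {m // T m} | c.1 ≤ D}.toFinset) =
    Finset.univ.filter fun c : {m // T m} => c.1 ≤ D by ext c; simp,
    ← Nat.mod_eq_of_lt hp.one_lt]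
  exact (ZMod.natCast_eq_natCast_iff' _ 1 _).1 (by rw [← h4, Nat.cast_one])

theorem spr (fr : FrStmt) : SprStmt := by
  intro F V _ _ _ _ _ S K hK pt T ⟨l₀, hl₀⟩ hy inv hd hg
  have : Finite (Submodule F V) := Finite.of_injective _ SetLike.coe_injective
  have h0 : ∀ l, T l → l ≠ ⊥ := fun l hl e => by
    obtain ⟨u, hu, w, -, e'⟩ := hyp_ne S (hy l hl)
    rw [e, Submodule.mem_bot] at hu
    simp [hu] at e'
  have uniq : ∀ l m, T l → T m → ∀ x, x ≠ 0 → x ∈ l → x ∈ m → l = m := fun l m hl hm x hx h1 h2 =>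
    by_contra fun e => hx ((Submodule.eq_bot_iff _).1 (hd l m hl hm e) x ⟨h1, h2⟩)
  have ex : ∀ x, x ≠ 0 → ∃ m, T m ∧ x ∈ m := fun x hx => by
    obtain ⟨u, hu, hu0⟩ := (Submodule.ne_bot_iff _).1 (h0 _ hl₀)
    obtain ⟨g, hgK, c, e⟩ := pt u x hu0 hx
    have hc : c ≠ 0 := fun h => hu0 (by simpa [h] using e)
    exact ⟨_, inv g hgK _ hl₀, (Submodule.smul_mem_iff _ hc).1 (e ▸ smul_mem_smul.2 hu)⟩
  have perp : ∀ l m, T l → T m → ∀ x ∈ m, x ≠ 0 → (∀ s ∈ l, S.B x s = 0) →
      ∀ y ∈ m, ∀ s ∈ l, S.B y s = 0 := fun l m hl hm x hx hx0 hp y hym => by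
    obtain ⟨g, hgK, hs, hf⟩ := hg l hl
    have gx := hs x hp
    have gm : g • m = m := uniq _ _ (inv g hgK _ hm) hm x hx0 (gx ▸ smul_mem_smul.2 hx) hx
    have ne : l ≠ m := fun e => hx0 (hf x (e ▸ hx) gx)
    obtain ⟨a, ha, h1⟩ := exists_dec S (hy l hl) y
    have ga : g a ∈ l := mem_of_perp S (hy l hl) fun t ht => by
      rw [← hs t ht, hK hgK, ht a ha]
    have e1 : g y - y = g a - a := by
      have := hs _ h1
      rw [map_sub, sub_eq_sub_iff_sub_eq_sub] at this
      exact this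
    have e2 : g a - a = 0 := (Submodule.eq_bot_iff _).1 (hd l m hl hm ne) _
      ⟨sub_mem ga ha, e1 ▸ sub_mem (gm ▸ smul_mem_smul.2 hym) hym⟩
    rw [hf a ha (sub_eq_zero.1 e2), sub_zero] at h1
    exact h1
  have hk := S.hk
  refine fr {m // T m} (fun a b => ∀ u ∈ a.1, ∀ v ∈ b.1, S.B u v = 0) (ringChar F)
    (CharP.char_is_prime F _) (fun e => S.two_ne_zero ?_)
    (fun a b h u hu v hv => by rw [skew, h v hv u hu, neg_zero]) (fun a h => ?_) ?_ fun a b => ?_
  · exact_mod_cast (ringChar.spec F 2).2 (e ▸ dvd_rfl)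
  · obtain ⟨u, hu, w, hw, e⟩ := hyp_ne S (hy _ a.2)
    exact one_ne_zero (e.symm.trans (h u hu w hw))
  · have := count h0 hd (D := ⊤) (fun e => h0 _ hl₀ (eq_bot_iff.2 (e ▸ le_top))) fun x _ hx =>
      (ex x hx).imp fun m h => ⟨h.1, h.2, le_top⟩
    simpa using this
  · have hD : S.B.orthogonal (a.1 ⊔ b.1) ≠ ⊥ := fun e => by
      have h1 := LinearMap.BilinForm.finrank_orthogonal S.nd (a.1 ⊔ b.1)
      have h2 := Submodule.finrank_add_le_finrank_add_finrank a.1 b.1
      have h3 := hyp_dim S (hy _ a.2)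
      have h4 := hyp_dim S (hy _ b.2)
      rw [e, finrank_bot, S.dim] at h1
      omega
    have mem : ∀ x, x ∈ S.B.orthogonal (a.1 ⊔ b.1) ↔
        (∀ s ∈ a.1, S.B s x = 0) ∧ ∀ s ∈ b.1, S.B s x = 0 := fun x =>
      ⟨fun h => ⟨fun s hs => h s (Submodule.mem_sup_left hs),
        fun s hs => h s (Submodule.mem_sup_right hs)⟩, fun h s hs => by
        obtain ⟨y, hy, z, hz, rfl⟩ := Submodule.mem_sup.1 hs
        rw [map_add, LinearMap.add_apply, h.1 y hy, h.2 z hz, add_zero]⟩
    have sw : ∀ {u v : V}, S.B u v = 0 → S.B v u = 0 := fun h => by rw [skew, h, neg_zero]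
    have := count h0 hd hD fun x hx hx0 => (ex x hx0).imp fun m h => ⟨h.1, h.2, fun y hy =>
      (mem y).2 ⟨fun s hs => sw (perp _ _ a.2 h.1 x h.2 hx0
        (fun s hs => sw (((mem x).1 hx).1 s hs)) y hy s hs),
        fun s hs => sw (perp _ _ b.2 h.1 x h.2 hx0
        (fun s hs => sw (((mem x).1 hx).2 s hs)) y hy s hs)⟩⟩
    convert this using 3
    ext c
    exact ⟨fun h y hy => (mem y).2 ⟨fun s hs => h.1 s hs y hy, fun s hs => h.2 s hs y hy⟩,
      fun h => ⟨fun s hs y hy => ((mem y).1 (h hy)).1 s hs,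
        fun s hs y hy => ((mem y).1 (h hy)).2 s hs⟩⟩

theorem spr' : SprStmt := spr fr

end Cfsg.Agent.H36.P3Spr
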