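import Cfsg.Agent.H54.RfKitP

/-! # Standard subgroups of type `²F₄(q)`: normalisation of `e` and vanishing of `ε` -/

set_option autoImplicit false
set_option linter.unusedSimpArgs false
set_option linter.unnecessarySeqFocus false
set_option linter.unusedSectionVars false

namespace Cfsg.Agent.H36.RfE

open Cfsg Cfsg.Agent.H15.O8 Cfsg.Agent.H39 Cfsg.Agent.H36.O8T Cfsg.Agent.H54.RF Subgroup
open scoped commutatorElement

universe u v

variable {K : Type v} [Field K] {T : Tits K} {G : Type u} [Group G] {M : FF T G} {t : G}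
  {p r : K → G}

theorem θ_fix {a : K} (h : T.θ a = a) : a = 0 ∨ a = 1 := by
  have h2 := T.θθ a
  rw [h, h] at h2
  exact (mul_eq_zero.1 (show a * (a - 1) = 0 by linear_combination -h2)).imp_right sub_eq_zero.1

theorem exists_lam [Finite K] (e : K) : ∃ l : K, e + l + T.θ l = 0 ∨ e + l + T.θ l = 1 := by
  have := T.charP
  let f : K →+ K := AddMonoidHom.id K + T.θ.toAddMonoidHom
  have hf : ∀ a, f a = a + T.θ a := fun a => rfl
  have hk : (f.ker : Set K) = {0, 1} := Set.ext fun a =>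
    ⟨fun h => θ_fix (T := T) (by have : a + T.θ a = 0 := h; grind), by
      rintro (rfl | rfl)
      · exact map_zero f
      · change (1 : K) + T.θ 1 = 0
        rw [map_one]; grind⟩
  have hi : f.range.index = 2 := by
    rw [AddSubgroup.index_range, ← SetLike.coe_sort_coe, hk, Nat.card_coe_set_eq,
      Set.ncard_pair zero_ne_one]
  have h1 : (1 : K) ∉ f.range := by
    rintro ⟨a, ha⟩
    rw [hf] at ha
    have h2 := congrArg T.θ ha
    rw [map_add, T.θθ, map_one] at h2
    rcases mul_eq_zero.1 (show a * (a - 1) = 0 by linear_combination h2 - ha) with h | h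
    · rw [h, map_zero, add_zero] at ha
      exact zero_ne_one ha
    · rw [sub_eq_zero.1 h, map_one] at ha
      exact one_ne_zero (by linear_combination ha)
  by_cases he : e ∈ f.range
  · obtain ⟨l, hl⟩ := he
    rw [hf] at hl
    exact ⟨l, .inl (by grind)⟩
  · obtain ⟨l, hl⟩ := (AddSubgroup.add_mem_iff_of_index_two hi).2 (iff_of_false he h1)
    rw [hf] at hl
    exact ⟨l, .inr (by grind)⟩

theorem x2V (a : K) : x2 T a ∈ V T := by o8s
theorem x3V (a : K) : x3 T a ∈ V T := by o8s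
theorem x4V (a : K) : x4 T a ∈ V T := by o8s
theorem x5V (a : K) : x5 T a ∈ V T := by o8s
theorem x6V (a : K) : x6 T a ∈ V T := by o8s

theorem cVV {v w : U T} (hv : v ∈ V T) (hw : w ∈ V T) : Commute (M.φ v) (M.φ w) := by
  have h := sqV _ (mul_mem hv hw)
  refine (φ_comm M).2 ?_
  rw [← inv_eq_of_mul_eq_one_right h, mul_inv_rev, inv_eq_of_mul_eq_one_right (sqV _ hv),
    inv_eq_of_mul_eq_one_right (sqV _ hw)]

section
variable (h : HR M t p r) {v : U T} (hv : v ∈ V T)
include h hv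

theorem v2 (a : K) : Commute (P2 M p a) (M.φ v) := h.cen2 a ⟨hv.2.2.2.2.2.1, hv.2.2.2.2.2.2⟩ hv.2.2.2.2.1
theorem v3 (a : K) : Commute (P3 M r a) (M.φ v) := h.cen3 a ⟨hv.2.2.2.2.2.1, hv.2.2.2.2.2.2⟩ hv.2.2.2.1
theorem v5 (a : K) : Commute (r a) (M.φ v) := h.rcen a v ⟨hv.2.1, hv.2.2.2.2.2.1⟩
theorem v6 (a : K) : Commute (P6 M p a) (M.φ v) := h.cen6 a hv.1

theorem s3 (a : K) (k : G) : M.φ v * (P3 M r a * k) = P3 M r a * (M.φ v * k) :=
  (v3 h hv a).symm.left_comm k
theorem s5 (a : K) (k : G) : M.φ v * (r a * k) = r a * (M.φ v * k) := (v5 h hv a).symm.left_comm k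
theorem s6 (a : K) (k : G) : M.φ v * (P6 M p a * k) = P6 M p a * (M.φ v * k) :=
  (v6 h hv a).symm.left_comm k
omit hv in
theorem s4 (a : K) (k : G) : M.φ v * (p a * k) = p a * (M.φ v * k) := (h.pφ a v).symm.left_comm k

end

theorem conj_split (k a b : G) : k * (a * b) * k⁻¹ = k * a * k⁻¹ * (k * b * k⁻¹) := by group

set_option maxHeartbeats 1000000 in
theorem norm : NormStmt.{u, v} := by
  intro K _ _ T G _ _ M t c p r e h a1
  obtain ⟨l, hl⟩ := exists_lam (T := T) e
  let p' : K → G := fun a => p a * M.φ (x4 T (l * a))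
  let r' : K → G := fun a => r a * M.φ (x5 T (l * a))
  have e6 : ∀ a, P6 M p' a = P6 M p a * M.φ (x6 T (l * a)) := fun a => by
    simp only [P6, p', conj_mul' M.n1n1, n1_x4]
  have e2 : ∀ a, P2 M p' a = P2 M p a * M.φ (x2 T (l * a)) := fun a => by
    simp only [P2, e6, conj_mul' M.n8n8, n8_x6]
  have e3 : ∀ a, P3 M r' a = P3 M r a * M.φ (x3 T (l * a)) := fun a => by
    simp only [P3, r', conj_mul' M.n8n8, n8_x5]
  have cm : ∀ {a b : G} {v w : U T}, v ∈ V T → w ∈ V T → Commute a b → Commute a (M.φ w) →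
      Commute b (M.φ v) → Commute (a * M.φ v) (b * M.φ w) := fun hv hw h1 h2 h3 =>
    (h1.mul_right h2).mul_left (h3.symm.mul_right (cVV hv hw))
  have mv : ∀ (g : G) (v : U T), g * M.φ v * t * (g * M.φ v)⁻¹ = g * t * g⁻¹ := fun g v => by
    rw [mul_assoc g, (c.tφ v).eq]; group
  refine ⟨p', r', e + l + T.θ l, ⟨⟨fun a b => ?_, fun a => (mv _ _).trans (h.mov a), fun a k hk => ?_,
    fun a k hk => (h.odd a k hk).mul_left (hk.φ _).symm, fun d a => ?_, fun a b => ?_, fun a u => ?_⟩,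
    fun a b => ?_, fun a => (mv _ _).trans (h.rmov a), fun a u hu => ?_, fun a => ?_,
    fun a k hk => (h.rodd a k hk).mul_left (hk.φ _).symm, fun d a => ?_, fun w a => ?_,
    fun a b => cm (x4V _) (x5V _) (h.c45 a b) (h.pφ _ _) (v5 h (x4V _) _), fun a b => ?_,
    fun a b => ?_, fun a b => ?_⟩, ⟨fun u a => ?_, fun u a => ?_, fun u a => ?_, fun u a => ?_⟩, hl⟩
  · simp only [p', h.add, mul_add, x4_add, map_mul, mul_assoc, s4 h]
  · exact (h.cen a k hk).mul_left (M.cf.cZ hk _ ⟨_, x4_mem _, rfl⟩)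
  · simp only [p']
    rw [conj_split, h.tor, M.hφ, tor_x4, mul_left_comm l]
  · rw [e6]
    exact cm (x4V _) (x6V _) (h.c46 a b) (h.pφ _ _) (v6 h (x4V _) _)
  · simp only [e6, p']
    rw [conj_split, h.line]
    simp only [mul_assoc, s4 h, ← map_mul, ← map_inv]
    congr 3
    ext <;> o8s <;> o8ring T
  · simp only [r', h.radd, mul_add, x5_add, map_mul, mul_assoc, s5 h (x5V _)]
  · refine (h.rcen a u hu).mul_left ((φ_comm M).2 ?_)
    obtain ⟨k1, k2⟩ := hu
    ext <;> o8s <;> (try simp only [k1, k2]) <;> o8ring T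
  · refine (h.rn1 a).mul_left ?_
    have := n1_x5 M (l * a)
    rw [← n1_inv M.toPF, mul_inv_eq_iff_eq_mul, n1_inv M.toPF] at this
    exact this.symm
  · simp only [r']
    rw [conj_split, h.rtor, M.hφ, tor_x5, mul_left_comm l]
  · simp only [r', p']
    rw [conj_split, h.ry2]
    simp only [mul_assoc, s4 h, ← map_mul, ← map_inv]
    congr 3
    ext <;> o8s <;> o8ring T
  · rw [e2]
    exact cm (x2V _) (x5V _) (h.c25 a b) (v2 h (x5V _) _) (v5 h (x2V _) _)
  · rw [e2, e6]
    exact cm (x2V _) (x6V _) (h.c26 a b) (v2 h (x6V _) _) (v6 h (x2V _) _)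
  · rw [e3]
    exact cm (x3V _) (x5V _) (h.c35 a b) (v3 h (x5V _) _) (v5 h (x3V _) _)
  · simp only [e2, e6, p', r']
    rw [conj_split, a1.x8P2]
    simp only [mul_assoc, s4 h, s5 h (x2V _), s5 h (x4V _), s6 h (x2V _), s6 h (x4V _), s6 h (x5V _)]
    simp only [← map_mul, ← map_inv]
    congr 5
    ext <;> o8s <;> o8ring T
  · simp only [e3, e6]
    rw [conj_split, a1.x8P3]
    simp only [mul_assoc, s6 h (x3V _)]
    simp only [← map_mul, ← map_inv]
    congr 3
    ext <;> o8s <;> o8ring T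
  · simp only [e3, p', r']
    rw [conj_split, a1.y8P3]
    simp only [mul_assoc, s4 h, s5 h (x3V _), s5 h (x4V _)]
    simp only [← map_mul, ← map_inv]
    congr 4
    ext <;> o8s <;> o8ring T
  · simp only [e2, e3, e6, r']
    rw [conj_split, a1.y8P2]
    simp only [mul_assoc, s3 h (x2V _), s5 h (x2V _), s5 h (x3V _), s6 h (x2V _), s6 h (x3V _),
      s6 h (x5V _)]
    simp only [← map_mul, ← map_inv]
    congr 5
    ext <;> o8s <;> o8ring T

theorem rot_mul (k : ℤ) (a b : G) : rot M.toPF k (a * b) = rot M.toPF k a * rot M.toPF k b := by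
  simp only [rot]; group

theorem rot_conj (k : ℤ) (a b : G) :
    rot M.toPF k (a * b * a⁻¹) = rot M.toPF k a * rot M.toPF k b * (rot M.toPF k a)⁻¹ := by
  simp only [rot]; group

theorem rot_comm {a b : G} (h : Commute a b) (k : ℤ) : Commute (rot M.toPF k a) (rot M.toPF k b) :=
  comm_conj h _

theorem rot_t (c : Ctx M t) (k : ℤ) (g : G) : t * rot M.toPF k (t * g * t) * t = rot M.toPF k g := by
  have h : Commute (rho M.toPF ^ k) t := (c.tn1.mul_left c.tn8).zpow_left k
  have e : rot M.toPF k t = t := conj_eq_iff.2 h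
  rw [rot_mul, rot_mul, e, conj_conj' c.tt]

theorem rot_x51 (a : K) : rot M.toPF 6 (M.φ (x5 T a)) = M.φ (x1 T a) := by
  rw [← r1_2, ← rot_add, rot_per M (j := 0) (by norm_num), rot_zero]

theorem rot_x46 (a : K) : rot M.toPF 1 (M.φ (x4 T a)) = M.φ (x6 T a) := by rw [rot_one, n8_x4, n1_x4]

theorem rot_x48 (a : K) : rot M.toPF 2 (M.φ (x4 T a)) = M.φ (x8 T a) := by
  rw [show (2 : ℤ) = 1 + 1 from rfl, rot_add, rot_x46, rot_one, n8_x6, n1_x2]

/-- An element commuting with `t` and with a rotated `t r t` commutes with the root element. -/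
theorem comm_x5 (c : Ctx M t) (h : HR M t p r) {g : G} (hg : Commute g t) {k : ℤ} {b : K}
    (h1 : Commute g (rot M.toPF k (t * r b * t))) : Commute g (rot M.toPF k (M.φ (x5 T b))) := by
  have h2 := comm_conj' c.tt h1
  rw [rot_t c, conj_fix' c.tt hg] at h2
  rw [h.f5.tconj c, rot_mul] at h1
  simpa using h2.inv_right.mul_right h1

theorem exists_mu [Finite K] (hq : 8 ≤ Nat.card K) : ∃ b b' : K,
    T.θ (b' + T.θ b') * (b + T.θ b) + T.θ (b + T.θ b) * (b' + T.θ b') ≠ 0 := by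
  classical
  have := T.charP
  have := Fintype.ofFinite K
  have ex : ∀ s : Finset K, s.card < 8 → ∃ a, a ∉ s := fun s hs =>
    (Finset.exists_mem_notMem_of_card_lt_card (s := s) (t := Finset.univ)
      (by rw [Finset.card_univ, ← Nat.card_eq_fintype_card]; omega)).imp fun _ h => h.2
  obtain ⟨b, hb⟩ := ex {0, 1} (Finset.card_le_two.trans_lt (by norm_num))
  obtain ⟨b', hb'⟩ := ex {0, 1, b, b + 1} (Finset.card_le_four.trans_lt (by norm_num))
  simp only [Finset.mem_insert, Finset.mem_singleton, not_or] at hb hb'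
  have nz : ∀ a : K, a ≠ 0 → a ≠ 1 → a + T.θ a ≠ 0 := fun a h0 h1 e =>
    (θ_fix (T := T) (by grind)).elim h0 h1
  have h1 := nz b hb.1 hb.2
  have h2 := nz b' hb'.1 hb'.2.1
  have h3 := nz (b + b') (by grind) (by grind)
  refine ⟨b, b', fun e => ?_⟩
  rw [map_add] at h3
  have h4 : T.θ (b' + T.θ b') ≠ 0 := (map_ne_zero T.θ).2 h2
  rcases θ_fix (T := T) (a := (b + T.θ b) / (b' + T.θ b')) (by
    rw [map_div₀, div_eq_div_iff h4 h2]; grind) with k | k
  · exact h1 ((div_eq_zero_iff.1 k).resolve_right h2)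
  · rw [div_eq_one_iff_eq h2] at k
    exact h3 (by grind)

theorem eps : EpsStmt.{u, v} := by
  intro K _ _ T G _ _ M t c2 p r e h a1 he ε g a2
  have c := c2.toCtx
  have := T.charP
  have tr : ∀ k g, rot M.toPF k (t * g * t) = t * rot M.toPF k g * t := fun k g => by
    rw [← rot_t c k g, conj_conj' c.tt]
  have F1 : ∀ a b, Commute (P2 M p a) (t * P7 M r b * t) := fun a b => by
    have h1 := g.g27 a b
    rw [zero_mul, zero_mul, x4_zero, map_one, mul_one, commutatorElement_def, (h.f2 c).inv] at h1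
    have h2 : P7 M r b * P2 M p a * (P7 M r b)⁻¹ = P2 M p a * p (a * b) := by
      rw [← h1, ← mul_assoc, ← mul_assoc, ← mul_assoc, (h.f2 c).sq, one_mul]
    refine (conj_eq_iff.1 ?_).symm
    calc _ = P7 M r b * (M.φ (x7 T b) * P2 M p a * (M.φ (x7 T b))⁻¹) * (P7 M r b)⁻¹ := by
          rw [(h.f7 c).tconj c]; group
      _ = _ := by
          rw [h.x7P2, conj_split, h2, conj_eq_iff.2 (h.c47 _ _).symm, mul_comm b a, mul_assoc, h.f4.sq,
            mul_one]
  have F2 : ∀ a b, Commute (P8 M p a) (t * P3 M r b * t) := fun a b => by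
    have := comm_conj' M.n1n1 (F1 a b)
    rwa [conj_mul' M.n1n1 _ t, conj_mul' M.n1n1 t, n1_P7, conj_fix' M.n1n1 c.tn1.symm] at this
  have G1 : ∀ k a b, Commute (rot M.toPF k (p a)) (rot M.toPF (k + 2) (t * r b * t)) := fun k a b => by
    have := rot_comm (M := M) (F1 a b) (k + 1)
    rwa [← H4.rot2, ← HR.rot7, ← tr, ← rot_add, ← rot_add, show k + 1 + -1 = k by ring,
      show k + 1 + 1 = k + 2 by ring] at this
  have G2 : ∀ k a b, Commute (rot M.toPF k (p a)) (rot M.toPF (k + 5) (t * r b * t)) := fun k a b => by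
    have := rot_comm (M := M) (F2 a b) (k - 2)
    rwa [← h.rot8, ← h.rot3', ← tr, ← rot_add, ← rot_add, show k - 2 + 2 = k by ring,
      rot_per M (k := k - 2 + -1) (j := k + 5) ⟨-1, by ring⟩] at this
  let Γ : K → K → K → G := fun α β γ => p ((1 + e) * α) * (r β * (P6 M p ((1 + e) * γ) *
    M.φ (x4 T (ε * α) * x6 T (ε * γ))))
  have Γa : ∀ α β γ α' β' γ', Γ α β γ * Γ α' β' γ' = Γ (α + α') (β + β') (γ + γ') := by
    intro α β γ α' β' γ'
    simp only [Γ, mul_add (1 + e), h.add, h.radd, (h.f6 c).add, mul_assoc, s4 h,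
      s5 h (mul_mem (x4V _) (x6V _)), s6 h (mul_mem (x4V _) (x6V _)),
      (h.c45 _ _).symm.left_comm, (h.c46 _ _).symm.left_comm, (h.c56 _ _).symm.left_comm, ← map_mul]
    congr 7
    ext <;> o8s <;> o8ring T
  have W1 : ∀ a b d, Commute (Γ (T.θ a * b) (a * b) (a * T.θ b)) (rot M.toPF 4 (t * r d * t)) := by
    intro a b d
    have h1 := G2 (-1) a d
    have h2 := G1 2 b d
    rw [H4.rot2, show (-1 : ℤ) + 5 = 4 from rfl] at h1
    rw [h.rot8, show (2 : ℤ) + 2 = 4 from rfl] at h2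
    have h3 := ((h1.mul_left h2).mul_left h1.inv_left).mul_left h2.inv_left
    rw [← commutatorElement_def, g.g28] at h3
    simpa only [Γ, mul_assoc, s5 h (x4V _), s6 h (x4V _), zero_mul, x5_zero, map_one, one_mul,
      map_mul] using h3
  obtain ⟨b, b', hb⟩ := exists_mu (T := T) c.q8
  have W2 : ∀ a b d, Commute (Γ (T.θ a * (b + T.θ b)) 0 (a * (b + T.θ b)))
      (rot M.toPF 4 (t * r d * t)) := fun a b d => by
    have := (W1 a b d).mul_left (W1 (a * b) 1 d)
    rwa [Γa, show T.θ a * b + T.θ (a * b) * 1 = T.θ a * (b + T.θ b) by rw [map_mul]; ring,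
      mul_one (a * b), add_self (T := T),
      show a * T.θ b + a * b * T.θ 1 = a * (b + T.θ b) by rw [map_one]; ring] at this
  have W3 : ∀ d, Commute (p ((1 + e) * (T.θ (b' + T.θ b') * (b + T.θ b) + T.θ (b + T.θ b) *
      (b' + T.θ b'))) * M.φ (x4 T (ε * (T.θ (b' + T.θ b') * (b + T.θ b) + T.θ (b + T.θ b) *
      (b' + T.θ b'))))) (rot M.toPF 4 (t * r d * t)) := fun d => by
    have := (W2 (b' + T.θ b') b d).mul_left (W2 (b + T.θ b) b' d)
    rw [Γa, mul_comm (b' + T.θ b') (b + T.θ b), add_self (T := T) (_ * _)] at this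
    simpa only [Γ, add_zero, mul_zero, h.f5.zero, (h.f6 c).zero, x6_zero, mul_one, one_mul] using this
  generalize T.θ (b' + T.θ b') * (b + T.θ b) + T.θ (b + T.θ b) * (b' + T.θ b') = μ at hb W3
  refine (mul_eq_zero.1 ?_).resolve_right hb
  rcases he with rfl | rfl
  · rw [add_zero, one_mul] at W3
    have cK : ∀ k ∈ M.cf.C, Commute (p μ * M.φ (x4 T (ε * μ))) k := fun k hk =>
      (h.cen μ k hk).mul_left (M.cf.cZ hk _ ⟨_, x4_mem _, rfl⟩)
    have n1r : ∀ d, M.n1 * (t * r d * t) * M.n1 = t * r d * t := fun d => by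
      rw [conj_mul' M.n1n1 _ t, conj_mul' M.n1n1 t, h.n1_r, conj_fix' M.n1n1 c.tn1.symm]
    have W4 : Commute (p μ * M.φ (x4 T (ε * μ))) (rot M.toPF 3 (t * r 1 * t)) := by
      have := comm_conj' M.n8n8 (W3 1)
      rw [conj_fix' M.n8n8 (cK _ (n8K M))] at this
      convert this using 1
      rw [rot_per M (k := 3) (j := -(1 + 4)) ⟨1, by ring⟩, ← n1r 1, ← n1_rot, rot_add, rot_one,
        conj_conj' M.n1n1, n1r]
    have A := a2 1 1
    simp only [zero_mul, x5_zero, map_one, mul_one, one_mul] at A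
    have A' := congrArg (rot M.toPF 4) (rel_conj M.n1n1 (rel_conj c.tt A))
    rw [conj_fix' c.tt (c.tφ _), rot_conj, ← r1_4, ← rot_add, rot_per M (k := 4 + 4) (j := 0) ⟨1, by ring⟩,
      rot_zero] at A'
    simp only [conj_mul' c.tt (P7 M r 1 * P3 M r 1), conj_mul' c.tt (P7 M r 1), conj_mul' M.n1n1 (_ * _ * t * _),
      conj_mul' M.n1n1 (t * P7 M r 1 * t) (t * _ * t), n1r] at A'
    rw [← HR.rot7, ← h.rot3', ← tr, ← tr, n1_rot, n1_rot, n1r, rot_mul 4 (_ * _), rot_mul 4 (rot _ _ _),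
      ← rot_add, ← rot_add] at A'
    have W5 := ((cK _ (φK M (x1 T 1))).mul_right W4).mul_right (cK _ (φK M (x1 T 1))).inv_right
    rw [show (3 : ℤ) = 4 + -1 from rfl, A'] at W5
    have W6 := (W4.inv_right.mul_right W5).mul_right (W3 1).inv_right
    rw [show (3 : ℤ) = 4 + -1 from rfl, mul_assoc _ _ (rot _ 4 _), inv_mul_cancel_left,
      mul_inv_cancel_right] at W6
    have W7 := G2 0 μ 1
    rw [rot_zero] at W7
    have W8 := W7.inv_left.mul_left W6
    rw [inv_mul_cancel_left] at W8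
    have W9 := rot_comm (M := M) (comm_x5 c h (c.tφ _) W8) 1
    rw [rot_x46, ← rot_add, show (1 : ℤ) + (0 + 5) = 6 from rfl, rot_x51, φ_comm] at W9
    have := congrArg U.a4 W9
    o8s at this
    grind
  · have W4 := W3 1
    rw [add_self (T := T), zero_mul, h.f4.zero, one_mul] at W4
    have W9 := rot_comm (M := M) (comm_x5 c h (c.tφ _) W4) 2
    rw [rot_x48, ← rot_add, show (2 : ℤ) + 4 = 6 from rfl, rot_x51, φ_comm] at W9
    have := congrArg U.b4 W9
    o8s at this
    grind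

theorem both : EpsStmt.{u, v} ∧ NormStmt.{u, v} := ⟨eps, norm⟩

end Cfsg.Agent.H36.RfE
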