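import Cfsg.Agent.H14.RkDefs
import Cfsg.Agent.H3.Fitting
import Cfsg.Agent.H87.Sylow
import Cfsg.Agent.S0033

/-! The last configuration of conjugate type rank five: basic facts on `W = P₁ ⊔ H`. -/

set_option autoImplicit false

namespace Cfsg.Agent.H36.RkC

open Subgroup Cfsg.Agent.H92 Cfsg.Agent.H14.Rk

universe u

variable {G : Type u} [Group G] [Finite G] {p : ℕ} {P₁ H : Subgroup G}

theorem nrm_of {S : Subgroup G} {g : G} (h : ∀ x ∈ S, g * x * g⁻¹ ∈ S) :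
    g ∈ normalizer (S : Set G) := mem_normalizer_fintype h

omit [Finite G] in
theorem cj {S : Subgroup G} {g x : G} (h : g ∈ normalizer (S : Set G)) (hx : x ∈ S) :
    g * x * g⁻¹ ∈ S := (mem_normalizer_iff.1 h x).1 hx

omit [Finite G] in
theorem cj' {S : Subgroup G} {g x : G} (h : g ∈ normalizer (S : Set G)) (hx : g * x * g⁻¹ ∈ S) :
    x ∈ S := (mem_normalizer_iff.1 h x).2 hx

omit [Finite G] in
theorem cj_ne {g x : G} (hx : x ≠ 1) : g * x * g⁻¹ ≠ 1 := fun e => hx (by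
  have : x = g⁻¹ * (g * x * g⁻¹) * g := by group
  rw [this, e]; group)

omit [Finite G] in
theorem eq_one_of_cop {x : G} {m n : ℕ} (h : m.Coprime n) (hm : x ^ m = 1) (hn : x ^ n = 1) :
    x = 1 := by
  have := Nat.dvd_gcd (orderOf_dvd_of_pow_eq_one hm) (orderOf_dvd_of_pow_eq_one hn)
  rw [h, Nat.dvd_one] at this
  exact orderOf_eq_one_iff.1 this

omit [Finite G] in
theorem pow_card {K : Subgroup G} {x : G} (hx : x ∈ K) : x ^ Nat.card K = 1 :=
  orderOf_dvd_iff_pow_eq_one.1 (Subgroup.orderOf_dvd_natCard K hx)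

omit [Finite G] in
theorem pel_of {K : Subgroup G} (hK : IsPGroup p K) {x : G} (hx : x ∈ K) : ∃ k, x ^ p ^ k = 1 := by
  obtain ⟨k, hk⟩ := hK ⟨x, hx⟩
  exact ⟨k, congrArg Subtype.val hk⟩

omit [Finite G] in
theorem ord_of (hp : p.Prime) {x : G} (hx : ∃ k, x ^ p ^ k = 1) : ∃ k, orderOf x = p ^ k := by
  obtain ⟨k, hk⟩ := hx
  exact eq_pow_of_dvd_pow hp (orderOf_dvd_of_pow_eq_one hk)

omit [Finite G] in
theorem zp_pg {x : G} (hx : ∃ k, x ^ p ^ k = 1) : IsPGroup p (zpowers x) := by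
  obtain ⟨k, hk⟩ := hx
  rintro ⟨y, n, rfl⟩
  refine ⟨k, Subtype.ext ?_⟩
  show (x ^ n) ^ p ^ k = 1
  rw [← zpow_natCast, ← zpow_mul, mul_comm, zpow_mul, zpow_natCast, hk, one_zpow]

section
variable (h : OddS G p P₁ H)
include h

omit [Finite G] in
theorem Hcop : (Nat.card H).Coprime p := ((Nat.Prime.coprime_iff_not_dvd h.pp).2 h.H_cop).symm

omit [Finite G] in
theorem W_nrm {S : Subgroup G} (hS : S ≤ P₁ ⊔ H) : P₁ ⊔ H ≤ centralizer (S : Set G) :=
  fun w hw s hs => h.comm s (hS hs) w hw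

omit [Finite G] in
theorem W_C {x : G} (hx : x ∈ P₁ ⊔ H) : P₁ ⊔ H ≤ Ce[x] :=
  fun w hw => mem_C.2 (h.comm w hw x hx)

omit [Finite G] in
theorem P_nH : P₁ ≤ normalizer (H : Set G) :=
  le_sup_left.trans ((W_nrm h le_sup_right).trans (centralizer_le_normalizer _))

omit [Finite G] in
theorem decomp {w : G} (hw : w ∈ P₁ ⊔ H) : ∃ u ∈ P₁, ∃ a ∈ H, u * a = w := by
  have : w ∈ ((P₁ ⊔ H : Subgroup G) : Set G) := hw
  rw [coe_mul_of_left_le_normalizer_right P₁ H (P_nH h)] at this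
  exact this

omit [Finite G] in
theorem memP {w : G} (hw : w ∈ P₁ ⊔ H) (hp : ∃ k, w ^ p ^ k = 1) : w ∈ P₁ := by
  obtain ⟨u, hu, a, ha, rfl⟩ := decomp h hw
  obtain ⟨k, hk⟩ := hp
  obtain ⟨j, hj⟩ := pel_of h.pg hu
  have hc : Commute u a := h.comm u (mem_sup_left hu) a (mem_sup_right ha)
  have e : a ^ p ^ (k + j) = 1 := by
    have e1 : (u * a) ^ p ^ (k + j) = 1 := by rw [pow_add, pow_mul, hk, one_pow]
    have e2 : u ^ p ^ (k + j) = 1 := by rw [add_comm, pow_add, pow_mul, hj, one_pow]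
    rwa [hc.mul_pow, e2, one_mul] at e1
  rw [eq_one_of_cop ((Hcop h).pow_right (k + j)) (pow_card ha) e, mul_one]
  exact hu

omit [Finite G] in
theorem memH {w : G} (hw : w ∈ P₁ ⊔ H) {n : ℕ} (hn : n.Coprime p) (hp : w ^ n = 1) : w ∈ H := by
  obtain ⟨u, hu, a, ha, rfl⟩ := decomp h hw
  obtain ⟨j, hj⟩ := pel_of h.pg hu
  have hc : Commute u a := h.comm u (mem_sup_left hu) a (mem_sup_right ha)
  have e : u ^ (n * Nat.card H) = 1 := by
    have e1 : (u * a) ^ (n * Nat.card H) = 1 := by rw [pow_mul, hp, one_pow]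
    have e2 : a ^ (n * Nat.card H) = 1 := by rw [mul_comm, pow_mul, pow_card ha, one_pow]
    rwa [hc.mul_pow, e2, mul_one] at e1
  rw [eq_one_of_cop ((Nat.Coprime.mul_left hn (Hcop h)).pow_right j) e hj, one_mul]
  exact ha

theorem memL {a g : G} (ha : a ∈ H) (a1 : a ≠ 1) (hg : g * a * g⁻¹ ∈ H) :
    g ∈ normalizer ((P₁ ⊔ H : Subgroup G) : Set G) := nrm_of fun w hw => by
  rw [← h.cent _ hg (cj_ne a1), mem_C_conj]
  rw [← h.cent _ ha a1] at hw
  simpa [mul_assoc] using hw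

theorem L_nP : normalizer ((P₁ ⊔ H : Subgroup G) : Set G) ≤ normalizer (P₁ : Set G) :=
  fun g hg => nrm_of fun x hx => memP h (cj hg (mem_sup_left hx)) (by
    obtain ⟨k, hk⟩ := pel_of h.pg hx
    exact ⟨k, by rw [conj_pow, hk]; group⟩)

theorem L_nH : normalizer ((P₁ ⊔ H : Subgroup G) : Set G) ≤ normalizer (H : Set G) :=
  fun g hg => nrm_of fun x hx => memH h (cj hg (mem_sup_right hx)) (Hcop h) (by
    rw [conj_pow, pow_card hx]; group)

theorem cardW : Nat.card ↥(P₁ ⊔ H) = Nat.card P₁ * Nat.card H := by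
  have : Fact p.Prime := ⟨h.pp⟩
  have := H3.card_sup_mul_card_inf_of_le_normalizer (P_nH h)
  rwa [H3.inf_eq_bot_of_isPGroup_of_coprime h.pg (Hcop h), card_bot, mul_one] at this

theorem cardW' : ∃ k, Nat.card ↥(P₁ ⊔ H) = p ^ k * Nat.card H := by
  have : Fact p.Prime := ⟨h.pp⟩
  obtain ⟨k, hk⟩ := IsPGroup.iff_card.1 h.pg
  exact ⟨k, by rw [cardW h, hk]⟩

/-- A `p'`-subgroup of `C(u)` permuting with `H` lies in `H`. -/
theorem ordK {u : G} (hu : u ∈ P₁) (u1 : u ≠ 1) {K : Subgroup G} (hK : K ≤ Ce[u])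
    (hc : (Nat.card K).Coprime p)
    (hn : K ≤ normalizer (H : Set G) ∨ H ≤ normalizer (K : Set G)) : K ≤ H := by
  obtain ⟨⟨k, hk⟩, -⟩ := h.size u u1 (ord_of h.pp (pel_of h.pg hu))
  have h1 : (Nat.card ↥(K ⊔ H)).Coprime p := by
    rcases hn with hn | hn
    · exact H3.coprime_card_sup_of_le_normalizer hn hc (Hcop h)
    · rw [sup_comm]; exact H3.coprime_card_sup_of_le_normalizer hn (Hcop h) hc
  have h2 : K ⊔ H ≤ Ce[u] := sup_le hK (le_sup_right.trans (W_C h (mem_sup_left hu)))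
  have h3 := card_dvd_of_le h2
  rw [hk] at h3
  have h4 := (h1.pow_right k).dvd_of_dvd_mul_left h3
  have h5 : H = K ⊔ H := eq_of_le_of_card_ge le_sup_right (Nat.le_of_dvd Nat.card_pos h4)
  exact le_sup_left.trans h5.ge

theorem syl_H {s : ℕ} [Fact s.Prime] (hs : s ∣ Nat.card H) :
    ∃ S : Sylow s G, (S : Subgroup G) ≤ H :=
  exists_sylow_le_of_not_dvd_index fun k =>
    (Fact.out : s.Prime).one_lt.ne' (Nat.dvd_one.1 (h.H_hall ▸ Nat.dvd_gcd hs k))

theorem L_not_le [IsSimpleGroup G] (hG : ¬ IsMulCommutative G) :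
    ¬ normalizer ((P₁ ⊔ H : Subgroup G) : Set G) ≤ P₁ ⊔ H := by
  intro hL
  obtain ⟨s, hs, hd⟩ := Nat.exists_prime_and_dvd (mt card_eq_one.1 h.H_ne)
  have : Fact s.Prime := ⟨hs⟩
  obtain ⟨S, hS⟩ := syl_H h hd
  have h1 : (S : Subgroup G) ≠ ⊥ := S.ne_bot_of_dvd_card (hd.trans (card_subgroup_dvd_card H))
  obtain ⟨⟨a, ha⟩, a1⟩ := ne_bot_iff_exists_ne_one.1 h1
  have a1' : a ≠ 1 := fun e => a1 (Subtype.ext e)
  have hP : normalizer (S : Set G) ≤ centralizer (S : Set G) := fun g hg =>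
    W_nrm h (hS.trans le_sup_right) (hL (memL h (hS ha) a1' (hS (cj (S := (S : Subgroup G)) hg ha))))
  have hc := MonoidHom.ker_transferSylow_isComplement' S hP
  rcases (inferInstance : (MonoidHom.transferSylow S hP).ker.Normal).eq_bot_or_eq_top with e | e
  · rw [e, isComplement'_bot_left] at hc
    refine hG ⟨⟨fun a b => ?_⟩⟩
    have ha : a ∈ (S : Subgroup G) := hc ▸ mem_top a
    have hb : b ∈ (S : Subgroup G) := hc ▸ mem_top b
    exact hP (le_normalizer hb) a ha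
  · rw [e, isComplement'_top_left] at hc
    exact h1 hc

/-- An element commuting with a non-trivial element of order dividing `p ^ k * |H|`. -/
theorem not_dvd_C {r k : ℕ} (hr : r.Prime) (rp : r ≠ p) (rH : ¬ r ∣ Nat.card H) {y : G}
    (y1 : y ≠ 1) (hy : orderOf y ∣ p ^ k * Nat.card H) : ¬ r ∣ Nat.card Ce[y] := by
  intro hd
  have key : ∀ j, ¬ r ∣ p ^ j * Nat.card H := fun j e => by
    rcases (Nat.Prime.dvd_mul hr).1 e with e | e
    · exact rp ((Nat.prime_dvd_prime_iff_eq hr h.pp).1 (hr.dvd_of_dvd_pow e))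
    · exact rH e
  obtain ⟨t, ht, htd⟩ := Nat.exists_prime_and_dvd (mt orderOf_eq_one_iff.1 y1)
  have o : orderOf (y ^ (orderOf y / t)) = t := orderOf_pow_orderOf_div (orderOf_pos y).ne' htd
  set z := y ^ (orderOf y / t) with hz
  have z1 : z ≠ 1 := fun e => ht.one_lt.ne' (by rw [← o, e, orderOf_one])
  have hd' : r ∣ Nat.card Ce[z] := hd.trans (card_dvd_of_le (C_le_C_pow y _))
  by_cases tp : t = p
  · obtain ⟨⟨j, hj⟩, -⟩ := h.size z z1 ⟨1, by rw [o, tp, pow_one]⟩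
    exact key j (hj ▸ hd')
  · have tH : t ∣ Nat.card H := by
      rcases (Nat.Prime.dvd_mul ht).1 (htd.trans hy) with e | e
      · exact absurd ((Nat.prime_dvd_prime_iff_eq ht h.pp).1 (ht.dvd_of_dvd_pow e)) tp
      · exact e
    have : Fact t.Prime := ⟨ht⟩
    obtain ⟨S, hS⟩ := syl_H h tH
    obtain ⟨g, -, hg⟩ := H87.exists_conj_mem_sylow S le_top
      (zp_pg (x := z) ⟨1, by rw [pow_one, ← o, pow_orderOf_eq_one]⟩) le_top
    have e := h.cent _ (hS (hg z (mem_zpowers z))) (cj_ne z1)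
    obtain ⟨j, hj⟩ := cardW' h
    rw [← e, C_conj, card_conj_smul] at hj
    exact key j (hj ▸ hd')

theorem exists_tau [IsSimpleGroup G] (hG : ¬ IsMulCommutative G) :
    ∃ T : Subgroup G, IsPGroup p T ∧ P₁ ≤ T ∧ T ≤ normalizer ((P₁ ⊔ H : Subgroup G) : Set G) ∧
      ¬ T ≤ P₁ ⊔ H := by
  have : Fact p.Prime := ⟨h.pp⟩
  by_contra hc
  push Not at hc
  set W := P₁ ⊔ H with hW
  set L := normalizer (W : Set G) with hL
  have WL : W ≤ L := le_normalizer
  obtain ⟨T, hT, PT, TL, hi⟩ := H87.exists_sylow_in h.pg (le_sup_left.trans WL)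
  have np : ¬ p ∣ W.relIndex L := fun e =>
    hi (e.trans (relIndex_dvd_of_le_left L (hc T hT PT TL)))
  have nH : (W.relIndex L).Coprime (Nat.card H) :=
    (h.H_hall.symm.coprime_dvd_left (index_dvd_of_le le_sup_right)).coprime_dvd_left
      (relIndex_dvd_index_of_le WL)
  obtain ⟨r, hr, hd⟩ := Nat.exists_prime_and_dvd (n := W.relIndex L)
    (fun e => L_not_le h hG (relIndex_eq_one.1 e))
  have rp : r ≠ p := fun e => np (e ▸ hd)
  have rH : ¬ r ∣ Nat.card H := fun e => hr.one_lt.ne' (Nat.dvd_one.1 (nH ▸ Nat.dvd_gcd hd e))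
  have : Fact r.Prime := ⟨hr⟩
  obtain ⟨⟨v, hv⟩, ov⟩ := exists_prime_orderOf_dvd_card' (G := L) r
    (hd.trans (relIndex_dvd_card W L))
  have ov' : orderOf v = r := by rw [← ov, Subgroup.orderOf_mk]
  obtain ⟨⟨u, hu⟩, u1⟩ := ne_bot_iff_exists_ne_one.1 h.P_ne
  have u1' : u ≠ 1 := fun e => u1 (Subtype.ext e)
  set Y := centralizer (P₁ : Set G) with hY
  obtain ⟨⟨k, hk⟩, -⟩ := h.size u u1' (ord_of h.pp (pel_of h.pg hu))
  have cY : Nat.card Y ∣ p ^ k * Nat.card H := hk ▸ card_dvd_of_le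
    (centralizer_le (Set.singleton_subset_iff.2 hu))
  have nY : normalizer (P₁ : Set G) ≤ normalizer (Y : Set G) := fun g hg => nrm_of fun y hy x hx => by
    have := hy _ (cj (inv_mem hg) hx)
    calc x * (g * y * g⁻¹) = g * (g⁻¹ * x * g⁻¹⁻¹ * y) * g⁻¹ := by group
      _ = g * y * g⁻¹ * x := by rw [this]; group
  have vY : v ∈ normalizer (Y : Set G) := nY (L_nP h hv)
  have WY : W ≤ Y := W_nrm h le_sup_left
  have nil : Group.IsNilpotent Y := by
    let φ : Y ≃* Y := Y.normalizerMonoidHom ⟨v, vY⟩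
    have hf : MonoidHom.FixedPointFree (φ : Y →* Y) := by
      intro m hm
      have h1 : v * m * v⁻¹ = m := congrArg Subtype.val hm
      by_contra m1
      refine not_dvd_C h hr rp rH (y := (m : G)) (fun e => m1 (Subtype.ext e))
        ((Subgroup.orderOf_dvd_natCard Y m.2).trans cY) ?_
      rw [← ov']
      exact Subgroup.orderOf_dvd_natCard _ (mem_C.2 (mul_inv_eq_iff_eq_mul.1 h1))
    refine S0033.result φ hf r hr (orderOf_eq_prime ?_ fun h1 => ?_)
    · have h2 : (⟨v, vY⟩ : normalizer (Y : Set G)) ^ r = 1 := Subtype.ext (by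
        rw [SubmonoidClass.coe_pow, ← ov']; exact pow_orderOf_eq_one v)
      have := map_pow Y.normalizerMonoidHom ⟨v, vY⟩ r
      rw [h2, map_one] at this
      exact this.symm
    · exact u1' (congrArg Subtype.val (hf ⟨u, WY (mem_sup_left hu)⟩ (by rw [h1]; rfl)))
  have YW : Y ≤ W := by
    by_contra hn
    have h1 : W.subgroupOf Y < ⊤ := lt_top_iff_ne_top.2 fun e => hn (subgroupOf_eq_top.1 e)
    obtain ⟨x, hx, xW⟩ := SetLike.exists_of_lt (Group.normalizerCondition_of_isNilpotent _ h1)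
    have xL : (x : G) ∈ L := nrm_of fun w hw => cj (S := W.subgroupOf Y) (x := ⟨w, WY hw⟩) hx hw
    have d1 : W.relIndex (Y ⊓ L) ∣ W.relIndex L :=
      Dvd.intro _ (relIndex_mul_relIndex W (Y ⊓ L) L (le_inf WY WL) inf_le_right)
    have d2 : W.relIndex (Y ⊓ L) ∣ p ^ k * Nat.card H :=
      ((relIndex_dvd_card _ _).trans (card_dvd_of_le inf_le_left)).trans cY
    have c : (W.relIndex L).Coprime (p ^ k * Nat.card H) :=
      Nat.Coprime.mul_right (((Nat.Prime.coprime_iff_not_dvd h.pp).2 np).symm.pow_right k) nH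
    have := Nat.dvd_gcd d1 d2
    rw [c, Nat.dvd_one, relIndex_eq_one] at this
    exact xW (this ⟨x.2, xL⟩)
  have e : Y = W := le_antisymm YW WY
  obtain ⟨Q, hQ, PQ, -, QP, Qn⟩ := H87.exists_normalizing_of_dvd_relIndex h.pg le_top
    (by rw [relIndex_top_right]; exact h.notSyl)
  exact QP fun x hx => memP h (hc Q hQ PQ (Qn.trans (by rw [hL, ← e]; exact nY)) hx) (pel_of hQ hx)

end

end Cfsg.Agent.H36.RkC
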