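import Cfsg.Agent.H58.SWDefs

/-! Project SW, piece BLKNU: the blocks of an invariant unitary block system are small. -/

set_option autoImplicit false

namespace Cfsg.Agent.H36.SwBlkNU

open Matrix Cfsg Cfsg.Agent.H58.SW
open scoped commutatorElement

variable {F : Type} [Field F] {n : ℕ} {ι : Type} [Fintype ι] [DecidableEq ι]

/-- the matrices commuting with `e` -/
def Cm [DecidableEq F] (e : Mt n F) : Subgroup (Gl n F) where
  carrier := {x | Commute x.1 e}
  mul_mem' ha hb := Commute.mul_left ha hb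
  one_mem' := Commute.one_left e
  inv_mem' ha := Commute.units_inv_left ha

/-- the block of a matrix commuting with `e` -/
def rho [DecidableEq F] {e : Mt n F} (P : Matrix (Fin n) ι F) (P' : Matrix ι (Fin n) F)
    (h1 : P' * P = 1) (h2 : P * P' = e) : Cm e →* GL ι F := MonoidHom.toHomUnits
  { toFun := fun x => P' * x.1.1 * P
    map_one' := by simp [h1]
    map_mul' := fun x y => by
      have h3 : e * P = P := by rw [← h2, Matrix.mul_assoc, h1, Matrix.mul_one]
      have h4 : y.1.1 * e = e * y.1.1 := y.2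
      calc P' * (x.1.1 * y.1.1) * P = P' * (x.1.1 * (y.1.1 * e)) * P := by
            simp only [Matrix.mul_assoc, h3]
        _ = P' * (x.1.1 * (P * P' * y.1.1)) * P := by rw [h4, h2]
        _ = _ := by simp only [Matrix.mul_assoc] }

theorem coe_rho [DecidableEq F] {e : Mt n F} (P : Matrix (Fin n) ι F) (P' : Matrix ι (Fin n) F)
    (h1 : P' * P = 1) (h2 : P * P' = e) (x : Cm e) : (rho P P' h1 h2 x).1 = P' * x.1.1 * P := rfl

theorem comm_fam [DecidableEq F] {E : Finset (Mt n F)} (hE : Fam E) {e N : Mt n F} (he : e ∈ E)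
    (h1 : e * N = N) (h2 : N * e = N) {t : Mt n F} (ht : t - 1 = N) : ∀ f ∈ E, Commute t f := by
  intro f hf
  rw [sub_eq_iff_eq_add.1 ht]
  refine Commute.add_left ?_ (Commute.one_left f)
  by_cases h : f = e
  · rw [h, Commute, SemiconjBy, h1, h2]
  · rw [Commute, SemiconjBy, ← h1, ← mul_assoc f, hE.orth f hf e he h, zero_mul, h1, ← h2, mul_assoc,
      hE.orth e he f hf (Ne.symm h), mul_zero]

theorem blkNU (hKA : KAStmt) (hKT : KTStmt) (hKV : KVStmt) (hKW : KWStmt) (hFr : FrameStmt)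
    (hC : CentStmt) (hN2 : Ngu2Stmt) (hN3 : Ngu3Stmt) : BlkNUStmt := by
  intro F _ _ _ n c r H Q L hr hu E B e he hrk
  have ka := hKA F n c
  have kt := hKT F n c
  have kv := hKV F n c
  have kw := hKW F n c
  by_contra hcon
  have q2 := ka.two_le
  obtain ⟨a, ha, β, -, hβ⟩ := hFr F n c E B.fam B.sf
  obtain ⟨he1, he2⟩ := hβ e he
  let σ : F →+* F :=
    { toFun := fun x => x ^ c.q
      map_one' := one_pow _
      map_mul' := fun x y => mul_pow x y _
      map_zero' := zero_pow (by omega)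
      map_add' := ka.fr_add hu }
  have hst : ∀ x : Mt n F, c.st x = (x.map σ)ᵀ := fun _ => rfl
  let ι := {i // β i = e}
  have hc : Fintype.card ι = e.rank := by rw [Fintype.card_subtype, he2]
  let J : Matrix (Fin n) ι F := (1 : Mt n F).submatrix id Subtype.val
  have j1 : Jᵀ * J = 1 := by
    ext i j
    simp [J, mul_apply, one_apply, Subtype.val_inj, eq_comm]
  have j2 : J * Jᵀ = dg β e := by
    ext i j
    simp only [J, mul_apply, transpose_apply, submatrix_apply, id, one_apply, dg, diagonal_apply,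
      ite_mul, one_mul, zero_mul]
    by_cases hi : β i = e
    · rw [Finset.sum_eq_single (⟨i, hi⟩ : ι) (fun k _ hk => if_neg fun h => hk (Subtype.ext h.symm))
        (by simp)]
      simp [hi, eq_comm]
    · rw [Finset.sum_eq_zero fun k _ => if_neg fun h : i = k.1 => hi (h ▸ k.2)]
      simp [hi]
  have j3 : J.map σ = J := by
    ext i j
    simp only [J, map_apply, submatrix_apply, one_apply, apply_ite σ, map_one, map_zero]
  have a1 : (a.1.map σ)ᵀ = (a⁻¹).1 :=
    (Units.inv_eq_of_mul_eq_one_left ((ka.mem_St a).1 ha hu)).symm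
  obtain ⟨P, hP⟩ : ∃ P, P = a.1 * J := ⟨_, rfl⟩
  obtain ⟨P', hP'⟩ : ∃ P', P' = Jᵀ * (a⁻¹).1 := ⟨_, rfl⟩
  have h1 : P' * P = 1 := by
    rw [hP, hP', Matrix.mul_assoc, ← Matrix.mul_assoc _ a.1, Units.inv_mul, Matrix.one_mul, j1]
  have h2 : P * P' = e := by
    rw [hP, hP', Matrix.mul_assoc, ← Matrix.mul_assoc J, j2, ← Matrix.mul_assoc]
    exact he1.symm
  have h3 : (P.map σ)ᵀ = P' := by rw [hP, hP', Matrix.map_mul, transpose_mul, j3, a1]
  have h4 : (P'.map σ)ᵀ = P := by
    rw [← h3]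
    ext i j
    exact ka.fr_fr hu _
  have h5 : e * P = P := by rw [← h2, Matrix.mul_assoc, h1, Matrix.mul_one]
  have h6 : P' * e = P' := by rw [← h2, ← Matrix.mul_assoc, h1, Matrix.one_mul]
  obtain ⟨hY0, Y, hY1, hY2, hY3⟩ := hC F n c r H Q L E B.inv ⟨e, he, fun ⟨s, hs⟩ => by
    obtain ⟨f, hf, hfe⟩ := Finset.exists_mem_ne B.two e
    have := B.fam.orth e he f hf hfe.symm
    rw [hs, smul_mul_assoc, one_mul, smul_eq_zero] at this
    rcases this with h | h
    · exact B.fam.ne0 e he (by rw [hs, h, zero_smul])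
    · exact B.fam.ne0 f hf h⟩
  have key : ∀ x ∈ (Q.subgroupOf (Cm e)).map (rho P P' h1 h2), ∃ s : F, x.1 = s • 1 := by
    have N : NguAt fun s => s = Fintype.card ι := by
      by_cases h : Fintype.card ι = 2
      · rw [h]; exact hN2
      · exact fun K _ _ _ κ _ _ p r q k1 k2 k3 k4 k5 => hN3 K κ p r q k1 k2 k3 k4 (by omega)
    refine N F ι c.p r c.q c.chr L.prime hr (by rw [c.hq, if_pos hu]) rfl (by omega) (by omega) _
      ?_ ?_ ?_
    · rintro _ ⟨x, hx, rfl⟩
      have k1 := (ka.mem_St _).1 ((ka.mem_hat _ _).1 (L.qh hx)).1 hu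
      have k2 : x.1.1 * e = e * x.1.1 := x.2
      change ((P' * x.1.1 * P).map σ)ᵀ * (P' * x.1.1 * P) = 1
      rw [Matrix.map_mul, Matrix.map_mul, transpose_mul, transpose_mul, h3, h4, ← hst]
      calc _ = P' * (c.st x.1.1 * (P * P' * x.1.1)) * P := by simp only [Matrix.mul_assoc]
        _ = 1 := by
          rw [h2, ← k2, ← Matrix.mul_assoc _ _ e]
          erw [k1]
          rw [Matrix.one_mul, h6, h1]
    · rintro _ ⟨x, hx, rfl⟩
      obtain ⟨k, hk⟩ := L.rgrp _ hx
      obtain ⟨s, -, hs⟩ := (ka.mem_Z _).1 hk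
      refine ⟨k, s, ?_⟩
      rw [← map_pow, coe_rho]
      erw [hs]
      rw [Matrix.mul_smul, Matrix.mul_one, Matrix.smul_mul, h1]
    · rintro t v α hv hα ht _ ⟨x, hx, rfl⟩
      have b1 : c.bar (P *ᵥ v) = (fun i => v i ^ c.q) ᵥ* P' := by
        rw [← h3, vecMul_transpose]
        exact funext fun i => RingHom.map_mulVec σ P v i
      obtain ⟨T, hT, -, eT⟩ := kv.tvU hu (P *ᵥ v) α (by
        change (P *ᵥ v) ⬝ᵥ c.bar (P *ᵥ v) = 0
        rw [b1, dotProduct_comm, ← dotProduct_mulVec, mulVec_mulVec, h1, one_mulVec, dotProduct_comm]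
        exact hv) hα
      rw [b1, ← vecMulVec_mul, ← mul_vecMulVec] at eT
      have cT := comm_fam B.fam he (N := α • (P * vecMulVec v (fun i => v i ^ c.q) * P'))
        (by rw [Matrix.mul_smul, ← Matrix.mul_assoc, ← Matrix.mul_assoc, h5])
        (by rw [Matrix.smul_mul, Matrix.mul_assoc, h6]) (t := T.1) (by rw [eT, add_sub_cancel_left])
      have e1 : rho P P' h1 h2 ⟨T, cT e he⟩ = t := Units.ext (by
        rw [coe_rho, eT, ht, Matrix.mul_add, Matrix.add_mul, Matrix.mul_one, h1, Matrix.mul_smul,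
          Matrix.smul_mul, ← Matrix.mul_assoc, ← Matrix.mul_assoc, h1, Matrix.one_mul,
          Matrix.mul_assoc, h1, Matrix.mul_one])
      rw [← e1, ← map_mul, ← map_inv, ← map_mul]
      exact ⟨_, kt.hatG H Q L.inv T (hY0 T hT cT) _ hx, rfl⟩
  obtain ⟨t, ht, t1, tu, -, t2, t3⟩ := kw.btv e (fun h => B.sf h e he) (B.fam.idem e he) hrk
  refine t1 (kv.nouni r H Q L hr t (L.chr Y hY1 hY2 t
    ((hY3 t).2 ⟨ht, comm_fam B.fam he t2 t3 rfl⟩) fun x hx => ?_) tu)
  have hx2 : x ∈ Cm e := (sup_le (fun y hy => ((hY3 y).1 hy).2 e he) fun z hz => by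
    obtain ⟨s, -, hs⟩ := (ka.mem_Z _).1 hz
    change Commute z.1 e
    rw [hs]
    exact (Commute.one_left e).smul_left s : Y ⊔ c.Z ≤ Cm e) hx.2
  obtain ⟨s, hs⟩ := key _ ⟨⟨x, hx2⟩, hx.1, rfl⟩
  rw [coe_rho] at hs
  have k2 : x.1 * e = e * x.1 := hx2
  have k3 : x.1 * e = s • e := by
    calc x.1 * e = e * x.1 * e := by rw [← k2, mul_assoc, B.fam.idem e he]
      _ = P * P' * x.1 * (P * P') := by rw [h2]
      _ = P * (P' * x.1 * P) * P' := by simp only [Matrix.mul_assoc]
      _ = _ := by rw [hs, Matrix.mul_smul, Matrix.mul_one, Matrix.smul_mul, h2]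
  have k4 : (t.1 - 1) * x.1 = x.1 * (t.1 - 1) := by
    rw [← t3, mul_assoc, ← k2, k3, t3, mul_smul_comm, t3, ← t2, ← mul_assoc, k3, smul_mul_assoc]
  have k5 : ⁅t, x⁆ = 1 := commutatorElement_eq_one_iff_mul_comm.2 (Units.ext (by
    rw [sub_mul, mul_sub, one_mul, mul_one, sub_left_inj] at k4
    exact k4))
  rw [k5]
  exact one_mem _

end Cfsg.Agent.H36.SwBlkNU
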