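import Cfsg.Agent.H6.TIDefs

/-! Weakly closed TI-subgroups: the alternating case. -/

set_option autoImplicit false

namespace Cfsg.Agent.H36.TiA

open Cfsg Subgroup Equiv Cfsg.Agent.H6.TI
open scoped Cfsg.Agent.H63

universe u

theorem nine {n : ℕ} (hn : 7 ≤ n) {α β : Perm (Fin n)} {o : Fin n} (a2 : α * α = 1) (b2 : β * β = 1)
    (c : α * β = β * α) (ho : α o = o) (fa : ∀ i, α i = i → i = o) (fb : ∀ i, β i = i → i = o)
    (fc : ∀ i, α (β i) = i → i = o)
    (h : ∀ x : Perm (Fin n), Perm.sign x = 1 → x * α = α * x → β * x * β⁻¹ * x⁻¹ ≠ 1 →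
      ∃! i, (β * x * β⁻¹ * x⁻¹) i = i) : n = 9 := by
  have aa : ∀ i, α (α i) = i := fun i => DFunLike.congr_fun a2 i
  have bb : ∀ i, β (β i) = i := fun i => DFunLike.congr_fun b2 i
  have ab : ∀ i, β (α i) = α (β i) := fun i => (DFunLike.congr_fun c i).symm
  have hb : β o = o := fa _ (by rw [← ab, ho])
  have new : ∀ s : Finset (Fin n), s.card < n → ∃ i, i ∉ s := fun s hs => by
    by_contra! k
    have := Finset.card_le_card (fun i _ => k i : Finset.univ ⊆ s)
    rw [Finset.card_univ, Fintype.card_fin] at this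
    omega
  obtain ⟨p, hp⟩ := new {o} (by rw [Finset.card_singleton]; omega)
  obtain ⟨q, hq⟩ := new {o, p, α p, β p, α (β p)} (Finset.card_le_five.trans_lt (by omega))
  simp only [Finset.mem_insert, Finset.mem_singleton, not_or] at hp hq
  obtain ⟨q0, q1, q2, q3, q4⟩ := hq
  have d : List.Nodup [o, p, α p, β p, α (β p), q, α q, β q, α (β q)] := by
    simp only [List.nodup_cons, List.mem_cons, List.not_mem_nil, or_false, not_or, List.nodup_nil,
      not_false_eq_true, and_true]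
    refine ⟨⟨?_, ?_, ?_, ?_, ?_, ?_, ?_, ?_⟩, ⟨?_, ?_, ?_, ?_, ?_, ?_, ?_⟩, ⟨?_, ?_, ?_, ?_, ?_, ?_⟩,
      ⟨?_, ?_, ?_, ?_, ?_⟩, ⟨?_, ?_, ?_, ?_⟩, ⟨?_, ?_, ?_⟩, ⟨?_, ?_⟩, ?_⟩ <;> intro e <;> grind
  have le := d.length_le_card
  rw [Fintype.card_fin] at le
  simp only [List.nodup_cons, List.mem_cons, List.not_mem_nil, or_false, not_or, List.nodup_nil,
    not_false_eq_true, and_true] at d
  have e : β * (swap p (α p) * swap q (α q)) * β⁻¹ * (swap p (α p) * swap q (α q))⁻¹ =
      swap (β p) (α (β p)) * swap (β q) (α (β q)) * (swap q (α q) * swap p (α p)) := by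
    rw [← conj_mul, ← swap_apply_apply, ← swap_apply_apply, mul_inv_rev, swap_inv, swap_inv, ab, ab]
  obtain ⟨i, -, hi⟩ := h (swap p (α p) * swap q (α q))
    (by rw [map_mul, Perm.sign_swap (by tauto), Perm.sign_swap (by tauto)]; simp)
    (by
      rw [eq_comm, ← mul_inv_eq_iff_eq_mul, ← conj_mul, ← swap_apply_apply, ← swap_apply_apply, aa, aa,
        swap_comm p, swap_comm q])
    (by
      rw [e]
      intro k
      have := DFunLike.congr_fun k p
      simp only [Perm.mul_apply, swap_apply_def, Perm.one_apply] at this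
      grind)
  by_contra k
  obtain ⟨j, hj⟩ := new [o, p, α p, β p, α (β p), q, α q, β q, α (β q)].toFinset
    ((List.toFinset_card_le _).trans_lt (by simp only [List.length_cons, List.length_nil] at le ⊢; omega))
  simp only [List.mem_toFinset, List.mem_cons, List.not_mem_nil, or_false, not_or] at hj
  refine hj.1 ((hi j ?_).trans (hi o ?_).symm) <;>
    simp only [e, Perm.mul_apply, swap_apply_def] <;> grind

theorem a9 : A9Stmt.{u} := by
  intro G _ _ Ω n φ h0 ba inj hn ev fx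
  obtain ⟨A, hA⟩ := h0.ne
  have := Fintype.ofFinite A
  obtain ⟨a, b, c, ab, ac, bc⟩ := (Fintype.two_lt_card_iff (α := A)).1
    (lt_of_lt_of_le (by norm_num) ((h0.four A hA).trans_eq Nat.card_eq_fintype_card))
  have sq : ∀ P ∈ Ω, ∀ a ∈ P, φ a * φ a = 1 := fun P hP a ha => by
    rw [← map_mul, h0.sq P hP a ha, map_one]
  have n9 : n = 9 := by
    have u1 : (a⁻¹ * b : A).1 ≠ 1 := fun e => ab (inv_mul_eq_one.1 (Subtype.ext e))
    have v1 : (a⁻¹ * c : A).1 ≠ 1 := fun e => ac (inv_mul_eq_one.1 (Subtype.ext e))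
    have uv : (a⁻¹ * b : A).1 ≠ (a⁻¹ * c : A).1 := fun e => bc (mul_left_cancel (Subtype.ext e))
    have hu := (a⁻¹ * b : A).2
    have hv := (a⁻¹ * c : A).2
    generalize (a⁻¹ * b : A).1 = u at u1 uv hu
    generalize (a⁻¹ * c : A).1 = v at v1 uv hv
    have w1 : u * v ≠ 1 := fun e => uv (mul_right_cancel (e.trans (h0.sq A hA v hv).symm))
    have cm : φ u * φ v = φ v * φ u := by rw [← map_mul, ← map_mul, ba.mul_comm A hA u hu v hv]
    obtain ⟨o, ho, fa⟩ := fx A hA u hu u1
    have hb : φ v o = o := fa _ ((DFunLike.congr_fun cm o).trans (congrArg (φ v) ho))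
    refine nine hn (sq A hA u hu) (sq A hA v hv) cm ho fa
      (fun i hi => (fx A hA v hv v1).unique hi hb) (fun i hi => (fx A hA _ (mul_mem hu hv) w1).unique
        (by rwa [map_mul]) (by rw [map_mul, Perm.mul_apply, hb, ho])) fun x hx hc h1 => ?_
    obtain ⟨g, rfl⟩ := ev x hx
    have hg := ba.cent A hA u hu u1 g (inj (by rw [map_mul, map_mul, hc]))
    have e : φ v * φ g * (φ v)⁻¹ * (φ g)⁻¹ = φ (v * (g * v⁻¹ * g⁻¹)) := by
      simp only [map_mul, map_inv, mul_assoc]
    rw [e] at h1 ⊢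
    exact fx A hA _ (mul_mem hv ((mem_normalizer_iff.1 hg _).1 (inv_mem hv))) fun k =>
      h1 (by rw [k, map_one])
  subst n9
  have hr : φ.range = alternatingGroup (Fin 9) := by
    refine le_antisymm ?_ fun σ hσ => ev σ hσ
    rw [MonoidHom.range_eq_map, map_le_iff_le_comap, ← h0.gen]
    refine sSup_le fun P hP a ha => ?_
    by_cases a1 : a = 1
    · rw [a1]; exact one_mem _
    obtain ⟨o, ho, fa⟩ := fx P hP a ha a1
    have : Fintype.card (Function.fixedPoints (φ a)) = 1 :=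
      Fintype.card_eq_one_iff.2 ⟨⟨o, ho⟩, fun y => Subtype.ext (fa _ y.2)⟩
    rw [mem_comap, Perm.mem_alternatingGroup,
      Perm.sign_of_pow_two_eq_one (by rw [pow_two, sq P hP a ha]), this]
    rfl
  have e : G ≃* alternatingGroup (Fin 9) :=
    (MonoidHom.ofInjective inj).trans (MulEquiv.subgroupCongr hr)
  have : IsSimpleGroup (alternatingGroup (Fin 9)) := alternatingGroup.isSimpleGroup (by simp)
  exact ⟨e.isSimpleGroup, ⟨e⟩⟩

end Cfsg.Agent.H36.TiA
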