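import Cfsg.Agent.H41.U6Defs

/-!
# A standard subgroup `2·U₆(2)`: the kernel of the action on the points
-/

set_option autoImplicit false
set_option linter.unusedSectionVars false
set_option maxRecDepth 100000

universe u

namespace Cfsg.Agent.H36.U6K

open Cfsg.Agent.H41 Cfsg.Agent.H41.Rec Cfsg.Agent.H41.U6S Cfsg.Agent.H42 Cfsg.Agent.H45 Cfsg.Agent.H60 Equiv

/-- The group of the clique. -/
noncomputable abbrev Vb : Subgroup (Perm (Fin 693)) := sp (fun i => L21.F.T (sB J21.B i)) 9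

theorem Vb_le : Vb ≤ L21.F.grp := by rw [Vb, J21.cq.sp_eq]; exact FS.gen_le_grp _

theorem jsA : JS (Vb.subgroupOf L21.F.aut) := by
  obtain ⟨S, σ, U⟩ := H99.F22.O21.out
  have hV : Vb ≤ L21.F.aut := Vb_le.trans FS.grp_le_aut
  refine js_of (S := S.subgroupOf L21.F.aut) ⟨fun x hx => U.le hx, fun x hx => Subtype.ext (J21.cq.ci.ea _ hx),
    fun B hB h1 h2 x hx => U.um (B.map L21.F.aut.subtype) (Subgroup.map_le_iff_le_comap.mpr hB) ?_ ?_ ⟨x, hx, rfl⟩⟩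
    U.pg.comap_subtype U.syl
  · rintro _ ⟨y, hy, rfl⟩
    exact congrArg Subtype.val (h1 y hy)
  · rwa [Subgroup.card_map_of_injective L21.F.aut.subtype_injective,
      show 512 = Nat.card (Vb.subgroupOf L21.F.aut) from
        ((Nat.card_congr (Subgroup.subgroupOfEquivOfLe hV).toEquiv).trans (J21.cq.ci.card_sp J21.cq.ind)).symm]

theorem jsA1 {B : Subgroup (Perm (Fin 693))} (h1 : B ≤ L21.F.aut) (h2 : EA B) :
    Nat.card B ≤ 2 ^ 9 ∧ (2 ^ 9 ≤ Nat.card B → ∃ c ∈ L21.F.aut, cjS c Vb ≤ B) := by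
  have hV : Vb ≤ L21.F.aut := Vb_le.trans FS.grp_le_aut
  have e1 := Nat.card_congr (Subgroup.subgroupOfEquivOfLe h1).toEquiv
  have e2 := (Nat.card_congr (Subgroup.subgroupOfEquivOfLe hV).toEquiv).trans (J21.cq.ci.card_sp J21.cq.ind)
  have h3 : EA (B.subgroupOf L21.F.aut) := fun x hx => Subtype.ext (h2 _ hx)
  obtain ⟨S, hS⟩ := h3.isPGroup.exists_le_sylow
  obtain ⟨c, hc⟩ := jsA S
  refine ⟨by have := hc.card_le hS h3; rwa [card_cjS, e1, e2] at this, fun h => ⟨c, c.2, fun x hx => ?_⟩⟩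
  have h4 : x ∈ L21.F.aut := by simpa [mul_assoc] using mul_mem (mul_mem c.2 (hV (mem_cjS.mp hx))) (inv_mem c.2)
  have h5 : (⟨x, h4⟩ : L21.F.aut) ∈ cjS c (Vb.subgroupOf L21.F.aut) :=
    mem_cjS.mpr (mem_cjS (c := (c : Perm (Fin 693))).mp hx)
  rwa [← hc.eq hS h3 (by rwa [card_cjS, e1, e2])] at h5

theorem kr_cj {c x : Perm (Fin 693)} (hc : c ∈ L21.F.aut) (hx : x ∈ L21.F.aut) (h : ∀ a ∈ cjS c Vb, Commute x a) :
    x * x = 1 := by
  have h1 : c⁻¹ * x * c ∈ L21.F.aut := mul_mem (mul_mem (inv_mem hc) hx) hc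
  have := J21.cq.ci.ea _ (J21.kr _ h1 fun j hj => (FS.commute_T_iff h1).mp (by
    have := (h (c * L21.F.T (sB J21.B j) * c⁻¹) (mem_cjS.mpr (by
      simpa [mul_assoc] using (J21.cq.rel j hj ▸ th_mem_sp _ : L21.F.T (sB J21.B j) ∈ Vb)))).map (MulAut.conj c⁻¹)
    simpa [mul_assoc] using this.eq))
  simpa [mul_assoc, mul_eq_one_iff_eq_inv, eq_comm] using congrArg (MulAut.conj c) this

theorem ea_closure {Γ : Type*} [Group Γ] {S : Set Γ} (h1 : ∀ s ∈ S, s * s = 1)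
    (h2 : ∀ s ∈ S, ∀ t ∈ S, Commute s t) : EA (Subgroup.closure S) := fun g hg => by
  have cc : ∀ {e g : Γ}, (∀ s ∈ S, Commute e s) → g ∈ Subgroup.closure S → Commute e g := fun {e g} h hg =>
    Subgroup.mem_centralizer_iff.mp ((Subgroup.closure_le (Subgroup.centralizer {e})).mpr
      (fun s hs => Subgroup.mem_centralizer_iff.mpr (by rintro _ rfl; exact h s hs)) hg) e rfl
  induction hg using Subgroup.closure_induction with
  | mem u hu => exact h1 u hu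
  | one => simp
  | mul a b ha hb iha ihb =>
    rw [(cc (fun s hs => (cc (h2 s hs) ha).symm) hb).symm.mul_mul_mul_comm, iha, ihb, mul_one]
  | inv a _ ih => rw [← mul_inv_rev, ih, inv_one]

variable {Q : Type u} [Group Q] [Finite Q] {ρ : Q →* Perm (Fin 693)} {N : Subgroup Q} {d : Q}
  {G : Type u} [Group G] [Finite G] {ι : Q →* G}

/-- The large elementary abelian subgroup. -/
noncomputable def VV (ρ : Q →* Perm (Fin 693)) (N : Subgroup Q) : Subgroup Q :=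
  (AA L21.F (sB J21.B) 9 (ρ.comp N.subtype)).map N.subtype

theorem mem_VV {x : Q} : x ∈ VV ρ N ↔ x ∈ N ∧ ρ x ∈ Vb :=
  ⟨by rintro ⟨a, ha, rfl⟩; exact ⟨a.2, ha⟩, fun ⟨h1, h2⟩ => ⟨⟨x, h1⟩, h2, rfl⟩⟩

/-- The data, with the statement on fixed points. -/
structure Gk (ι : Q →* G) (ρ : Q →* Perm (Fin 693)) (N : Subgroup Q) (d : Q) : Prop extends Gu ι ρ N d where
  fx : FixStmt.{u}

namespace Gk
variable (h : Gk ι ρ N d)
include h

theorem ex : Ex L21.F (ρ.comp N.subtype) ⟨d, h.dN⟩ :=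
  ⟨by rw [MonoidHom.range_comp, Subgroup.range_subtype, h.rng], fun a => (h.ker a a.2).trans
    (or_congr OneMemClass.coe_eq_one (Subtype.ext_iff (a2 := ⟨d, h.dN⟩)).symm),
    fun e => h.ne (congrArg Subtype.val e)⟩

theorem rho_d : ρ d = 1 := h.ex.rho_d

theorem d2 : d * d = 1 := congrArg Subtype.val h.ex.sq

theorem cd (g : Q) : g * d * g⁻¹ = d := by rw [h.dc, mul_inv_cancel_right]

theorem surj {x : Perm (Fin 693)} (hx : x ∈ L21.F.grp) : ∃ a ∈ N, ρ a = x := h.rng.ge hx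

theorem eq_or {a b : Q} (ha : a ∈ N) (hb : b ∈ N) (e : ρ a = ρ b) : a = b ∨ a = b * d :=
  (h.ex.eq_or (a := ⟨a, ha⟩) (b := ⟨b, hb⟩) e).imp (congrArg Subtype.val) (congrArg Subtype.val)

theorem cenN {k a : Q} (hk : ρ k = 1) (ha : a ∈ N) : Commute k a := by
  have := hom_eq_of_center h.perf (f := N.subtype) (g := (MulAut.conj k).toMonoidHom.comp N.subtype) fun b => by
    rcases h.eq_or (h.nor k b b.2) b.2 (by simp [hk]) with e | e
    · simp [e]
    · exact Subgroup.mem_center_iff.mpr fun g => by simp [e, h.dc g]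
  exact mul_inv_eq_iff_eq_mul.mp (congrArg (· ⟨a, ha⟩) this).symm

theorem dec {g : Q} (hg : ρ g ∈ L21.F.grp) : ∃ a ∈ N, ∃ k, ρ k = 1 ∧ g = a * k := by
  obtain ⟨a, ha, e⟩ := h.surj hg
  exact ⟨a, ha, a⁻¹ * g, by simp [e], by simp⟩

theorem sq_of {a : Q} (ha : a ∈ N) (e : ρ a * ρ a = 1) : a * a = 1 :=
  congrArg Subtype.val (mo21.sq h.ex (y := ⟨a, ha⟩) e)

theorem card_VV : Nat.card (VV ρ N) = 2 ^ 10 := by
  rw [VV, Subgroup.card_map_of_injective N.subtype_injective, J21.cq.card_AA h.ex]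

theorem ea : EA (VV ρ N) := by
  rintro _ ⟨a, ha, rfl⟩
  exact congrArg Subtype.val (mo21.ea h.ex a ha)

theorem d_mem : d ∈ VV ρ N := mem_VV.mpr ⟨h.dN, h.rho_d ▸ one_mem _⟩

theorem exists_conj {a : Q} (ha : a ∈ N) (e : a * a = 1) : ∃ c ∈ N, c * a * c⁻¹ ∈ VV ρ N := by
  obtain ⟨c, hc⟩ := mo21.exists_conj h.ex (y := ⟨a, ha⟩) (Subtype.ext e)
  exact ⟨c, c.2, mem_VV.mpr ⟨h.nor _ _ ha, hc⟩⟩

theorem fix {v l : Q} (hv : v ∈ VV ρ N) (hl : l ∈ VV ρ N) (hc : ∀ g ∈ N, Commute g v → Commute g l) :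
    ρ v = 1 ∨ ρ l = 1 ∨ ρ l = ρ v := by
  obtain ⟨v, hv, rfl⟩ := hv
  obtain ⟨l, hl, rfl⟩ := hl
  exact h.fx N _ _ h.ex v hv l hl fun g hg => Subtype.ext (hc g g.2 (congrArg Subtype.val hg.eq))

theorem far {g : G} {y k k' : Q} (e : g * ι d * g⁻¹ = ι y) (ne : y ≠ d) (hk : ρ k = 1) (hk' : ρ k' = 1) (k2 : k * k = 1)
    (e' : g * ι k * g⁻¹ = ι k') : k = 1 := by
  by_contra h1
  obtain ⟨c, rfl⟩ := h.te k k' hk hk' k2 h1 g e'
  exact ne (h.inj (by rw [← e, ← map_inv, ← map_mul, ← map_mul, h.cd]))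

theorem sq {g : G} {y : Q} (e : g * ι d * g⁻¹ = ι y) : y * y = 1 :=
  h.inj (by rw [map_mul, ← e, _root_.conj_mul, ← map_mul, h.d2]; simp)

theorem sq' {g : G} {a b : Q} (e : g * ι b * g⁻¹ = ι a) (h1 : a * a = 1) : b * b = 1 :=
  h.inj ((MulAut.conj g).injective (by
    rw [MulAut.conj_apply, map_mul, ← _root_.conj_mul, e, ← map_mul, h1]; simp))

theorem pull {g : G} {y a : Q} (e : g * ι d * g⁻¹ = ι y) (hc : Commute y a) : ∃ b, g * ι b * g⁻¹ = ι a := by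
  obtain ⟨b, hb⟩ := h.cen (g⁻¹ * ι a * g) (by
    simpa [← e, mul_assoc] using (hc.map ι).map (MulAut.conj g⁻¹))
  exact ⟨b, by rw [hb]; group⟩

theorem card_pull {g : G} {y : Q} (e : g * ι d * g⁻¹ = ι y) {B : Subgroup Q} (h1 : EA B) (hy : y ∈ B) :
    ∃ B' : Subgroup Q, EA B' ∧ Nat.card B' = Nat.card B ∧ (∀ b, b ∈ B' ↔ ∃ a ∈ B, g * ι b * g⁻¹ = ι a) ∧
      B'.map ρ ≤ L21.F.aut ∧ EA (B'.map ρ) := by
  have e1 : EA ((B.map ι).comap ((MulAut.conj g).toMonoidHom.comp ι)) := by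
    rintro b ⟨a, ha, e'⟩
    exact h.sq' e'.symm (h1 a ha)
  refine ⟨_, e1, ?_, fun b => ⟨fun ⟨a, ha, e⟩ => ⟨a, ha, e.symm⟩, fun ⟨a, ha, e⟩ => ⟨a, ha, e.symm⟩⟩, ?_, ?_⟩
  · rw [card_comap, (MonoidHom.ker_eq_bot_iff _).mpr ((MulAut.conj g).injective.comp h.inj), Subgroup.card_bot, mul_one,
      Subgroup.card_map_of_injective h.inj]
    rintro _ ⟨a, ha, rfl⟩
    exact h.pull e (h1.comm hy ha)
  · rintro _ ⟨a, -, rfl⟩
    exact h.aut a
  · rintro _ ⟨a, ha, rfl⟩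
    rw [← map_mul, e1 a ha, map_one]

theorem step2 {g : G} {a k s : Q} (e : g * ι d * g⁻¹ = ι (a * k)) (ne : a * k ≠ d) (ha : a ∈ VV ρ N) (hk : ρ k = 1)
    (k2 : k * k = 1) (hs : ρ s = 1) (s2 : s * s = 1) (hc : Commute s k) : s = 1 ∨ s = d := by
  by_contra H
  have c1 : EA (Subgroup.closure (insert s (insert k (VV ρ N : Set Q)))) := ea_closure (by
      rintro x (rfl | rfl | hx)
      exacts [s2, k2, h.ea x hx]) (by
      rintro x (rfl | rfl | hx) y (rfl | rfl | hy)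
      exacts [rfl, hc, h.cenN hs (mem_VV.mp hy).1, hc.symm, rfl, h.cenN hk (mem_VV.mp hy).1,
        (h.cenN hs (mem_VV.mp hx).1).symm, (h.cenN hk (mem_VV.mp hx).1).symm, h.ea.comm hx hy])
  have c2 : VV ρ N ≤ Subgroup.closure (insert s (insert k (VV ρ N : Set Q))) := fun x hx =>
    Subgroup.subset_closure (.inr (.inr hx))
  have c3 : Subgroup.closure (insert s (insert k (VV ρ N : Set Q))) ≤ Vb.comap ρ := (Subgroup.closure_le _).mpr (by
    rintro x (rfl | rfl | hx)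
    exacts [by simp [hs], by simp [hk], (mem_VV.mp hx).2])
  have c4 := mul_mem (c2 ha) (Subgroup.subset_closure (.inr (.inl rfl)) :
    k ∈ Subgroup.closure (insert s (insert k (VV ρ N : Set Q))))
  obtain ⟨B, -, b2, b3, b4, b5⟩ := h.card_pull e c1 c4
  have b6 := two_card_le c2 (Subgroup.subset_closure (.inl rfl)) fun hv => H ((h.ker s (mem_VV.mp hv).1).mp hs)
  have b7 := card_eq_map_mul ρ B
  have b8 := (jsA1 b4 b5).1
  have : ¬ ∀ x ∈ ρ.ker ⊓ B, x = 1 ∨ x = d := fun h' => by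
    have := Nat.mul_le_mul b8 (card_le_two h')
    rw [h.card_VV] at b6
    omega
  push Not at this
  obtain ⟨k', ⟨k1, k3⟩, k4, k5⟩ := this
  obtain ⟨b, hb, e'⟩ := (b3 k').mp k3
  have b2' := c1 b hb
  have k6 : k' * k' = 1 := h.sq' e' b2'
  obtain ⟨v, hv, e1⟩ := h.surj (Vb_le (c3 hb))
  replace hv : v ∈ VV ρ N := mem_VV.mpr ⟨hv, e1 ▸ c3 hb⟩
  have f2 : ρ a = ρ v → False := fun e2 => k5 (mul_eq_one_iff_eq_inv.mp (h.far e ne (k := k' * d) (k' := b * (a * k))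
    (by rw [map_mul, k1, h.rho_d, one_mul]) (by rw [map_mul, map_mul, hk, e2, e1, mul_one, ← map_mul, b2', map_one])
    (by rw [mul_assoc, ← mul_assoc d, ← h.dc, mul_assoc, h.d2, mul_one, k6])
    (by rw [map_mul, ← _root_.conj_mul, e, e', map_mul ι b])) |>.trans (inv_eq_of_mul_eq_one_right h.d2))
  rcases h.fix hv ha (fun c hc h1 => by
    have h2 : Commute c b := by
      simpa using h1.mul_right (h.cenN (k := v⁻¹ * b) (by simp [e1]) hc).symm
    obtain ⟨x, hx⟩ := h.te k' k' k1 k1 k6 k4 (g⁻¹ * ι c * g) (by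
      calc _ = g⁻¹ * (ι c * (g * ι k' * g⁻¹) * (ι c)⁻¹) * g := by group
        _ = _ := by rw [e', (h2.map ι).eq, mul_inv_cancel_right, ← e']; group)
    have h3 : Commute c (a * k) := h.inj (by
      have := congrArg (fun t => g * ι t * g⁻¹) (h.dc x)
      rw [map_mul, map_mul ι (a * k), ← e]
      simpa [hx, mul_assoc] using this)
    simpa [mul_assoc, k2] using h3.mul_right (h.cenN hk hc).symm) with f | f | f
  · exact k4 (h.far e ne k1 (e1 ▸ f) k6 e')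
  · exact h.ne (h.far e ne h.rho_d (by simp [f, hk]) h.d2 e)
  · exact f2 f

variable (hn : U6S.Inn ι ρ d)
include hn

theorem exists_V : ∃ g, ∃ y ∈ VV ρ N, g * ι d * g⁻¹ = ι y ∧ y ≠ d := by
  obtain ⟨g, y, e, ne, hy⟩ := hn
  obtain ⟨a, ha, k, hk, rfl⟩ := h.dec hy
  have yy := h.sq e
  have a2 := h.sq_of ha (by simpa [hk] using congrArg ρ yy)
  have k2 : k * k = 1 := by
    rwa [(h.cenN hk ha).mul_mul_mul_comm, a2, one_mul] at yy
  obtain ⟨c, hc, h1⟩ := h.exists_conj ha a2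
  have e1 : c * (a * k) * c⁻¹ = c * a * c⁻¹ * k := by rw [mul_assoc _ _ k, ← (h.cenN hk (inv_mem hc)).eq]; group
  have e2 : ι c * g * ι d * (ι c * g)⁻¹ = ι (c * a * c⁻¹ * k) := by rw [← e1, map_mul, map_mul, ← e, map_inv]; group
  have ne' : c * a * c⁻¹ * k ≠ d := fun e => ne (by rw [← e1] at e; rw [← h.cd c⁻¹, ← e]; group)
  refine ⟨_, _, mul_mem h1 ?_, e2, ne'⟩
  rcases h.step2 e2 ne' h1 hk k2 hk k2 rfl with rfl | rfl
  exacts [one_mem _, h.d_mem]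

theorem uniq {s : Q} (hs : ρ s = 1) (s2 : s * s = 1) : s = 1 ∨ s = d := by
  obtain ⟨g, y, hy, e, ne⟩ := h.exists_V hn
  exact h.step2 (k := 1) (by rwa [mul_one]) (by rwa [mul_one]) hy (map_one ρ) (mul_one 1) hs s2 (Commute.one_right s)

theorem big {g : G} {y : Q} (e : g * ι d * g⁻¹ = ι y) (hy : y ∈ VV ρ N) : ∃ c ∈ L21.F.aut, ∀ x ∈ cjS c Vb,
    ∃ b, ρ b = x ∧ ∃ a ∈ VV ρ N, g * ι b * g⁻¹ = ι a := by
  obtain ⟨B, b1, b2, b3, b4, b5⟩ := h.card_pull e h.ea hy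
  have b7 := card_eq_map_mul ρ B
  have b8 := card_le_two (A := ρ.ker ⊓ B) fun x hx => h.uniq hn hx.1 (b1 x hx.2)
  obtain ⟨c, hc, h1⟩ := (jsA1 b4 b5).2 (by
    have := Nat.mul_le_mul_left (Nat.card (B.map ρ)) b8
    rw [h.card_VV] at b2
    omega)
  refine ⟨c, hc, fun x hx => ?_⟩
  obtain ⟨b, hb, e⟩ := h1 hx
  exact ⟨b, e, (b3 b).mp hb⟩

theorem not_sq {k : Q} (hk : ρ k = 1) : k * k ≠ d := fun e0 => by
  obtain ⟨g, y, hy, e, ne⟩ := h.exists_V hn
  obtain ⟨c, hc, h1⟩ := h.big hn e hy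
  obtain ⟨k', hk'⟩ := h.pull e (h.cenN hk (mem_VV.mp hy).1).symm
  have h2 := kr_cj hc (h.aut k') fun x hx => by
    obtain ⟨b, rfl, a, ha, e'⟩ := h1 x hx
    exact Commute.map (h.inj ((MulAut.conj g).injective (by
      simpa only [map_mul, MulAut.conj_apply, hk', e'] using ((h.cenN hk (mem_VV.mp ha).1).map ι).eq))) ρ
  have h3 : g * ι (k' * k') * g⁻¹ = ι d := by rw [map_mul, ← _root_.conj_mul, hk', ← map_mul, e0]
  have h4 := h.far e ne (by rw [map_mul, h2]) h.rho_d (h.sq' h3 h.d2) h3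
  exact h.ne (h.inj (by rw [← h3, h4]; simp))

theorem ker_eq (hO : ∀ M : Subgroup Q, M.Normal → Odd (Nat.card M) → M = ⊥) {k : Q} (hk : ρ k = 1) : k = 1 ∨ k = d := by
  have : Fact (Nat.Prime 2) := ⟨Nat.prime_two⟩
  let δ : ρ.ker := ⟨d, h.rho_d⟩
  have δ2 : δ * δ = 1 := Subtype.ext h.d2
  have δ1 : δ ≠ 1 := fun e => h.ne (congrArg Subtype.val e)
  have δo : orderOf δ = 2 := orderOf_eq_prime (by rwa [pow_two]) δ1
  have hz : ∀ x, x ∈ Subgroup.zpowers δ ↔ x = 1 ∨ x = δ := fun x => by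
    classical
    rw [mem_zpowers_iff_mem_range_orderOf, δo]
    simp [Finset.range_add_one, or_comm]
  have : (Subgroup.zpowers δ).Normal := ⟨fun x hx g => by
    rcases (hz x).mp hx with rfl | rfl
    exacts [by simp, (hz _).mpr (.inr (Subtype.ext (h.cd g)))]⟩
  have ho : Odd (Subgroup.zpowers δ).index := Nat.not_even_iff_odd.mp fun he => by
    obtain ⟨x, hx⟩ := exists_prime_orderOf_dvd_card' (G := ρ.ker ⧸ Subgroup.zpowers δ) 2 he.two_dvd
    induction x using QuotientGroup.induction_on with | H x => ?_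
    have h1 : x * x ∈ Subgroup.zpowers δ := (QuotientGroup.eq_one_iff _).mp (by
      rw [QuotientGroup.mk_mul, ← pow_two, ← hx, pow_orderOf_eq_one])
    rcases (hz _).mp h1 with e | e
    · rw [(QuotientGroup.eq_one_iff x).mpr ((hz x).mpr ((h.uniq hn x.2 (congrArg Subtype.val e)).imp Subtype.ext
        Subtype.ext)), orderOf_one] at hx
      exact absurd hx (by decide)
    · exact h.not_sq hn x.2 (congrArg Subtype.val e)
  obtain ⟨V, hV⟩ := exists_hom_of_odd_index (Subgroup.zpowers δ) ⊥ δ ho (fun g => Subtype.ext (h.dc g)) δ2 δ1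
    fun g hg => ((hz g).mp hg).imp id fun e => by rw [e]; exact δ2
  have h1 : Odd (Nat.card V.ker) := by
    have a := V.ker.card_mul_index
    rw [Subgroup.index_ker, MonoidHom.range_eq_top.mpr fun u => by
      rcases Int.units_eq_one_or u with rfl | rfl
      exacts [⟨1, map_one V⟩, ⟨δ, hV⟩], ← (Subgroup.zpowers δ).card_mul_index, Nat.card_zpowers, δo, Subgroup.card_top,
      Nat.card_eq_fintype_card (α := ℤˣ), Fintype.card_units_int, mul_comm] at a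
    exact Nat.eq_of_mul_eq_mul_left two_pos a ▸ ho
  have h2 := hO (V.ker.map ρ.ker.subtype) ⟨by
    rintro _ ⟨x, hx, rfl⟩ g
    refine ⟨⟨g * x * g⁻¹, by simp [MonoidHom.mem_ker.mp x.2]⟩, ?_, rfl⟩
    have h3 : x ^ Nat.card V.ker = 1 := congrArg Subtype.val (pow_card_eq_one' (x := (⟨x, hx⟩ : V.ker)))
    rcases Int.units_eq_one_or (V ⟨g * x * g⁻¹, by simp [MonoidHom.mem_ker.mp x.2]⟩) with e | e
    · exact e
    · have h4 := congrArg (· ^ Nat.card V.ker) e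
      simp only [← map_pow, h1.neg_one_pow] at h4
      rw [show (⟨g * x * g⁻¹, _⟩ : ρ.ker) ^ Nat.card V.ker = 1 from Subtype.ext (by
        simpa using congrArg Subtype.val h3), map_one] at h4
      exact absurd h4 (by decide)⟩ (by rwa [Subgroup.card_map_of_injective Subtype.val_injective])
  rcases Int.units_eq_one_or (V ⟨k, hk⟩) with e | e
  · exact .inl (h2.le ⟨⟨k, hk⟩, e, rfl⟩)
  · exact .inr ((mul_eq_one_iff_eq_inv.mp (h2.le ⟨⟨k, hk⟩ * δ, by simp [e, hV], rfl⟩)).trans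
      (inv_eq_of_mul_eq_one_right h.d2))

end Gk

theorem ker : KerStmt.{u} := fun hf _ _ _ _ _ _ _ _ _ _ h hn hO _ hk => Gk.ker_eq ⟨h, hf⟩ hn hO hk

end Cfsg.Agent.H36.U6K
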